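import Cfsg.Agent.Lib.SLin.FlavSec
import Cfsg.Agent.Lib.FT.Wielandt
import Cfsg.Agent.Lib.FT.BG10T2
import Cfsg.Agent.Lib.FrobBasic
import Cfsg.Agent.Lib.CommCalc
import Cfsg.Agent.Lib.H1Amb

/-!
# Generation of the fixed points in `[H, P]` by those in the subgroups `[h, P]`: basics
-/

set_option autoImplicit false

namespace CfsgLib.SLin.FG

open Subgroup Cfsg
open scoped commutatorElement

universe u

variable {X : Type u} [Group X]

/-- `[h, ⟨x⟩]` -/
def cm (x h : X) : Subgroup X := closure {c | ∃ i : ℕ, c = h⁻¹ * (x ^ i * h * (x ^ i)⁻¹)}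

/-- the subgroup generated by the fixed points in the subgroups `[h, ⟨x⟩]` -/
def DD (x : X) (H : Subgroup X) : Subgroup X :=
  ⨆ h : H, cm x h ⊓ centralizer (zpowers x : Set X)

theorem mem_cm (x h : X) (i : ℕ) : h⁻¹ * (x ^ i * h * (x ^ i)⁻¹) ∈ cm x h :=
  subset_closure ⟨i, rfl⟩

theorem cm_le_iff {x h : X} {K : Subgroup X} :
    cm x h ≤ K ↔ ∀ i : ℕ, h⁻¹ * (x ^ i * h * (x ^ i)⁻¹) ∈ K :=
  ⟨fun e i => e (mem_cm x h i), fun e => (closure_le _).2 (by rintro _ ⟨i, rfl⟩; exact e i)⟩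

theorem cm_le {x h : X} {H : Subgroup X} (hx : zpowers x ≤ normalizer (H : Set X)) (hh : h ∈ H) :
    cm x h ≤ H := cm_le_iff.2 fun i =>
  mul_mem (inv_mem hh) (Cop.conj_mem_of_le_normalizer hx (pow_mem (mem_zpowers x) i) hh)

theorem map_cm {Y : Type*} [Group Y] (f : X →* Y) (x h : X) :
    (cm x h).map f = cm (f x) (f h) := by
  rw [cm, MonoidHom.map_closure]
  congr 1
  ext y
  simp only [Set.mem_image, Set.mem_setOf_eq]
  exact ⟨by rintro ⟨_, ⟨i, rfl⟩, rfl⟩; exact ⟨i, by simp⟩,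
    by rintro ⟨i, rfl⟩; exact ⟨_, ⟨i, rfl⟩, by simp⟩⟩

theorem mem_norm_of_map_le [Finite X] {g : X} {K : Subgroup X}
    (h : K.map (MulAut.conj g).toMonoidHom ≤ K) : g ∈ normalizer (K : Set X) :=
  mem_normalizer_of_conj_mem fun _ hk => h (mem_map_of_mem _ hk)

theorem norm_cm [Finite X] (x h : X) : zpowers x ≤ normalizer (cm x h : Set X) :=
  zpowers_le.2 (mem_norm_of_map_le (by
    rw [map_le_iff_le_comap, cm_le_iff]
    intro i
    have := mul_mem (inv_mem (mem_cm x h 1)) (mem_cm x h (i + 1))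
    simpa [mul_assoc, pow_succ'] using this))

theorem cm_le_of_mul {x g n : X} {N : Subgroup X} [hN : N.Normal] (hn : n ∈ N)
    (h : cm x (g * n) ≤ N) : cm x g ≤ N := cm_le_iff.2 fun i => by
  simpa [mul_assoc] using mul_mem (mul_mem hn (cm_le_iff.1 h i))
    (hN.conj_mem _ (inv_mem hn) (x ^ i))

theorem commutator_le_of_cm [Finite X] {x : X} {H K : Subgroup X} (h : ∀ g ∈ H, cm x g ≤ K) :
    ⁅H, zpowers x⁆ ≤ K := commutator_le.2 fun g hg y hy => by
  obtain ⟨i, rfl⟩ := mem_powers_iff_mem_zpowers.2 hy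
  simpa [commutatorElement_def, mul_assoc] using h _ (inv_mem hg) (mem_cm x g⁻¹ i)

theorem le_DD {x h : X} {H : Subgroup X} (hh : h ∈ H) :
    cm x h ⊓ centralizer (zpowers x : Set X) ≤ DD x H :=
  le_iSup (fun h : H => cm x h ⊓ centralizer (zpowers x : Set X)) ⟨h, hh⟩

theorem DD_le {x : X} {H K : Subgroup X}
    (h : ∀ g ∈ H, cm x g ⊓ centralizer (zpowers x : Set X) ≤ K) : DD x H ≤ K :=
  iSup_le fun g => h g g.2

theorem DD_mono {x : X} {H K : Subgroup X} (h : H ≤ K) : DD x H ≤ DD x K :=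
  DD_le fun _ hg => le_DD (h hg)

theorem DD_le_inf {x : X} {H : Subgroup X} (hx : zpowers x ≤ normalizer (H : Set X)) :
    DD x H ≤ H ⊓ centralizer (zpowers x : Set X) :=
  DD_le fun _ hg => inf_le_inf_right _ (cm_le hx hg)

theorem map_DD_le {Y : Type*} [Group Y] (f : X →* Y) (x : X) (H : Subgroup X) :
    (DD x H).map f ≤ DD (f x) (H.map f) :=
  map_le_iff_le_comap.2 (DD_le fun g hg => map_le_iff_le_comap.1 ((map_inf_le _ _ _).trans
    (le_trans (inf_le_inf (map_cm f x g).le (by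
      rw [← MonoidHom.map_zpowers]; exact map_centralizer_le_centralizer_image _ f))
      (le_DD (mem_map_of_mem f hg)))))

theorem norm_DD [Finite X] {x : X} {H : Subgroup X} :
    H ⊓ centralizer (zpowers x : Set X) ≤ normalizer (DD x H : Set X) := fun c hc =>
  mem_norm_of_map_le ((map_DD_le _ x H).trans (by
    have : (MulAut.conj c).toMonoidHom x = x := by
      simp [← hc.2 x (mem_zpowers x)]
    rw [this]
    exact DD_mono (Cop.map_conj_le_of_mem le_rfl hc.1)))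

theorem DD_map_le [Finite X] {Y : Type*} [Group Y] (f : X →* Y) {x : X} {H : Subgroup X}
    (hx : zpowers x ≤ normalizer (H : Set X)) (hc : (Nat.card (zpowers x)).Coprime (Nat.card H)) :
    DD (f x) (H.map f) ≤ (DD x H).map f := DD_le (by
  rintro _ ⟨g, hg, rfl⟩
  rw [← map_cm, ← MonoidHom.map_zpowers, Cop.map_inf_centralizer_map f (norm_cm x g)
    (hc.coprime_dvd_right (card_dvd_of_le (inf_le_left.trans (cm_le hx hg))))
    (Or.inl inferInstance)]
  exact map_mono (le_DD hg))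

theorem pow_mem_der_of_central [Finite X] {H T : Subgroup X} (hT : T ≤ H) {v : X} (hv : v ∈ T)
    (hc : v ∈ centralizer (H : Set X)) (hd : v ∈ ⁅H, H⁆) : v ^ T.relIndex H ∈ ⁅T, T⁆ := by
  have key : ∀ (k : ℕ) (g : H), g⁻¹ * (⟨v, hT hv⟩ : H) ^ k * g ∈ T.subgroupOf H →
      g⁻¹ * (⟨v, hT hv⟩ : H) ^ k * g = ⟨v, hT hv⟩ ^ k := fun k g _ => Subtype.ext (by
    simp [mul_assoc, ← pow_mem hc k g g.2])
  have h1 := MonoidHom.transfer_eq_pow (Abelianization.of (G := T.subgroupOf H)) _ key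
  rw [← map_subtype_commutator] at hd
  obtain ⟨w, hw, e⟩ := hd
  obtain rfl : w = ⟨v, hT hv⟩ := Subtype.ext e
  rw [Abelianization.commutator_subset_ker _ hw, eq_comm, ← MonoidHom.mem_ker,
    Abelianization.ker_of] at h1
  have h2 := mem_map_of_mem H.subtype (mem_map_of_mem (T.subgroupOf H).subtype h1)
  rwa [map_subtype_commutator, map_commutator, map_subgroupOf_eq_of_le hT] at h2

end CfsgLib.SLin.FG
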