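import Cfsg.Agent.Lib.SLin.FixGen

/-!
# Generation of fixed points: the minimal counterexample, noncentral case
-/

set_option autoImplicit false

namespace CfsgLib.SLin.FG

open Subgroup Cfsg
open scoped commutatorElement

universe u

variable {X : Type u} [Group X]

/-- a minimal counterexample -/
structure Ctx (p : ℕ) (x : X) (H : Subgroup X) : Prop where
  prime : p.Prime
  two : p ≠ 2
  ord : orderOf x = p
  top : H ⊔ zpowers x = ⊤
  norm : zpowers x ≤ normalizer (H : Set X)
  sol : Group.IsSolvable H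
  cop : (Nat.card (zpowers x)).Coprime (Nat.card H)
  comm : ⁅H, zpowers x⁆ = H
  sub : ∀ K < H, zpowers x ≤ normalizer (K : Set X) →
    ⁅K, zpowers x⁆ ⊓ centralizer (zpowers x : Set X) ≤ DD x H
  quo : ∀ V : Subgroup X, V.Normal → V ≠ ⊥ → V ≤ H →
    H ⊓ centralizer (zpowers x : Set X) ≤ V ⊔ DD x H
  bad : ¬ H ⊓ centralizer (zpowers x : Set X) ≤ DD x H

namespace Ctx

variable {p : ℕ} {x : X} {H : Subgroup X} (c : Ctx p x H)
include c

theorem normal_of {N : Subgroup X} (h1 : H ≤ normalizer (N : Set X))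
    (h2 : zpowers x ≤ normalizer (N : Set X)) : N.Normal :=
  normalizer_eq_top_iff.1 (top_le_iff.1 (c.top.ge.trans (sup_le h1 h2)))

theorem normal : H.Normal := c.normal_of le_normalizer c.norm

theorem cop' {K : Subgroup X} (h : K ≤ H) : (Nat.card (zpowers x)).Coprime (Nat.card K) :=
  c.cop.coprime_dvd_right (card_dvd_of_le h)

theorem cm_ne {h : X} (hh : h ∈ H) : cm x h ≠ H := fun e =>
  c.bad ((inf_le_inf_right _ e.ge).trans (le_DD hh))

theorem le_of_mem {N : Subgroup X} [N.Normal] (h : zpowers x ≤ N) : H ≤ N :=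
  c.comm.ge.trans ((commutator_mono le_rfl h).trans (commutator_le_right _ _))

variable [Finite X]

theorem split {K : Subgroup X} (h : K ≤ H) (hK : zpowers x ≤ normalizer (K : Set X)) :
    ⁅K, zpowers x⁆ ⊔ (K ⊓ centralizer (zpowers x : Set X)) = K :=
  Cop.commutator_sup_centralizer hK (c.cop' h) (Or.inl inferInstance)

theorem quo' {V : Subgroup X} [hV : V.Normal] (h1 : V ≠ ⊥) (h : V ≤ H) :
    H ⊓ centralizer (zpowers x : Set X) ≤ (V ⊓ centralizer (zpowers x : Set X)) ⊔ DD x H :=
  fun g hg => by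
    obtain ⟨v, hv, d, hd, rfl⟩ := (mem_sup_iff_of_le_normalizer' le_normalizer_of_normal).1
      (c.quo V hV h1 h hg)
    exact mul_mem_sup ⟨hv, (Subgroup.mul_mem_cancel_right _ (DD_le_inf c.norm hd).2).1 hg.2⟩ hd

theorem not_le {V : Subgroup X} [V.Normal] (h1 : V ≠ ⊥) (h : V ≤ H) :
    ¬ V ⊓ centralizer (zpowers x : Set X) ≤ DD x H := fun e =>
  c.bad ((c.quo' h1 h).trans (sup_le e le_rfl))

theorem cent_of_lt {V K : Subgroup X} (hV : IsMinNormal V) (hVH : V ≤ H)
    (hn : ¬ H ≤ centralizer (V : Set X)) (hK : V ⊔ K < H)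
    (hx : zpowers x ≤ normalizer (K : Set X)) : K ≤ centralizer (V : Set X) := by
  have := hV.1
  have := c.normal
  have hab := hV.isMulCommutative_of_isSolvable (Cop.solvable_of_le c.sol hVH)
  have hVV : ⁅V, V⁆ = ⊥ := commutator_self_eq_bot_iff.2 hab
  obtain ⟨W, hW⟩ : ∃ W, W = (V ⊓ DD x H) ⊔ ⁅V, zpowers x⁆ := ⟨_, rfl⟩
  have hWV : W ≤ V := hW ▸ sup_le inf_le_left (commutator_le_left _ _)
  have hW1 : V ⊓ DD x H ≤ W := hW ▸ le_sup_left
  have hW2 : ⁅V, zpowers x⁆ ≤ W := hW ▸ le_sup_right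
  have hne : W ≠ V := fun e => c.not_le hV.2.1 hVH fun v hv => by
    obtain ⟨d, hd, k, hk, rfl⟩ := (mem_sup_iff_of_le_normalizer (inf_le_left.trans
      (Cop.le_normalizer_of_commutator_le (hVV.le.trans bot_le) (commutator_le_left _ _)))).1
      (hW ▸ e.ge hv.1)
    rw [mem_bot.1 ((Cop.commutator_inf_centralizer_eq_bot le_normalizer_of_normal (c.cop' hVH)
      hab).le ⟨hk, (Subgroup.mul_mem_cancel_left _ (DD_le_inf c.norm hd.2).2).1 hv.2⟩), mul_one]
    exact hd.2
  have sup : ∀ A B : Subgroup X, ⁅V, A⁆ ≤ W → ⁅V, B⁆ ≤ W → ⁅V, A ⊔ B⁆ ≤ W := fun A B h1 h2 =>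
    CommCalc.commutator_sup_right_le (Cop.le_normalizer_of_commutator_le h1 hWV)
      (Cop.le_normalizer_of_commutator_le h2 hWV) h1 h2
  have hVW : V ≤ normalizer (W : Set X) :=
    Cop.le_normalizer_of_commutator_le (hVV.le.trans bot_le) hWV
  have hC : ⁅V, H ⊓ centralizer (zpowers x : Set X)⁆ ≤ W := by
    refine (commutator_mono le_rfl (c.quo' hV.2.1 hVH)).trans (sup _ _
      ((commutator_mono le_rfl inf_le_left).trans (hVV.le.trans bot_le)) ?_)
    conv_lhs => rw [← c.split hVH le_normalizer_of_normal]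
    refine CommCalc.commutator_sup_left_le ((commutator_le_left _ _).trans hVW)
      (inf_le_left.trans hVW) (le_trans (Cop.commutator_le_left_of_le_normalizer
        (Cop.le_normalizer_commutator le_normalizer_of_normal ((DD_le_inf c.norm).trans
          (inf_le_right.trans (centralizer_le_normalizer _))))) hW2) (le_trans (le_inf
            ((commutator_mono inf_le_left le_rfl).trans (commutator_le_left _ _)) ?_) hW1)
    rw [Subgroup.commutator_comm]
    exact Cop.commutator_le_left_of_le_normalizer ((inf_le_inf_right _ hVH).trans norm_DD)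
  have hA : ∀ K, V ≤ K → K < H → zpowers x ≤ normalizer (K : Set X) → ⁅V, K⁆ ≤ W :=
    fun K h1 h2 h3 => by
    rw [← c.split h2.le h3]
    refine sup _ _ (le_trans (le_inf (commutator_le_left _ _) ?_ :
      _ ≤ V ⊓ ⁅K, zpowers x⁆) ?_) ((commutator_mono le_rfl (inf_le_inf_right _ h2.le)).trans hC)
    · rw [Subgroup.commutator_comm]
      exact Cop.commutator_le_left_of_le_normalizer (h1.trans (normalizer_commutator_ge_left _ _))
    · rw [← c.split (inf_le_left.trans hVH) (H1.le_normalizer_inf le_normalizer_of_normal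
        (normalizer_commutator_ge_right _ _))]
      exact sup_le ((commutator_mono inf_le_left le_rfl).trans hW2) (le_trans (le_inf
        (inf_le_left.trans inf_le_left)
        ((inf_le_inf_right _ inf_le_right).trans (c.sub K h2 h3))) hW1)
  have hB : ∀ N : Subgroup X, N.Normal → ⁅V, N⁆ ≤ W → ⁅V, N⁆ = ⊥ := fun N _ h =>
    (hV.2.2 _ inferInstance (h.trans hWV)).resolve_right fun e => hne (le_antisymm hWV (e ▸ h))
  have hD : V ⊔ ⁅H, H⁆ < H := by
    refine lt_of_le_of_ne (sup_le hVH (commutator_le_left _ _)) fun e => hn ?_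
    have h1 : ∀ n, H ≤ V ⊔ (derivedSeries H n).map H.subtype := fun n => by
      induction n with
      | zero => simp [← MonoidHom.range_eq_map]
      | succ n ih =>
        refine e.ge.trans (sup_le le_sup_left ((commutator_mono ih ih).trans ?_))
        have hN : (derivedSeries H n).map H.subtype ≤ normalizer
            ((V ⊔ (derivedSeries H (n + 1)).map H.subtype : Subgroup X) : Set X) :=
          H1.le_normalizer_sup le_normalizer_of_normal (by
            rw [derivedSeries_succ, map_commutator]; exact normalizer_commutator_ge_left _ _)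
        refine CommCalc.commutator_sup_left_le (le_sup_left.trans le_normalizer) hN
          ((commutator_le_left _ _).trans le_sup_left) (CommCalc.commutator_sup_right_le
            (le_sup_left.trans le_normalizer) hN ((commutator_le_right _ _).trans le_sup_left) ?_)
        rw [derivedSeries_succ, map_commutator]
        exact le_sup_right
    obtain ⟨n, hn⟩ := c.sol.solvable
    have := h1 n
    rw [hn, Subgroup.map_bot, sup_bot_eq] at this
    exact this.trans (le_centralizer V)
  have hD' := hB _ inferInstance (hA _ le_sup_left hD le_normalizer_of_normal)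
  have hx' : zpowers x ≤ normalizer ((V ⊔ K : Subgroup X) : Set X) :=
    H1.le_normalizer_sup le_normalizer_of_normal hx
  have h2 := hB ((V ⊔ K) ⊔ ⁅H, H⁆) (c.normal_of (Cop.le_normalizer_of_commutator_le le_sup_right
    (sup_le hK.le (commutator_le_left _ _))) (H1.le_normalizer_sup hx' le_normalizer_of_normal))
    (sup _ _ (hA _ le_sup_left hK hx')
      ((commutator_mono le_rfl le_sup_right).trans (hD'.le.trans bot_le)))
  exact (le_sup_right.trans le_sup_left).trans (Cop.commutator_eq_bot_iff_le_centralizer'.1 h2)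

theorem caseA {V : Subgroup X} (hV : IsMinNormal V) (hVH : V ≤ H) :
    H ≤ centralizer (V : Set X) := by
  by_contra hn
  have := hV.1
  have := c.normal
  have := Fact.mk c.prime
  obtain ⟨l, hl, hVl⟩ := hV.exists_isPGroup (Cop.solvable_of_le c.sol hVH)
  have := Fact.mk hl
  have hab := hV.isMulCommutative_of_isSolvable (Cop.solvable_of_le c.sol hVH)
  have hVV : V ≤ centralizer (V : Set X) := le_centralizer V
  have hsup : ∀ K ≤ H, zpowers x ≤ normalizer (K : Set X) → ¬ K ≤ centralizer (V : Set X) →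
      V ⊔ K = H := fun K h1 h2 h3 => by_contra fun e =>
    h3 (c.cent_of_lt hV hVH hn (lt_of_le_of_ne (sup_le hVH h1) e) h2)
  have hxC : zpowers x ≤ centralizer ((centralizer (zpowers x : Set X) : Subgroup X) : Set X) :=
    le_centralizer_iff.1 le_rfl
  have hC : H ⊓ centralizer (zpowers x : Set X) ≤ centralizer (V : Set X) := by_contra fun e => by
    have h1 := hsup _ inf_le_left (Cop.le_normalizer_inf_centralizer c.norm le_normalizer) e
    refine hn (le_trans ?_ hVV)
    rw [← c.comm, ← h1]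
    exact CommCalc.commutator_sup_left_le le_normalizer_of_normal le_normalizer_of_normal
      (commutator_le_left _ _)
      ((commutator_eq_bot_iff_le_centralizer.2 inf_le_right).le.trans bot_le)
  obtain ⟨r, hr, R₁, hR₁, hxR₁, hn₁⟩ := FT.exists_inv_sylow_not_cent c.norm c.cop (Or.inr c.sol) hn
  obtain ⟨R, hR⟩ : ∃ R, R = ⁅R₁, zpowers x⁆ := ⟨_, rfl⟩
  have hRR : R ≤ R₁ := hR ▸ Cop.commutator_le_left_of_le_normalizer hxR₁
  have hRH := hRR.trans hR₁.le
  have hxR : zpowers x ≤ normalizer (R : Set X) := hR ▸ normalizer_commutator_ge_right _ _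
  have hRc : ⁅R, zpowers x⁆ = R := hR ▸ Cop.commutator_commutator_eq hxR₁ (c.cop' hR₁.le)
  have hRn : ¬ R ≤ centralizer (V : Set X) := fun e => hn₁ ((c.split hR₁.le hxR₁).ge.trans
    (sup_le (hR ▸ e) ((inf_le_inf_right _ hR₁.le).trans hC)))
  have hVR := hsup R hRH hxR hRn
  have hRp := hR₁.isPGroup.to_le hRR
  have hVC : V ⊓ centralizer (H : Set X) = ⊥ :=
    (hV.inf_eq_bot_or_le _).resolve_right fun e => hn (le_centralizer_iff.1 e)
  have hrl : r ≠ l := by
    rintro rfl
    exact inf_centralizer_ne_bot_of_isNilpotent (hVR ▸ IsPGroup.to_sup_of_normal_left hVl hRp :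
      IsPGroup r H).isNilpotent hVH le_normalizer_of_normal hV.2.1 hVC
  have hcop := IsPGroup.coprime_card_of_ne r l hrl R V hRp hVl
  have hVCR : V ⊓ centralizer (R : Set X) = ⊥ := le_bot_iff.1 (le_trans (le_inf inf_le_left
    (le_centralizer_iff.1 (hVR.ge.trans (sup_le (hVV.trans (centralizer_le inf_le_left))
      (le_centralizer_iff.1 inf_le_right))))) hVC.le)
  have hRD : R ⊓ centralizer (zpowers x : Set X) ≤ DD x H := by
    have := c.sub R (lt_of_le_of_ne hRH fun e => hV.2.1 (by
      rw [← inf_eq_bot_of_coprime hcop, inf_eq_right.2 (e ▸ hVH)])) hxR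
    rwa [hRc] at this
  have hZ : R ⊓ centralizer (V : Set X) = ⊥ := by_contra fun e => by
    have := c.normal_of (N := R ⊓ centralizer (V : Set X)) (hVR.ge.trans (sup_le
      ((le_centralizer_iff.1 inf_le_right).trans (centralizer_le_normalizer _))
      (H1.le_normalizer_inf le_normalizer le_normalizer_of_normal)))
      (H1.le_normalizer_inf hxR le_normalizer_of_normal)
    exact c.not_le e (inf_le_left.trans hRH) ((inf_le_inf_right _ inf_le_left).trans hRD)
  have hP : Nat.card (zpowers x) = p := by rw [Nat.card_zpowers, c.ord]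
  have hW := FT.Frobenius_Wielandt_card hxR (fun y hy h1 => le_bot_iff.1 (le_trans (le_inf
    inf_le_left ((inf_le_inf hRH (by rw [FT.cent1_eq_of_card_prime hP hy h1])).trans hC)) hZ.le))
    le_normalizer_of_normal le_normalizer_of_normal (Cop.solvable_of_le c.sol hVH) hcop
    (c.cop' hVH) hVCR
  obtain ⟨g, hg, hgn⟩ : ∃ g ∈ R, ¬ cm x g ≤ centralizer (V : Set X) := by
    by_contra! h
    exact hRn (hRc.ge.trans (commutator_le_of_cm h))
  have key : ∀ v ∈ V, ∃ n ∈ V, ⁅x, 1⁻¹ * n⁆ ∈ (⊥ : Subgroup X) ∧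
      ⁅g⁻¹ * x * g, v⁻¹ * n⁆ ∈ (⊥ : Subgroup X) := fun v hv => by
    have hgv := mul_mem (hRH hg) (inv_mem (hVH hv))
    have h1 := hsup _ (cm_le c.norm hgv) (norm_cm _ _) fun e =>
      hgn (cm_le_of_mul (inv_mem (hVV hv)) e)
    have h2 : V ⊔ (cm x (g * v⁻¹) ⊔ zpowers x) = ⊤ := by rw [← sup_assoc, h1, c.top]
    have h3 : (cm x (g * v⁻¹) ⊔ zpowers x) ⊓ V ≤ ⊥ := by
      refine ((hV.2.2 _ (normalizer_eq_top_iff.1 (top_le_iff.1 (h2.ge.trans (sup_le
        (Cop.le_normalizer_of_commutator_le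
          ((commutator_self_eq_bot_iff.2 hab).le.trans bot_le) inf_le_right)
        (H1.le_normalizer_inf le_normalizer le_normalizer_of_normal))))) inf_le_right).resolve_right
        fun e => c.cm_ne hgv (le_antisymm (cm_le c.norm hgv) (h1.ge.trans (sup_le
          (fun w hw => ?_) le_rfl)))).le
      obtain ⟨k, hk, y, hy, rfl⟩ := (mem_sup_iff_of_le_normalizer' (norm_cm _ _)).1 (e.ge hw).1
      rw [mem_bot.1 ((inf_eq_bot_of_coprime c.cop).le
        ⟨hy, (H.mul_mem_cancel_left (cm_le c.norm hgv hk)).1 (hVH hw)⟩), mul_one]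
      exact hk
    obtain ⟨n, hn, hRB⟩ := Cop.exists_conj_le_of_normal_sup_eq_top h2 hcop
      (Or.inr (Cop.solvable_of_le c.sol hVH))
    have hfix : ∀ b ∈ V, (∀ r ∈ R, ⁅r, b⁆ ∈ (⊥ : Subgroup X)) → b ∈ (⊥ : Subgroup X) :=
      fun b hb h => hVCR.le ⟨hb, fun r hr => commutatorElement_eq_one_iff_mul_comm.1 (h r hr)⟩
    have hx1 := hxR (mem_zpowers x)
    have hg1 := le_normalizer hg
    refine ⟨n, hn, comm_mem_of_conj_le le_normalizer_of_normal hx1 (le_normalizer_of_normal
      (mem_top _)) (commutator_self_eq_bot_iff.2 hab).le bot_le hfix h3 V.one_mem hn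
      (by simpa using mem_sup_right (mem_zpowers x)) hRB, comm_mem_of_conj_le
      le_normalizer_of_normal (mul_mem (mul_mem (inv_mem hg1) hx1) hg1) (le_normalizer_of_normal
      (mem_top _)) (commutator_self_eq_bot_iff.2 hab).le bot_le hfix h3 hv hn ?_ hRB⟩
    simpa [mul_assoc] using mul_mem_sup (mem_cm x (g * v⁻¹) 1) (mem_zpowers x)
  have hle : Nat.card V ≤ Nat.card ↥(V ⊓ centralizer (zpowers x : Set X)) ^ 2 := by
    rw [sq, ← Nat.card_prod]
    refine Nat.card_le_card_of_surjective (fun a => ⟨a.1 * (g⁻¹ * a.2 * g)⁻¹, mul_mem a.1.2.1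
      (inv_mem (hV.1.conj_mem' _ a.2.2.1 g))⟩) fun v => ?_
    obtain ⟨n, hn, h1, h2⟩ := key v v.2
    rw [mem_bot, commutatorElement_eq_one_iff_mul_comm] at h1 h2
    refine ⟨(⟨n, hn, ?_⟩, ⟨g * ((v : X)⁻¹ * n) * g⁻¹, hV.1.conj_mem _ (mul_mem (inv_mem v.2) hn) g,
      ?_⟩), Subtype.ext (by simp [mul_assoc])⟩
    · rw [H1.centralizer_zpowers_eq]
      exact mem_centralizer_singleton_iff.2 (by simpa using h1.symm)
    · rw [H1.centralizer_zpowers_eq]
      refine mem_centralizer_singleton_iff.2 ?_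
      simpa [mul_assoc] using congrArg (fun t => g * t * g⁻¹) h2.symm
  rw [hW, hP] at hle
  have h1 := (one_lt_card_iff_ne_bot _).2 fun e => c.not_le hV.2.1 hVH (e.le.trans bot_le)
  have h2 := (Nat.pow_le_pow_iff_right h1).1 hle
  have := c.prime.two_le
  exact c.two (by omega)

end Ctx

end CfsgLib.SLin.FG
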