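import Cfsg.Agent.Lib.SLin.FixGenA

/-!
# Generation of fixed points: the central case and the induction
-/

set_option autoImplicit false

namespace CfsgLib.SLin.FG

open Subgroup Cfsg
open scoped commutatorElement

universe u

variable {X : Type u} [Group X] [Finite X]

namespace Ctx

variable {p : ℕ} {x : X} {H : Subgroup X} (c : Ctx p x H)
include c

theorem min_le {V : Subgroup X} (hV : IsMinNormal V) (hVH : V ≤ H) :
    V ≤ centralizer (zpowers x : Set X) := by
  have := hV.1
  exact inf_eq_left.1 ((hV.2.2 _ (c.normal_of ((c.caseA hV hVH).trans ((centralizer_le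
    inf_le_left).trans (centralizer_le_normalizer _))) (Cop.le_normalizer_inf_centralizer
      le_normalizer_of_normal le_normalizer)) inf_le_left).resolve_left fun e =>
        c.not_le hV.2.1 hVH (e.le.trans bot_le))

omit [Finite X] in
theorem normal_of_central {N : Subgroup X} (h1 : N ≤ centralizer (H : Set X))
    (h2 : zpowers x ≤ normalizer (N : Set X)) : N.Normal :=
  c.normal_of ((le_centralizer_iff.1 h1).trans (centralizer_le_normalizer _)) h2

theorem DD_inf : DD x H ⊓ centralizer (H : Set X) = ⊥ := by_contra fun e => by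
  have h1 := inf_le_left.trans (b := DD x H) (a := DD x H ⊓ centralizer (H : Set X))
    (DD_le_inf c.norm)
  have := c.normal_of_central inf_le_right ((le_centralizer_iff.1 (h1.trans inf_le_right)).trans
    (centralizer_le_normalizer _))
  exact c.not_le e (h1.trans inf_le_left) (inf_le_left.trans inf_le_left)

theorem center_le : H ⊓ centralizer (H : Set X) ≤ centralizer (zpowers x : Set X) := by
  have := c.normal
  refine commutator_eq_bot_iff_le_centralizer.1 (by_contra fun e => ?_)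
  have h1 := commutator_le_left (H ⊓ centralizer (H : Set X)) (zpowers x)
  have := c.normal_of_central (h1.trans inf_le_right) (normalizer_commutator_ge_right _ _)
  obtain ⟨V, hV, h2⟩ := exists_isMinNormal_le _ e
  exact hV.2.1 (le_bot_iff.1 (le_trans (le_inf h2 (c.min_le hV (h2.trans (h1.trans inf_le_left))))
    (Cop.commutator_inf_centralizer_eq_bot (Cop.le_normalizer_inf_centralizer c.norm c.norm)
      (c.cop' inf_le_left) (le_centralizer_iff_isMulCommutative.1 (inf_le_right.trans (centralizer_le inf_le_left)))).le))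

theorem fix_le_der : H ⊓ centralizer (zpowers x : Set X) ≤ ⁅H, H⁆ :=
  Cop.inf_centralizer_le_commutator_of_eq c.norm c.cop c.comm

theorem pgroup : ∃ l : ℕ, l.Prime ∧ IsPGroup l H := by
  have := c.normal
  obtain ⟨V, hV, hVH⟩ := exists_isMinNormal_le H fun e => c.bad (by simp [e])
  have := hV.1
  obtain ⟨l, hl, hVl⟩ := hV.exists_isPGroup (Cop.solvable_of_le c.sol hVH)
  have := Fact.mk hl
  obtain ⟨T, hT, hxT, hVT⟩ := FT.exists_inv_sylow_ge c.norm c.cop (Or.inr c.sol) hVl hVH
    le_normalizer_of_normal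
  refine ⟨l, hl, by_contra fun hn => c.not_le hV.2.1 hVH fun v hv => ?_⟩
  have hVZ := le_centralizer_iff.1 (c.caseA hV hVH)
  have h1 := pow_mem_der_of_central hT.le (hVT hv.1) (hVZ hv.1) (c.fix_le_der ⟨hVH hv.1, hv.2⟩)
  have hD := DD_le_inf c.norm
  have hE : ⁅T ⊓ centralizer (zpowers x : Set X), T ⊓ centralizer (zpowers x : Set X)⁆ ≤
      DD x H := by
    have h2 := (inf_le_inf_right _ hT.le).trans (c.quo V hV.1 hV.2.1 hVH)
    have h3 := hVZ.trans ((centralizer_le (hD.trans inf_le_left)).trans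
      (centralizer_le_normalizer _))
    refine (commutator_mono h2 (inf_le_inf_right _ hT.le)).trans
      (CommCalc.commutator_sup_left_le h3 le_normalizer ((commutator_eq_bot_iff_le_centralizer.2
        (hVZ.trans (centralizer_le inf_le_left))).le.trans bot_le)
        (Cop.commutator_le_left_of_le_normalizer norm_DD))
  have hM : T ≤ normalizer ((⁅T, zpowers x⁆ : Subgroup X) : Set X) :=
    normalizer_commutator_ge_left _ _
  have hB := H1.le_normalizer_sup (inf_le_left.trans hM) (normalizer_commutator_ge_left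
    (T ⊓ centralizer (zpowers x : Set X)) (T ⊓ centralizer (zpowers x : Set X)))
  have h4 : ⁅T, T⁆ ≤ ⁅T, zpowers x⁆ ⊔ ⁅T ⊓ centralizer (zpowers x : Set X),
      T ⊓ centralizer (zpowers x : Set X)⁆ := by
    have e := (c.split hT.le hxT).ge
    refine (commutator_mono e le_rfl).trans (CommCalc.commutator_sup_left_le
      (le_sup_left.trans le_normalizer) hB ((Cop.commutator_le_left_of_le_normalizer hM).trans
        le_sup_left) ((commutator_mono le_rfl e).trans (CommCalc.commutator_sup_right_le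
          (le_sup_left.trans le_normalizer) hB ?_ le_sup_right)))
    rw [Subgroup.commutator_comm]
    exact (Cop.commutator_le_left_of_le_normalizer (inf_le_left.trans hM)).trans le_sup_left
  obtain ⟨k, hk, e, he, h5⟩ := (mem_sup_iff_of_le_normalizer' ((Cop.commutator_le_left_of_le_normalizer
    le_normalizer).trans (inf_le_left.trans hM))).1 (h4 h1)
  have h6 : v ^ T.relIndex H ∈ DD x H := h5 ▸ mul_mem (c.sub T (lt_of_le_of_ne hT.le fun e =>
    hn (e ▸ hT.isPGroup)) hxT ⟨hk, (Subgroup.mul_mem_cancel_right _ (hD (hE he)).2).1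
      (h5 ▸ pow_mem hv.2 _)⟩) (hE he)
  obtain ⟨m, hm⟩ := orderOf_eq_pow_of_mem_isPGroup hVl hv.1
  obtain ⟨j, hj⟩ := exists_pow_eq_self_of_coprime (x := v) (n := T.relIndex H)
    (hm ▸ (((Nat.Prime.coprime_iff_not_dvd hl).2 hT.not_dvd).symm.pow_right m))
  exact hj ▸ pow_mem h6 j

theorem der_le : ⁅H, H⁆ ≤ centralizer (H : Set X) := by
  have := c.normal
  obtain ⟨l, hl, hH⟩ := c.pgroup
  have := Fact.mk hl
  by_contra hn
  obtain ⟨W, hWle, ⟨hW, hWn⟩, hmin⟩ := exists_minimal_le_of_wellFoundedLT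
    (fun W : Subgroup X => W.Normal ∧ ¬ W ≤ centralizer (H : Set X)) ⁅H, H⁆ ⟨inferInstance, hn⟩
  have hWH := hWle.trans (commutator_le_left H H)
  have h1 : ⁅W, H⁆ ≤ centralizer (H : Set X) := by_contra fun e => hWn
    ((eq_bot_of_le_commutator_of_isNilpotent hH.isNilpotent hWH
      (hmin ⟨inferInstance, e⟩ (commutator_le_left _ _))).le.trans bot_le)
  have h0 := commutator_le_left W (zpowers x)
  have h2 : ¬ H ≤ centralizer ((⁅W, zpowers x⁆ : Subgroup X) : Set X) := fun e => hWn
    (le_centralizer_iff.1 (c.le_of_mem (Cop.commutator_eq_bot_iff_le_centralizer'.1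
      (Cop.commutator_eq_bot_of_commutator_commutator_eq_bot le_normalizer_of_normal (c.cop' hWH)
        (commutator_eq_bot_iff_le_centralizer.2 ((le_inf (h0.trans hWH)
          (le_centralizer_iff.1 e)).trans c.center_le))))))
  obtain ⟨g, hg, hgn⟩ : ∃ g ∈ H,
      ¬ cm x g ≤ centralizer ((⁅W, zpowers x⁆ : Subgroup X) : Set X) := by
    by_contra! h
    exact h2 (c.comm.ge.trans (commutator_le_of_cm h))
  have hK : cm x g ⊔ W ≤ H := sup_le (cm_le c.norm hg) hWH
  have h3 := c.sub _ (lt_of_le_of_ne hK fun e => c.cm_ne hg (Cop.eq_of_sup_frattini_eq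
    (cm_le c.norm hg) (e.ge.trans (sup_le_sup_left
      (hWle.trans (Cop.commutator_le_frattini_map hH)) _))))
    (H1.le_normalizer_sup (norm_cm _ _) le_normalizer_of_normal)
  have h4 : ⁅⁅W, zpowers x⁆, cm x g⁆ ≤ ⁅W, H⁆ := commutator_mono h0 (cm_le c.norm hg)
  refine hgn (Cop.commutator_eq_bot_iff_le_centralizer'.1 (le_bot_iff.1 (le_trans (le_inf
    (le_trans (le_inf ?_ ((le_inf (h4.trans (commutator_le_right _ _)) (h4.trans h1)).trans
      c.center_le)) h3) (h4.trans h1)) c.DD_inf.le)))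
  exact (commutator_mono (commutator_mono le_sup_right le_rfl) le_sup_left).trans
    (Cop.commutator_le_left_of_le_normalizer (normalizer_commutator_ge_left _ _))

theorem false : False := by
  have hH := c.normal
  have hz : ∀ a ∈ H, ∀ b ∈ H, ⁅a, b⁆ ∈ H ⊓ centralizer (H : Set X) := fun a ha b hb =>
    le_inf (commutator_le_left _ _) c.der_le (commutator_mem_commutator ha hb)
  have hz' : ∀ g ∈ H, ∀ a ∈ H, ∀ b ∈ H, Commute g ⁅a, b⁆ := fun g hg a ha b hb =>
    (hz a ha b hb).2 g hg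
  have hx : ∀ a ∈ H, x * a * x⁻¹ ∈ H := fun a ha => hH.conj_mem a ha x
  have hσ : ∀ a ∈ H, ∀ b ∈ H, ⁅x * a * x⁻¹, x * b * x⁻¹⁆ = ⁅a, b⁆ := fun a ha b hb => by
    rw [← conjugate_commutatorElement, c.center_le (hz a ha b hb) x (mem_zpowers x),
      mul_inv_cancel_right]
  have hf : ∀ k ∈ H.map (QuotientGroup.mk' (H ⊓ centralizer (H : Set X))),
      QuotientGroup.mk' _ x * k = k * QuotientGroup.mk' _ x → k = 1 := fun k hk e => by
    obtain ⟨a, ha, rfl⟩ := (Cop.map_mk'_inf_centralizer _ c.norm (c.cop' inf_le_left)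
      (Or.inl inferInstance)).le ⟨hk, by
        rw [MonoidHom.map_zpowers, H1.centralizer_zpowers_eq]
        exact mem_centralizer_singleton_iff.2 e.symm⟩
    exact (QuotientGroup.eq_one_iff a).2 ⟨ha.1, c.der_le (c.fix_le_der ha)⟩
  have h1 : ∀ k ∈ H, ⁅k, x * k * x⁻¹⁆ = 1 := fun k hk => by
    obtain ⟨_, ⟨a, ha, rfl⟩, e⟩ := Frob.exists_conj_eq_mul_of_fpf (fun k hk =>
      (hH.map _ (QuotientGroup.mk'_surjective _)).conj_mem k hk _) hf (mem_map_of_mem _ hk)
    have hd : a * x * a⁻¹ * x⁻¹ ∈ cm x a⁻¹ := by simpa [mul_assoc] using mem_cm x a⁻¹ 1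
    have hdH := cm_le c.norm (inv_mem ha) hd
    obtain ⟨z, hz1, rfl⟩ : ∃ z ∈ H ⊓ centralizer (H : Set X), k = a * x * a⁻¹ * x⁻¹ * z := by
      refine ⟨(a * x * a⁻¹ * x⁻¹)⁻¹ * k, QuotientGroup.eq.1 ?_, (mul_inv_cancel_left _ _).symm⟩
      change QuotientGroup.mk' _ _ = QuotientGroup.mk' _ _
      rw [map_mul, map_mul, map_mul, map_inv, map_inv, e, mul_inv_cancel_right]
    obtain ⟨d, e'⟩ : ∃ d, d = a * x * a⁻¹ * x⁻¹ := ⟨_, rfl⟩
    rw [← e'] at hd hdH ⊢
    have hd' := Cop.conj_mem_of_le_normalizer (norm_cm x a⁻¹) (mem_zpowers x) hd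
    have h2 := hz _ hdH _ (hx _ hdH)
    have h3 : Commute d (x * d * x⁻¹) := commutatorElement_eq_one_iff_commute.1 (c.DD_inf.le
      ⟨le_DD (inv_mem ha) ⟨(commutator_le_self _) (commutator_mem_commutator hd hd'),
        c.center_le h2⟩, h2.2⟩)
    have h4 : x * (d * z) * x⁻¹ = x * d * x⁻¹ * z := by
      rw [← mul_assoc, mul_assoc _ z, mul_assoc _ x⁻¹,
        c.center_le hz1 _ (inv_mem (mem_zpowers x))]
    rw [h4, commutatorElement_eq_one_iff_commute]
    exact (h3.mul_right (hz1.2 d hdH)).mul_left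
      (Commute.mul_right (Commute.symm (hz1.2 _ (hx _ hdH))) (Commute.refl z))
  have h2 : ∀ a ∈ H, ∀ b ∈ H, ⁅a, x * b * x⁻¹⁆ = ⁅x * a * x⁻¹, b⁆ := fun a ha b hb => by
    have e := h1 _ (mul_mem ha hb)
    rw [← conj_mul, CommCalc.comm_mul_left_of_commute (hz' _ ha _ hb _ (mul_mem (hx _ ha) (hx _ hb))),
      CommCalc.comm_mul_right_of_commute (hz' _ (hx _ ha) _ hb _ (hx _ hb)),
      CommCalc.comm_mul_right_of_commute (hz' _ (hx _ ha) _ ha _ (hx _ hb)), h1 a ha, h1 b hb,
      mul_one, one_mul] at e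
    rw [eq_inv_of_mul_eq_one_right e, commutatorElement_inv]
  refine c.bad (c.fix_le_der.trans ((commutator_eq_bot_iff_le_centralizer.2 fun b hb =>
    ((QuotientGroup.eq_one_iff b).1 (hf _ (mem_map_of_mem _ hb) ?_)).2).le.trans bot_le))
  have h3 : b⁻¹ * (x * (x * b * x⁻¹) * x⁻¹) ∈ H ⊓ centralizer (H : Set X) := by
    refine ⟨H.mul_mem (H.inv_mem hb) (hx _ (hx _ hb)), fun a ha => ?_⟩
    have ha' := hH.conj_mem' _ (inv_mem ha) x
    have e := (hσ _ ha' _ (hx _ hb)).trans (h2 _ ha' _ hb)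
    obtain ⟨B, hB⟩ : ∃ B, B = x * (x * b * x⁻¹) * x⁻¹ := ⟨_, rfl⟩
    rw [← hB] at e ⊢
    simpa [commutatorElement_def, mul_assoc] using congrArg (fun t => b⁻¹ * (a * t) * B) e.symm
  have h4 : Commute (QuotientGroup.mk' (H ⊓ centralizer (H : Set X)) x ^ 2)
      (QuotientGroup.mk' _ b) := by
    have e : QuotientGroup.mk' _ b = QuotientGroup.mk' _ _ := QuotientGroup.eq.2 h3
    simp only [map_mul, map_inv] at e
    rw [Commute, SemiconjBy, sq]
    conv_rhs => rw [e]
    simp [mul_assoc]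
  obtain ⟨j, hj⟩ := exists_pow_eq_self_of_coprime (x := x) (n := 2)
    (c.ord ▸ (Nat.coprime_primes Nat.prime_two c.prime).2 c.two.symm)
  have h5 := h4.pow_left j
  rw [← map_pow, ← map_pow, hj] at h5
  exact h5

end Ctx

theorem fix_gen {p : ℕ} (hp : p.Prime) (h2 : p ≠ 2) (n : ℕ) : ∀ (X : Type u) [Group X] [Finite X]
    (x : X) (H : Subgroup X), Nat.card H = n → orderOf x = p →
    zpowers x ≤ normalizer (H : Set X) → Group.IsSolvable H → (Nat.card H).Coprime p →
    ⁅H, zpowers x⁆ ⊓ centralizer (zpowers x : Set X) ≤ DD x H := by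
  induction n using Nat.strong_induction_on with
  | _ n ih =>
  suffices h : ∀ (X : Type u) [Group X] [Finite X] (x : X) (H : Subgroup X),
      H ⊔ zpowers x = ⊤ → Nat.card H = n → orderOf x = p →
      zpowers x ≤ normalizer (H : Set X) → Group.IsSolvable H → (Nat.card H).Coprime p →
      ⁅H, zpowers x⁆ ⊓ centralizer (zpowers x : Set X) ≤ DD x H by
    intro X _ _ x H hn ho hx hs hc
    have hxL : x ∈ H ⊔ zpowers x := mem_sup_right (mem_zpowers x)
    have e1 := map_subgroupOf_eq_of_le (le_sup_left : H ≤ H ⊔ zpowers x)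
    have e2 : (zpowers (⟨x, hxL⟩ : ↥(H ⊔ zpowers x))).map (H ⊔ zpowers x).subtype = zpowers x :=
      MonoidHom.map_zpowers _ _
    have e3 := card_subgroupOf_of_le (le_sup_left : H ≤ H ⊔ zpowers x)
    have h1 := map_mono (f := (H ⊔ zpowers x).subtype) (h _ ⟨x, hxL⟩ (H.subgroupOf _)
      (map_injective (subtype_injective _) (by
        rw [Subgroup.map_sup, e1, e2, ← MonoidHom.range_eq_map, range_subtype]))
      (e3.trans hn) (by rw [← ho, ← orderOf_coe]) (zpowers_le.2 (mem_normalizer_of_conj_mem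
        fun g hg => Cop.conj_mem_of_le_normalizer hx (mem_zpowers x) hg))
      (Group.isSolvable_of_isSolvable_injective (subgroupOfEquivOfLe le_sup_left).injective
        (f := (subgroupOfEquivOfLe (le_sup_left : H ≤ H ⊔ zpowers x)).toMonoidHom)) (e3 ▸ hc))
    refine le_trans (fun g hg => ?_) (h1.trans ((map_DD_le _ _ _).trans (by rw [e1]; rfl)))
    obtain ⟨g', hg', rfl⟩ := ((congrArg₂ (⁅·, ·⁆) e1 e2).symm.trans
      (map_commutator _ _ _).symm).le hg.1
    exact mem_map_of_mem _ ⟨hg', fun y hy => Subtype.ext (hg.2 _ (e2.le (mem_map_of_mem _ hy)))⟩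
  intro X _ _ x H ht hn ho hx hs hc
  have hcop : (Nat.card (zpowers x)).Coprime (Nat.card H) := by
    rw [Nat.card_zpowers, ho]; exact hc.symm
  have hsub : ∀ K < H, zpowers x ≤ normalizer (K : Set X) →
      ⁅K, zpowers x⁆ ⊓ centralizer (zpowers x : Set X) ≤ DD x H := fun K hK hxK =>
    (ih _ (hn ▸ card_lt_card_of_lt hK) X x K rfl ho hxK (Cop.solvable_of_le hs hK.le)
      (hc.coprime_dvd_left (card_dvd_of_le hK.le))).trans (DD_mono hK.le)
  rcases (Cop.commutator_le_left_of_le_normalizer hx).lt_or_eq with h | h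
  · rw [← Cop.commutator_commutator_eq hx hcop]
    exact hsub _ h (normalizer_commutator_ge_right _ _)
  rw [h]
  by_contra hb
  refine Ctx.false ⟨hp, h2, ho, ht, hx, hs, hcop, h, hsub, fun V hV h1 hVH => ?_, hb⟩
  have hcV := hcop.coprime_dvd_right (card_dvd_of_le (inf_le_left : H ⊓ V ≤ H))
  have h3 := ih _ ?_ _ (QuotientGroup.mk' V x) (H.map (QuotientGroup.mk' V)) rfl ?_
    (by rw [← MonoidHom.map_zpowers]; exact (map_mono hx).trans (le_normalizer_map _))
    (Cop.solvable_map hs _) (hc.coprime_dvd_left (card_map_dvd _ _))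
  · have h4 := h3.trans (DD_map_le _ hx hcop)
    rw [← MonoidHom.map_zpowers, ← map_commutator, h, Cop.map_mk'_inf_centralizer V hx hcV
      (Or.inl inferInstance), map_le_iff_le_comap, comap_map_eq, QuotientGroup.ker_mk',
      sup_comm] at h4
    exact h4
  · rw [← hn, ← relIndex_ker, QuotientGroup.ker_mk', ← relIndex_bot_left,
      ← relIndex_mul_relIndex ⊥ V H bot_le hVH, relIndex_bot_left]
    exact lt_mul_of_one_lt_left (Nat.pos_of_ne_zero index_ne_zero_of_finite)
      ((one_lt_card_iff_ne_bot _).2 h1)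
  · have := Fact.mk hp
    refine orderOf_eq_prime (by rw [← map_pow, ← ho, pow_orderOf_eq_one, map_one]) fun e => ?_
    have h5 : x = 1 := (inf_eq_bot_of_coprime hcop).le
      ⟨mem_zpowers x, hVH ((QuotientGroup.eq_one_iff x).1 e)⟩
    rw [h5, orderOf_one] at ho
    exact hp.one_lt.ne ho

end CfsgLib.SLin.FG
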