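import Cfsg.Agent.Lib.SLin.Wt
import Cfsg.Agent.Lib.H9Stable
import Cfsg.Agent.Lib.H9Bridge
import Cfsg.Agent.Lib.H5DerLen

/-!
# Fixed spaces of elements of prime order `p > 3` generating a solvable group
-/

set_option autoImplicit false

namespace CfsgLib.SLin

open Subgroup Cfsg Module
open scoped commutatorElement

universe u v w

section grp
variable {G : Type u} [Group G] [Finite G]

theorem index_fx_ge [Group.IsSolvable G] [IsCyclic (center G)] {x : G} {p : ℕ} (hp : p.Prime)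
    (h3 : 3 < p) (hx : orderOf x = p) {Nb : Subgroup (G ⧸ center G)} (hN : IsMinNormal Nb)
    {N : Subgroup G} [N.Normal] (hNN : N = Nb.comap (QuotientGroup.mk' _))
    (hZ : N ⊓ centralizer (N : Set G) ≤ center G) {M : Type*} [CommGroup M] [Finite M]
    {ψ : G →* MulAut M} {π : N →* M} (hs : SecD N (center G) ψ π) (hne : ψ x ≠ 1) :
    (p - 1) ^ 2 ≤ (fx ψ x).index := by
  have := Fact.mk hp
  obtain ⟨q, hq, hE⟩ := hN.exists_isElementaryAbelian inferInstance
  have hxp : x ^ p = 1 := hx ▸ pow_orderOf_eq_one x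
  have hZN : center G ≤ N := fun z hz => by
    rw [hNN, mem_comap, QuotientGroup.mk'_apply, (QuotientGroup.eq_one_iff z).2 hz]
    exact one_mem _
  have hMq : ∀ m : M, m ^ q = 1 := fun m => by
    obtain ⟨a, rfl⟩ := hs.surj m
    rw [← map_pow, hs.ker, ← QuotientGroup.eq_one_iff]
    exact hE.2 _ (hNN.le a.2)
  have hc : ∀ a ∈ N, ∀ b ∈ N, ⁅a, b⁆ ∈ center G := fun a ha b hb => by
    have := (hs.ker ⁅(⟨a, ha⟩ : N), ⟨b, hb⟩⁆).1 (by
      rw [map_commutatorElement, commutatorElement_eq_one_iff_mul_comm, mul_comm])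
    exact this
  let δ : M →* M := (ψ x).toMonoidHom / MonoidHom.id M
  have hδ : ∀ m, δ m = ψ x m / m := fun m => rfl
  have h1 : (fx ψ x).index = Nat.card δ.range := by
    rw [← index_ker]
    exact congrArg _ (Subgroup.ext fun m => (div_eq_one (a := ψ x m)).symm)
  have h2 : InvBy ψ (zpowers x) δ.range := by
    rintro _ ⟨k, rfl⟩ _ ⟨m, rfl⟩
    refine ⟨ψ (x ^ k) m, ?_⟩
    rw [hδ, hδ, map_div, ← act_mul, ← act_mul, (Commute.self_zpow x k).eq]
  have h4 : (fx ψ x).index ≠ 1 := fun e =>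
    hne (MulEquiv.ext fun v => (index_eq_one.1 e).ge (mem_top v))
  have hπ : ∀ a : N, δ (π a) = π ⟨⁅x, a⁆, commutator_le_right ⊤ N
      (commutator_mem_commutator (mem_top x) a.2)⟩ := fun a => by
    rw [hδ, hs.act, ← map_div]
    exact congrArg π (Subtype.ext (div_eq_mul_inv _ _))
  by_cases hqp : q = p
  · subst hqp
    obtain ⟨k, hk⟩ := IsPGroup.iff_card.1 (IsPGroup.to_subgroup
      (fun m : M => ⟨1, by rw [pow_one, hMq]⟩ : IsPGroup q M) δ.range)
    rw [h1, hk] at h4 ⊢
    refine (Nat.pow_le_pow_left (Nat.sub_le _ _) 2).trans (Nat.pow_le_pow_right hp.pos ?_)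
    by_contra h5
    obtain rfl : k = 1 := by
      have : k ≠ 0 := fun e => h4 (by rw [e, pow_zero])
      omega
    have h6 : ∀ m ∈ δ.range, ψ x m = m := fun m hm => by
      by_cases hm1 : m = 1
      · rw [hm1, map_one]
      have a1 := relIndex_stb_le ψ (zpowers x) m (T := (δ.range : Set M) \ {1}) fun g hg =>
        ⟨h2 g hg m hm, fun e => hm1 ((ψ g).injective (e.trans (map_one _).symm))⟩
      rw [Set.ncard_diff_singleton_of_mem (one_mem _), ← Nat.card_coe_set_eq] at a1
      change _ ≤ Nat.card δ.range - 1 at a1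
      rw [hk, pow_one] at a1
      rcases (Nat.dvd_prime hp).1 (((Nat.card_zpowers x).trans hx) ▸
        relIndex_dvd_card (stb ψ m) (zpowers x)) with e | e
      · exact relIndex_eq_one.1 e (mem_zpowers x)
      · omega
    have h7 := H9.mem_centralizer_of_quadratic (p := q) (isPSolvable_of_isSolvable inferInstance)
      ⟨by omega, fun e => by omega⟩ hN (fun g => ⟨1, Subtype.ext (by
        rw [pow_one]; exact hE.2 g g.2)⟩) (x := (x : G ⧸ center G)) (k := 1)
      (by rw [pow_one, ← QuotientGroup.mk_pow, hxp]; rfl) fun a ha => by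
        obtain ⟨a, rfl⟩ := QuotientGroup.mk'_surjective _ a
        have a1 := div_eq_one.2 (h6 _ ⟨π ⟨a, hNN.ge ha⟩, rfl⟩)
        rw [← hδ, hπ, hπ, hs.ker, ← QuotientGroup.eq_one_iff] at a1
        exact a1
    refine hne (MulEquiv.ext fun m => div_eq_one.1 ?_)
    obtain ⟨a, rfl⟩ := hs.surj m
    refine (hπ a).trans ((hs.ker _).2 ((QuotientGroup.eq_one_iff _).1 ?_))
    exact commutatorElement_eq_one_iff_mul_comm.2 (h7 _ (hNN.le a.2)).symm
  have h5 : ∀ m ∈ δ.range, ψ x m = m → m = 1 := by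
    rintro _ ⟨a, rfl⟩ h
    have a1 : ∀ k : ℕ, ψ (x ^ k) a = δ a ^ k * a := fun k => by
      induction k with
      | zero => simp
      | succ k ih =>
        rw [pow_succ', act_mul, ih, map_mul, map_pow, h, pow_succ, mul_assoc, hδ a, div_mul_cancel]
    have a2 := a1 p
    rw [hxp, act_one, eq_comm, mul_eq_right] at a2
    have a3 := pow_gcd_eq_one.2 ⟨a2, hMq _⟩
    rwa [(Nat.coprime_primes hp hq).2 (Ne.symm hqp), pow_one] at a3
  have h6 : Nat.card δ.range ≡ 1 [MOD p] := by
    letI := MulAction.compHom δ.range (res ψ (zpowers x) _ h2)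
    refine (IsPGroup.card_modEq_card_fixedPoints (IsPGroup.of_card
      ((Nat.card_zpowers x).trans (hx.trans (pow_one p).symm))) δ.range).trans ?_
    have : Nat.card (MulAction.fixedPoints (zpowers x) δ.range) = 1 :=
      Nat.card_eq_one_iff_exists.2 ⟨⟨1, fun g => map_one (res ψ _ _ h2 g)⟩, fun m =>
        Subtype.ext (Subtype.ext (h5 _ m.1.2 (congrArg Subtype.val (m.2 ⟨x, mem_zpowers x⟩))))⟩
    rw [this]
  have com : ∀ (g : G) {u : G}, u ∈ center G → Commute g u := fun g u hu => mem_center_iff.1 hu g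
  obtain ⟨s, h7⟩ := isSquare_relIndex_of_nondeg (U := center G) (I := pre π δ.range) le_rfl
    (hs.le_pre hZN _) (fun a ha b hb => hc a (pre_le _ ha) b (pre_le _ hb)) fun d hd => by
      have hdN := pre_le _ hd.1
      refine (hs.ker ⟨d, hdN⟩).1 (h5 _ (mem_pre.1 hd.1) (div_eq_one.1 ((hπ _).trans
        ((hs.ker _).2 (hZ ⟨commutator_le_right ⊤ N (commutator_mem_commutator (mem_top x) hdN),
          fun a ha => ?_⟩)))))
      have a0 : x⁻¹ * a * x ∈ N := by simpa using ‹N.Normal›.conj_mem a ha x⁻¹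
      have a1 := hd.2 ⁅x, x⁻¹ * a * x⁆ (mem_pre.2 (MonoidHom.mem_range.2 ⟨_, hπ ⟨_, a0⟩⟩))
      have a2 := (com x (hc _ hdN _ a0)).eq
      have a4 := comm_mul_right (com ⁅x, x⁻¹ * a * x⁆ (hc _ hdN _ a0))
      rw [commutatorElement_eq_one_iff_mul_comm.2 a1.symm, one_mul,
        show ⁅x, x⁻¹ * a * x⁆ * (x⁻¹ * a * x) = a by simp [commutatorElement_def, mul_assoc]] at a4
      have a5 := comm_mul_left (com ⁅x, d⁆ (hc _ hdN _ ha)) (com ⁅⁅x, d⁆, a⁆ (hc _ hdN _ ha))
      rw [show ⁅⁅x, d⁆ * d, a⁆ = x * ⁅d, x⁻¹ * a * x⁆ * x⁻¹ by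
        simp [commutatorElement_def, mul_assoc], a2, mul_inv_cancel_right, ← a4, eq_comm,
        mul_eq_right] at a5
      exact (commutatorElement_eq_one_iff_mul_comm.1 a5).symm
  have h8 := hs.card_pre hZN δ.range
  rw [← card_mul_relIndex (hs.le_pre hZN _), h7] at h8
  rw [h1, ← Nat.eq_of_mul_eq_mul_left Nat.card_pos h8] at h4 ⊢
  rw [← Nat.eq_of_mul_eq_mul_left Nat.card_pos h8] at h6
  rw [← pow_two]
  refine Nat.pow_le_pow_left ?_ 2
  have h9 : 2 ≤ s := by
    by_contra a
    interval_cases s <;> simp_all [Nat.ModEq]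
  obtain ⟨t, rfl⟩ := Nat.exists_eq_add_of_le' h9
  have h10 := (Nat.modEq_iff_dvd' (by nlinarith)).1 h6.symm
  rw [show (t + 2) * (t + 2) - 1 = (t + 1) * (t + 3) by
    rw [Nat.sub_eq_iff_eq_add (by nlinarith)]; ring] at h10
  rcases hp.dvd_mul.1 h10 with a | a <;> have := Nat.le_of_dvd (by omega) a <;> omega

end grp

section main
variable {K : Type v} [Field K] {G : Type u} [Group G] [Finite G] {V : Type w} [AddCommGroup V]
  [Module K V]

/-- irreducibility -/
def IrrR (ρ : Representation K G V) : Prop :=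
  ∀ W : Submodule K V, (∀ g, W ≤ W.comap (ρ g)) → W = ⊥ ∨ W = ⊤

theorem mem_ker_sub_one {T : End K V} {v : V} : v ∈ LinearMap.ker (T - 1) ↔ T v = v := sub_eq_zero

theorem IrrR.cast_ne_zero [Nontrivial V] {ρ : Representation K G V} (h : IrrR ρ)
    (hρ : Function.Injective ρ) {a : G} (ha : a ∈ fittingSubgroup G) : (orderOf a : K) ≠ 0 := by
  intro h1
  obtain ⟨r, hr, h2, h3⟩ : ∃ r, r.Prime ∧ r ∣ orderOf a ∧ (r : K) = 0 := by
    have := ringChar.charP K
    rcases CharP.char_is_prime_or_zero K (ringChar K) with e | e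
    · exact ⟨_, e, (CharP.cast_eq_zero_iff K _ _).1 h1, CharP.cast_eq_zero K _⟩
    · have := (CharP.cast_eq_zero_iff K (ringChar K) _).1 h1
      rw [e, zero_dvd_iff] at this
      exact absurd this (orderOf_pos a).ne'
  have := Fact.mk hr
  have := (CharP.charP_iff_prime_eq_zero hr).2 h3
  obtain ⟨v, hv, h4⟩ := H5.exists_fixed_of_charP (pCore_isPGroup (G := G) r)
    (ρ.comp (pCore r G).subtype)
  have h5 := (h (⨅ g : pCore r G, LinearMap.ker (ρ g - 1)) fun g w hw =>
    (Submodule.mem_iInf _).2 fun u => mem_ker_sub_one.2 (by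
      have := mem_ker_sub_one.1 ((Submodule.mem_iInf _).1 hw (MulAut.conjNormal g⁻¹ u))
      conv_rhs => rw [← this]
      rw [← End.mul_apply, ← End.mul_apply, ← map_mul, ← map_mul]
      simp [mul_assoc])).resolve_left ((Submodule.ne_bot_iff _).2
        ⟨v, (Submodule.mem_iInf _).2 fun u => mem_ker_sub_one.2 (h4 u), hv⟩)
  have h6 := orderOf_pow_orderOf_div (orderOf_pos a).ne' h2
  have h7 := le_pCore_of_le_fitting (zpowers_le.2 (pow_mem ha (orderOf a / r)))
    (IsPGroup.of_card ((Nat.card_zpowers _).trans (h6.trans (pow_one r).symm))) (mem_zpowers _)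
  have h8 : a ^ (orderOf a / r) = 1 := hρ (LinearMap.ext fun w => (mem_ker_sub_one.1
    ((Submodule.mem_iInf _).1 (h5.ge Submodule.mem_top) ⟨_, h7⟩)).trans (by simp))
  rw [h8, orderOf_one] at h6
  exact hr.one_lt.ne h6

variable [FiniteDimensional K V] [IsAlgClosed K] [Group.IsSolvable G]

theorem flav_imprim [Nontrivial V] {ρ : Representation K G V} (h : IrrR ρ)
    (hρ : Function.Injective ρ) {x : G} {p : ℕ} (hp : p.Prime) (h3 : 3 < p) (hx : orderOf x = p)
    (hg : normalClosure ({x} : Set G) = ⊤) {A : Subgroup G} [A.Normal]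
    (hA : A ≤ centralizer (A : Set G)) {a : G} (ha : a ∈ A) (hs : ∀ c : K, ∃ v, ρ a v ≠ c • v) :
    2 * finrank K (LinearMap.ker (ρ x - 1)) < finrank K V := by
  classical
  have : IsMulCommutative A := PGrp.isMulCommutative_iff_forall.2 fun a ha b hb => hA hb a ha
  obtain ⟨Ω, _, _, W, χ, -, a1, a2, a3, a4, a5, -⟩ := exists_wt' ρ A
    (fun a b => (show Commute (a : G) b from hA b.2 a a.2).map ρ) fun a => ⟨_, h.cast_ne_zero hρ
      (le_fitting_of_isMulCommutative a.2), by rw [← map_pow, pow_orderOf_eq_one, map_one]⟩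
  obtain ⟨ω⟩ : Nonempty Ω := by
    by_contra hne
    rw [not_nonempty_iff] at hne
    rw [iSup_of_empty] at a2
    exact bot_ne_top a2
  have b1 : ⨆ c : MulAction.orbit G ω, W c = ⊤ := (h (⨆ c : MulAction.orbit G ω, W c) fun g =>
    iSup_le fun c v hv => Submodule.mem_iSup_of_mem (g • c) (a4 g c v hv)).resolve_left fun e =>
      a1 ω (eq_bot_iff.2 ((le_iSup (fun c : MulAction.orbit G ω => W c)
        ⟨ω, MulAction.mem_orbit_self ω⟩).trans e.le))
  have b2 : ∀ g c, finrank K (W c) ≤ finrank K (W (g • c)) := fun g c =>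
    LinearMap.finrank_le_finrank_of_injective (f := (ρ g).restrict (a4 g c)) fun v w e =>
      Subtype.ext (rep_inj ρ g (congrArg Subtype.val e))
  have b3 : ∀ c : MulAction.orbit G ω, finrank K (W c) = finrank K (W ω) := by
    rintro ⟨_, g, rfl⟩
    have := b2 g⁻¹ (g • ω)
    rw [inv_smul_smul] at this
    exact le_antisymm this (b2 g ω)
  have : Nontrivial (MulAction.orbit G ω) := by
    by_contra hne
    rw [not_nontrivial_iff_subsingleton] at hne
    obtain ⟨v, hv⟩ := hs (χ ω ⟨a, ha⟩)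
    refine hv ((a5 ω v).1 ((iSup_le fun c => ?_ : ⨆ c : MulAction.orbit G ω, W c ≤ W ω)
      (b1.ge Submodule.mem_top)) ⟨a, ha⟩)
    rw [Subsingleton.elim c ⟨ω, MulAction.mem_orbit_self ω⟩]
  have b4 := fix_le ρ (fun c : MulAction.orbit G ω => W c) b1 (fun g c => a4 g c)
    (fun c => (b3 c).le) hp hx
  have b5 := three_mul_fixedBy (Ω := MulAction.orbit G ω) hg (hp.odd_of_ne_two (by omega))
    (hx ▸ pow_orderOf_eq_one x)
  have b6 : finrank K (W ω) * Nat.card (MulAction.orbit G ω) ≤ finrank K V := by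
    rw [← a3, Nat.card_eq_fintype_card, mul_comm, ← smul_eq_mul, ← Finset.card_univ,
      ← Finset.sum_const, ← Finset.sum_congr rfl fun c _ => b3 c,
      Finset.sum_set_coe (f := fun c => finrank K (W c))]
    exact Finset.sum_le_sum_of_subset (Finset.subset_univ _)
  have b7 : 0 < finrank K V := finrank_pos
  have b8 : 5 ≤ p := by
    by_contra e
    exact absurd ((by omega : p = 4) ▸ hp) (by norm_num)
  obtain ⟨t, rfl⟩ := Nat.exists_eq_add_of_le' b8
  rw [show t + 5 - 1 = t + 4 from rfl] at b4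
  have b9 := Nat.mul_le_mul_left (finrank K (W ω) * (t + 4)) b5
  nlinarith

theorem flav_prim [Nontrivial V] {ρ : Representation K G V} (h : IrrR ρ)
    (hρ : Function.Injective ρ) {x : G} {p : ℕ} (hp : p.Prime) (h3 : 3 < p) (hx : orderOf x = p)
    (hg : normalClosure ({x} : Set G) = ⊤) (hs : ∀ A : Subgroup G, A.Normal →
      A ≤ centralizer (A : Set G) → ∀ a ∈ A, ∃ c : K, ∀ v, ρ a v = c • v) :
    2 * finrank K (LinearMap.ker (ρ x - 1)) < finrank K V := by
  classical
  have hx1 : ρ x ≠ 1 := fun e => by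
    rw [hρ (e.trans (map_one ρ).symm), orderOf_one] at hx
    omega
  have hZ : ∀ A : Subgroup G, A.Normal → A ≤ centralizer (A : Set G) → A ≤ center G :=
    fun A h1 h2 a ha => mem_center_iff.2 fun g => by
      obtain ⟨c, hc⟩ := hs A h1 h2 a ha
      refine hρ (LinearMap.ext fun w => ?_)
      rw [map_mul, map_mul, End.mul_apply, End.mul_apply, hc, hc, map_smul]
  choose c hc using hs _ inferInstance (center_le_centralizer (center G : Set G))
  obtain ⟨v, hv⟩ := exists_ne (0 : V)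
  have : IsCyclic (center G) := by
    refine isCyclic_of_injective_ringHom (R := K)
      { toFun := fun u => c u u.2
        map_one' := smul_left_injective K hv ((hc _ _ v).symm.trans (by simp))
        map_mul' := fun a b => smul_left_injective K hv ((hc _ _ v).symm.trans (by
          simp only
          rw [coe_mul, map_mul, End.mul_apply, hc _ b.2, hc _ a.2, smul_smul])) }
      fun a b e => Subtype.ext (hρ (LinearMap.ext fun w => ?_))
    rw [hc _ a.2, hc _ b.2]
    exact congrArg (· • w) e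
  by_cases hxZ : x ∈ center G
  · suffices h0 : LinearMap.ker (ρ x - 1) = ⊥ by
      rw [h0, finrank_bot]; exact finrank_pos
    refine (Submodule.eq_bot_iff _).2 fun w hw => ?_
    by_contra hw0
    have a1 : c x hxZ = 1 := smul_left_injective K hw0
      ((hc _ _ w).symm.trans ((sub_eq_zero.1 hw).trans (one_smul K w).symm))
    exact hx1 (LinearMap.ext fun u => by rw [hc x hxZ, a1, one_smul]; rfl)
  have : Nontrivial (G ⧸ center G) := ⟨x, 1, fun e => hxZ ((QuotientGroup.eq_one_iff x).1 e)⟩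
  obtain ⟨Nb, hN⟩ := exists_isMinNormal (G := G ⧸ center G)
  have := hN.1
  obtain ⟨q, hq, hE⟩ := hN.exists_isElementaryAbelian inferInstance
  set N := Nb.comap (QuotientGroup.mk' (center G)) with hNN
  have hc' : ∀ a ∈ N, ∀ b ∈ N, ⁅a, b⁆ ∈ center G := fun a ha b hb => by
    rw [← QuotientGroup.eq_one_iff, ← QuotientGroup.mk'_apply, map_commutatorElement,
      commutatorElement_eq_one_iff_mul_comm]
    exact PGrp.isMulCommutative_iff_forall.1 hE.1 _ ha _ hb
  have hNZ : N ⊓ centralizer (N : Set G) ≤ center G :=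
    hZ _ inferInstance fun a ha b hb => ha.2 b hb.1
  obtain ⟨M, _, _, ψ, π, hsec⟩ := exists_secD N (center G) (commutator_le.2 hc')
  obtain ⟨a, haN, haZ⟩ : ∃ a ∈ N, a ∉ center G := by
    by_contra hne
    push Not at hne
    refine hN.2.1 (eq_bot_iff.2 fun a ha => ?_)
    obtain ⟨a, rfl⟩ := QuotientGroup.mk'_surjective _ a
    exact (QuotientGroup.eq_one_iff a).2 (hne a ha)
  have hψ : ψ x ≠ 1 := fun e => by
    have a1 := hg.ge.trans (normalClosure_le_normal (N := ψ.ker)
      (Set.singleton_subset_iff.2 e))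
    refine haZ (hZ (center G ⊔ zpowers a) ⟨fun b hb g => ?_⟩ (sup_le (center_le_centralizer _)
      (le_centralizer_iff.1 (sup_le (center_le_centralizer _) (le_centralizer _))))
      (mem_sup_right (mem_zpowers a)))
    have a2 : b ∈ N := (sup_le (fun z hz => by
      rw [mem_comap, QuotientGroup.mk'_apply, (QuotientGroup.eq_one_iff z).2 hz]
      exact one_mem _) (zpowers_le.2 haN) : _ ≤ N) hb
    rw [← mul_inv_cancel_left b (g * b * g⁻¹)]
    exact mul_mem hb (mem_sup_left (hsec.mem_ker.1 (a1 (mem_top g)) b a2))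
  have hi := index_fx_ge hp h3 hx hN hNN hNZ hsec hψ
  set τ := Representation.linHom ρ ρ
  have hτ : ∀ g y, τ g (ρ y) = ρ (g * y * g⁻¹) := fun g y => by
    rw [map_mul, map_mul, mul_assoc]; rfl
  have hτm : ∀ g (S T : End K V), τ g (S * T) = τ g S * τ g T := fun g S T =>
    LinearMap.ext fun w => congrArg (fun u => ρ g (S u)) (rep_inv' ρ g _).symm
  have hτZ : ∀ z ∈ center G, τ z = 1 := fun z hz => LinearMap.ext fun T => LinearMap.ext fun w => by
    change ρ z (T (ρ z⁻¹ w)) = T w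
    rw [hc z hz, ← map_smul, ← hc z hz]
    simpa using congrArg T (rep_inv' ρ z⁻¹ w)
  have hρ0 : ∀ y, ρ y ≠ 0 := fun y e => hv (rep_inj ρ y (by rw [e]; rfl))
  obtain ⟨Ω, _, _, W, χ, a0, a1, a2, a3, a4, a5, a6⟩ := exists_wt' τ N
    (fun a b => by
      rw [commute_iff_eq, ← map_mul, ← map_mul, show (a : G) * b = ⁅(a : G), (b : G)⁆ * (b * a) by
        simp [commutatorElement_def], map_mul, hτZ _ (hc' _ a.2 _ b.2), one_mul])
    fun b => ⟨q, by
        obtain ⟨y, hy, h1⟩ : ∃ y ∈ N, y * a ≠ a * y := by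
          by_contra hne
          push Not at hne
          exact haZ (hNZ ⟨haN, hne⟩)
        rw [← orderOf_eq_prime (hp := ⟨hq⟩) (x := ⁅y, a⁆) ?_
          fun e => h1 (commutatorElement_eq_one_iff_mul_comm.1 e)]
        · exact h.cast_ne_zero hρ (center_le_fitting (hc' _ hy _ haN))
        rw [← PGrp.commutatorElement_pow_right (mem_center_iff.1 (hc' _ hy _ haN) a).symm,
          commutatorElement_eq_one_iff_mul_comm]
        exact mem_center_iff.1 ((QuotientGroup.eq_one_iff _).1 (hE.2 _ haN)) y, by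
      rw [← map_pow]
      exact hτZ _ ((QuotientGroup.eq_one_iff _).1 (hE.2 _ b.2))⟩
  have huniq : ∀ {T : End K V} {ω ω'}, T ≠ 0 → T ∈ W ω → T ∈ W ω' → ω = ω' := fun hT h1 h2 =>
    a0 (funext fun b => smul_left_injective K hT (((a5 _ _).1 h1 b).symm.trans ((a5 _ _).1 h2 b)))
  have hex : ∀ y : N, ∃ ω, ρ y ∈ W ω := fun y => by
    have b1 : ∀ b : N, τ b (ρ y) = c _ (hc' _ b.2 _ y.2) • ρ y := fun b => by
      rw [hτ, show (b : G) * y * (b : G)⁻¹ = ⁅(b : G), (y : G)⁆ * y by simp [commutatorElement_def],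
        map_mul]
      exact LinearMap.ext fun w => hc _ _ _
    obtain ⟨ω, hω⟩ := a6 _ _ (hρ0 y) b1
    exact ⟨ω, (a5 _ _).2 (hω ▸ b1)⟩
  choose κ hκ using hex
  have hmul : ∀ (y y' : N), ∀ T ∈ W (κ y'), ρ y * T ∈ W (κ (y * y')) := fun y y' T hT => by
    refine (a5 _ _).2 fun b => ?_
    have b1 := (a5 _ _).1 (hκ (y * y')) b
    rw [coe_mul, map_mul, hτm, (a5 _ _).1 (hκ y), (a5 _ _).1 (hκ y'), smul_mul_smul_comm,
      ← map_mul] at b1
    rw [hτm, (a5 _ _).1 (hκ y), (a5 _ _).1 hT, smul_mul_smul_comm, smul_left_injective K (hρ0 _) b1]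
  have hκ1 : ∀ y y' : N, κ y = κ y' ↔ π y = π y' := fun y y' => by
    rw [hsec.eq_iff]
    refine ⟨fun e => hNZ ⟨N.mul_mem (N.inv_mem y.2) y'.2, fun b hb => ?_⟩, fun e => ?_⟩
    · have b1 := hmul y⁻¹ y _ (e ▸ hκ y')
      have b2 := (a5 _ _).1 (hκ (y⁻¹ * y)) ⟨b, hb⟩
      have b3 := (a5 _ _).1 b1 ⟨b, hb⟩
      rw [hτ] at b2
      rw [← map_mul, hτ, smul_left_injective K (hρ0 _) (b2.symm.trans (by simp) :
        _ = (1 : K) • _), one_smul] at b3
      exact mul_inv_eq_iff_eq_mul.1 (hρ b3)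
    · refine huniq (hρ0 y') ?_ (hκ y')
      rw [← mul_inv_cancel_left (y : G) y', mem_center_iff.1 e, map_mul,
        show ρ ((y : G)⁻¹ * y') * ρ y = c _ e • ρ y from LinearMap.ext fun w => hc _ e _]
      exact Submodule.smul_mem _ _ (hκ y)
  have hs := Function.surjInv_eq hsec.surj
  set s := Function.surjInv hsec.surj
  have hχ : ∀ ω (b b' : N), χ ω (b * b') = χ ω b * χ ω b' := fun ω b b' => by
    obtain ⟨T, hT, hT0⟩ := Submodule.exists_mem_ne_zero_of_ne_bot (a1 ω)
    refine smul_left_injective K hT0 (((a5 _ _).1 hT _).symm.trans ?_)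
    simp only
    rw [coe_mul, map_mul, End.mul_apply, (a5 _ _).1 hT, map_smul, (a5 _ _).1 hT, smul_smul,
      mul_comm]
  have hχ1 : ∀ ω (b : N), π b = 1 → χ ω b = 1 := fun ω b hb => by
    obtain ⟨T, hT, hT0⟩ := Submodule.exists_mem_ne_zero_of_ne_bot (a1 ω)
    refine smul_left_injective K hT0 (((a5 _ _).1 hT _).symm.trans ?_)
    simp [hτZ _ ((hsec.ker b).1 hb)]
  have hχ2 : ∀ ω (b b' : N), π b = π b' → χ ω b = χ ω b' := fun ω b b' e => by
    rw [← mul_inv_cancel_left b' b, hχ, hχ1 ω (b'⁻¹ * b) (by simp [e]), mul_one]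
  let χ' : Ω → M →* K := fun ω =>
    { toFun := fun m => χ ω (s m)
      map_one' := hχ1 _ _ (hs 1)
      map_mul' := fun m m' => (hχ2 _ _ _ (by simp [hs])).trans (hχ _ _ _) }
  have hcard : Fintype.card Ω ≤ Nat.card M := by
    have := Fintype.ofFinite M
    have b1 := ((linearIndependent_monoidHom M K).comp χ' fun ω ω' e => a0 (funext fun b =>
      (hχ2 _ _ _ (hs _).symm).trans ((DFunLike.congr_fun e (π b)).trans
        (hχ2 _ _ _ (hs _))))).fintype_card_le_finrank
    rwa [finrank_fintype_fun_eq_card, ← Nat.card_eq_fintype_card (α := M)] at b1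
  have hinj : Function.Injective fun m => κ (s m) := fun m m' e =>
    (hs m).symm.trans (((hκ1 _ _).1 e).trans (hs m'))
  have hbij := (Nat.bijective_iff_injective_and_card _).2 ⟨hinj, le_antisymm
    (Nat.card_le_card_of_injective _ hinj) (Nat.card_eq_fintype_card.trans_le hcard)⟩
  have b2 : ∀ ω ω', finrank K (W ω) ≤ finrank K (W ω') := fun ω ω' => by
    obtain ⟨m, rfl⟩ := hbij.2 ω
    obtain ⟨m', rfl⟩ := hbij.2 ω'
    refine LinearMap.finrank_le_finrank_of_injective (f := (LinearMap.mulLeft K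
      (ρ (s m' * (s m)⁻¹ : N))).restrict fun T hT => by
        have := hmul (s m' * (s m)⁻¹) _ T hT
        rwa [inv_mul_cancel_right] at this)
      fun S T e => Subtype.ext (LinearMap.ext fun w => rep_inj ρ _
        (LinearMap.congr_fun (congrArg Subtype.val e) w))
  have b3 := fix_le τ W a2 a4 (fun ω => b2 ω (κ 1)) hp hx
  have b4 : (MulAction.fixedBy Ω x).ncard ≤ Nat.card (fx ψ x) := by
    change _ ≤ (fx ψ x : Set M).ncard
    rw [← Set.ncard_image_of_injective _ hinj]
    refine Set.ncard_le_ncard fun ω hω => ?_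
    obtain ⟨m, rfl⟩ := hbij.2 ω
    refine ⟨m, ?_, rfl⟩
    have b5 := a4 x _ _ (hκ (s m))
    rw [show x • κ (s m) = κ (s m) from hω, hτ] at b5
    change ψ x m = m
    conv_lhs => rw [← hs m, hsec.act]
    exact ((hκ1 _ _).1 (huniq (hρ0 _) (hκ ⟨_, _⟩) b5)).trans (hs m)
  have b5 : finrank K (W (κ 1)) * Nat.card Ω = finrank K V * finrank K V := by
    rw [← finrank_linearMap K K, ← a3, Finset.sum_congr rfl fun ω _ =>
      le_antisymm (b2 ω (κ 1)) (b2 _ _), Finset.sum_const, Finset.card_univ,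
      Nat.card_eq_fintype_card, smul_eq_mul, mul_comm]
  have b6 := (Nat.mul_le_mul_left p (sq_add_one_le ρ hx1)).trans (b3.trans
    (Nat.mul_le_mul_left _ (Nat.add_le_add_left (Nat.mul_le_mul_left _ b4) _)))
  rw [← Nat.card_eq_of_bijective _ hbij, ← (fx ψ x).index_mul_card] at b5 b6
  by_contra hlt
  have b7 := Nat.mul_le_mul (not_lt.1 hlt) (not_lt.1 hlt)
  have b8 : 5 ≤ p := by
    by_contra e
    exact absurd ((by omega : p = 4) ▸ hp) (by norm_num)
  obtain ⟨t, rfl⟩ := Nat.exists_eq_add_of_le' b8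
  rw [show t + 5 - 1 = t + 4 from rfl] at b6 hi
  rw [← b5] at b7
  generalize finrank K (LinearMap.ker (ρ x - 1)) = c0 at *
  generalize (fx ψ x).index = i at *
  generalize finrank K (W (κ 1)) = d at *
  generalize Nat.card (fx ψ x) = e at *
  have b9 : 4 * (t + 4) ≤ (t + 1) * i := by nlinarith
  have b10 := Nat.mul_le_mul_left i b6
  have b11 := Nat.mul_le_mul_left (i + t + 4) b7
  have b12 := Nat.mul_le_mul_left (c0 ^ 2) b9
  nlinarith

end main

theorem flav_main {K : Type v} [Field K] [IsAlgClosed K] {p : ℕ} (hp : p.Prime) (h3 : 3 < p)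
    (n : ℕ) : ∀ (G : Type u) [Group G] [Finite G] [Group.IsSolvable G] (V : Type w)
      [AddCommGroup V] [Module K V] [FiniteDimensional K V] [Nontrivial V]
      (ρ : Representation K G V) (x : G) {ι : Type u} (s : Finset ι) (f : ι → G), x ^ p = 1 →
      normalClosure ({x} : Set G) = ⊤ → (s.card : K) ≠ 0 → ∑ i ∈ s, ρ (f i) = 0 →
      finrank K V = n → 2 * finrank K (LinearMap.ker (ρ x - 1)) < n := by
  induction n using Nat.strong_induction_on with
  | _ n ih =>
  intro G _ _ _ V _ _ _ _ ρ x ι s f hx hg hs h0 hn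
  by_cases h : IrrR ρ
  · let ρ' : Representation K (G ⧸ ρ.ker) V := QuotientGroup.lift _ ρ le_rfl
    have h1 : Function.Injective ρ' := (injective_iff_map_eq_one _).2 fun x hx => by
      obtain ⟨x, rfl⟩ := QuotientGroup.mk_surjective x
      exact (QuotientGroup.eq_one_iff x).2 hx
    have h2 : IrrR ρ' := fun W hW => h W fun g => hW g
    have h4 : normalClosure ({(x : G ⧸ ρ.ker)} : Set (G ⧸ ρ.ker)) = ⊤ := by
      have := map_normalClosure {x} _ (QuotientGroup.mk'_surjective ρ.ker)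
      rw [hg, map_top_of_surjective _ (QuotientGroup.mk'_surjective _), Set.image_singleton] at this
      exact this.symm
    have h5 : orderOf (x : G ⧸ ρ.ker) = p := orderOf_eq_prime (hp := ⟨hp⟩)
      (by rw [← QuotientGroup.mk_pow, hx]; rfl) fun e => by
        have a1 := hg.ge.trans (normalClosure_le_normal (Set.singleton_subset_iff.2
          ((QuotientGroup.eq_one_iff x).1 e)))
        rw [Finset.sum_congr rfl fun i _ => (a1 (mem_top (f i)) : ρ (f i) = 1), Finset.sum_const,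
          ← Nat.cast_smul_eq_nsmul K, smul_eq_zero] at h0
        exact h0.elim hs one_ne_zero
    rw [← hn, show ρ x = ρ' x from rfl]
    by_cases h6 : ∀ A : Subgroup (G ⧸ ρ.ker), A.Normal → A ≤ centralizer (A : Set _) →
        ∀ a ∈ A, ∃ c : K, ∀ v, ρ' a v = c • v
    · exact flav_prim h2 h1 hp h3 h5 h4 h6
    · push Not at h6
      obtain ⟨A, _, hA, a, ha, h6⟩ := h6
      exact flav_imprim h2 h1 hp h3 h5 h4 hA ha h6
  simp only [IrrR, not_forall, not_or] at h
  obtain ⟨W, h1, h2, h4⟩ := h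
  have := Submodule.nontrivial_iff_ne_bot.2 h2
  have := Submodule.Quotient.nontrivial_iff.2 h4
  have a1 := Submodule.finrank_quotient_add_finrank W
  have a2 : 0 < finrank K W := finrank_pos
  have a3 : 0 < finrank K (V ⧸ W) := finrank_pos
  have a4 := ih _ (by omega) G W (ρ.subrepresentation W h1) x s f hx hg hs
    (LinearMap.ext fun w => Subtype.ext (by simpa using LinearMap.congr_fun h0 w)) rfl
  have a5 := ih _ (by omega) G (V ⧸ W) (ρ.quotient W h1) x s f hx hg hs
    (LinearMap.ext fun w => by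
      obtain ⟨w, rfl⟩ := W.mkQ_surjective w
      simpa using congrArg W.mkQ (LinearMap.congr_fun h0 w)) rfl
  refine (Nat.mul_le_mul_left 2 (finrank_ker_le (ρ x) W (h1 x))).trans_lt ?_
  rw [mul_add, ← hn, ← a1, add_comm (finrank K (V ⧸ W))]
  exact Nat.add_lt_add a4 a5

end CfsgLib.SLin
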