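import Cfsg.Agent.Lib.SLin.Flav
import Cfsg.Agent.Lib.H9Bridge
import Cfsg.Agent.Lib.CoprimePGroup

/-!
# Fixed points of a generating class on an elementary abelian section
-/

set_option autoImplicit false

namespace CfsgLib.SLin

open Subgroup Cfsg Module
open scoped commutatorElement

universe u

variable {G : Type u} [Group G] [Finite G]

theorem flav_sec {p q : ℕ} (hp : p.Prime) (h3 : 3 < p) [Fact q.Prime] {A R V D : Subgroup G}
    (hs : Group.IsSolvable A) (hAV : A ≤ normalizer (V : Set G))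
    (hAD : A ≤ normalizer (D : Set G)) (hDV : D < V) (hc : ⁅V, V⁆ ≤ D)
    (hq : ∀ v ∈ V, v ^ q ∈ D) (hRA : R ≤ A) (hR : (Nat.card R).Coprime q)
    (hfix : ∀ b ∈ V, (∀ r ∈ R, ⁅r, b⁆ ∈ D) → b ∈ D) {x y : A} (hx : x ^ p = 1)
    (hy : y ^ p = 1) (hNx : normalClosure ({x} : Set A) = ⊤)
    (hNy : normalClosure ({y} : Set A) = ⊤) :
    ¬ ∀ v ∈ V, ∃ n ∈ V, ⁅(x : G), n⁆ ∈ D ∧ ⁅(y : G), v⁻¹ * n⁆ ∈ D := by
  classical
  intro h
  obtain ⟨W, _, _, _, ρ, ι, S⟩ := H9.exists_secRep q A.subtype V D hDV.le (fun g => hAV g.2)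
    (fun g => hAD g.2) hc hq
  have key : ∀ (g : A), ∀ b ∈ V, ⁅(g : G), b⁆ ∈ D ↔ ρ g (ι b) = ι b := fun g b hb => by
    rw [← sub_eq_zero, ← S.map_commutator g hb, S.eq_zero_iff _ (S.commutator_mem g hb)]
    rfl
  have : Nontrivial W := by
    obtain ⟨b, hb, hbD⟩ := SetLike.exists_of_lt hDV
    exact ⟨ι b, 0, fun e => hbD ((S.eq_zero_iff b hb).1 e)⟩
  have := Fintype.ofFinite R
  have himg : ∀ (s : Finset R), ∀ a ∈ V, ∃ b ∈ V,
      ι b = ∑ r ∈ s, ρ (inclusion hRA r) (ι a) := fun s a ha => by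
    induction s using Finset.induction_on with
    | empty => exact ⟨1, one_mem _, S.map_one⟩
    | insert r s hr ih =>
      obtain ⟨b, hb, e⟩ := ih
      refine ⟨_, mul_mem (S.conj_mem (inclusion hRA r) ha) hb, ?_⟩
      rw [S.map_mul _ (S.conj_mem _ ha) _ hb, S.conj _ _ ha, Finset.sum_insert hr, e]
  have hsum : ∑ r : R, ρ (inclusion hRA r) = 0 := S.ext fun a ha => by
    obtain ⟨b, hb, e⟩ := himg Finset.univ a ha
    rw [LinearMap.sum_apply, ← e, LinearMap.zero_apply, S.eq_zero_iff b hb]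
    refine hfix b hb fun r hr => (key (inclusion hRA ⟨r, hr⟩) b hb).2 ?_
    rw [e, map_sum]
    exact Fintype.sum_equiv (Equiv.mulLeft ⟨r, hr⟩) _ _ fun g => by
      rw [← Module.End.mul_apply, ← map_mul, ← map_mul]; rfl
  have hcard : ((Finset.univ : Finset R).card : AlgebraicClosure (ZMod q)) ≠ 0 := by
    rw [Finset.card_univ, ← Nat.card_eq_fintype_card, Ne, CharP.cast_eq_zero_iff _ q]
    exact (Nat.Prime.coprime_iff_not_dvd Fact.out).1 hR.symm
  have h1 := flav_main hp h3 _ A W ρ x Finset.univ _ hx hNx hcard hsum rfl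
  have h2 := flav_main hp h3 _ A W ρ y Finset.univ _ hy hNy hcard hsum rfl
  have h4 : (⊤ : Submodule _ W) ≤ LinearMap.ker (ρ x - 1) ⊔ LinearMap.ker (ρ y - 1) := by
    rw [← S.span, Submodule.span_le]
    rintro _ ⟨v, hv, rfl⟩
    obtain ⟨n, hn, e1, e2⟩ := h v hv
    have hm := mul_mem (inv_mem hv) hn
    have : ι v = ι n - ι (v⁻¹ * n) := by
      rw [S.map_mul _ (inv_mem hv) _ hn, S.map_inv hv]; abel
    rw [this]
    exact sub_mem (Submodule.mem_sup_left (mem_ker_sub_one.2 ((key x n hn).1 e1)))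
      (Submodule.mem_sup_right (mem_ker_sub_one.2 ((key y _ hm).1 e2)))
  have h5 := (Submodule.finrank_mono h4).trans (Submodule.finrank_add_le_finrank_add_finrank _ _)
  rw [finrank_top] at h5
  omega

omit [Finite G] in
theorem comm_mem_of_conj_le {B R V D : Subgroup G} {z w n : G}
    (hRV : R ≤ normalizer (V : Set G))
    (hz : z ∈ normalizer (R : Set G)) (hzV : z ∈ normalizer (V : Set G)) (hc : ⁅V, V⁆ ≤ D)
    (hDV : D ≤ V) (hfix : ∀ b ∈ V, (∀ r ∈ R, ⁅r, b⁆ ∈ D) → b ∈ D) (hB : B ⊓ V ≤ D) (hw : w ∈ V)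
    (hn : n ∈ V) (hzB : w * z * w⁻¹ ∈ B) (hRB : R.map (MulAut.conj n).toMonoidHom ≤ B) :
    ⁅z, w⁻¹ * n⁆ ∈ D := by
  have hD : ∀ a ∈ V, ∀ d ∈ D, a * d * a⁻¹ ∈ D := fun a ha d hd => by
    have : a * d * a⁻¹ = ⁅a, d⁆ * d := by simp [commutatorElement_def]
    rw [this]
    exact mul_mem (hc (commutator_mem_commutator ha (hDV hd))) hd
  obtain ⟨m, rfl⟩ : ∃ m, n = w * m := ⟨w⁻¹ * n, by simp⟩
  have hm : m ∈ V := (V.mul_mem_cancel_left hw).1 hn
  have hm' : z * m * z⁻¹ ∈ V := (mem_normalizer_iff.1 hzV m).1 hm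
  have hu := mul_mem (inv_mem hm') hm
  have h1 := hfix _ hu fun r hr => by
    have hr' : z⁻¹ * r * z ∈ R := (mem_normalizer_iff''.1 hz r).1 hr
    have e1 := hRB (mem_map_of_mem _ hr)
    have e2 := mul_mem (mul_mem hzB (hRB (mem_map_of_mem _ hr'))) (inv_mem hzB)
    have e3 := mul_mem e2 (inv_mem e1)
    have hru : ⁅r, (z * m * z⁻¹)⁻¹ * m⁆ ∈ V :=
      mul_mem ((mem_normalizer_iff.1 (hRV hr) _).1 hu) (inv_mem hu)
    have e4 : w * z * w⁻¹ * (MulAut.conj (w * m)).toMonoidHom (z⁻¹ * r * z) * (w * z * w⁻¹)⁻¹ *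
        ((MulAut.conj (w * m)).toMonoidHom r)⁻¹ = (w * (z * m * z⁻¹)) *
          ⁅r, (z * m * z⁻¹)⁻¹ * m⁆ * (w * (z * m * z⁻¹))⁻¹ := by
      simp only [MulEquiv.toMonoidHom_eq_coe, MonoidHom.coe_coe, MulAut.conj_apply,
        commutatorElement_def]
      group
    rw [e4] at e3
    have hwm := mul_mem hw hm'
    simpa [mul_assoc] using hD _ (inv_mem hwm) _
      (hB ⟨e3, V.mul_mem (V.mul_mem hwm hru) (V.inv_mem hwm)⟩)
  simpa [mul_assoc, commutatorElement_def] using hD _ hm _ (inv_mem h1)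

end CfsgLib.SLin
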