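import Cfsg.Agent.Lib.SLin.Small
import Cfsg.Agent.S4201

/-!
# Bounds for the class numbers of all subgroups of a group
-/

set_option autoImplicit false

namespace CfsgLib.SLin

open Subgroup Cfsg
open scoped commutatorElement

universe u

/-- every subgroup has at most `n` classes -/
def KB (X : Type*) [Group X] (n : ℕ) : Prop := ∀ Y : Subgroup X, Nat.card (ConjClasses Y) ≤ n

/-- every subgroup of `X / K` has at most `n` classes -/
def KQ {X : Type*} [Group X] (K : Subgroup X) (n : ℕ) : Prop := ∃ _ : K.Normal, KB (X ⧸ K) n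

section calc_
variable {X Y : Type*} [Group X] [Group Y] {n a b : ℕ}

theorem KB.mono (h : KB X a) (hab : a ≤ b) : KB X b := fun Z => (h Z).trans hab

theorem k_le_card [Finite X] : Nat.card (ConjClasses X) ≤ Nat.card X :=
  Nat.card_le_card_of_surjective _ ConjClasses.mk_surjective

theorem KB.of_card [Finite X] (h : Nat.card X ≤ n) : KB X n := fun Z =>
  k_le_card.trans ((card_le_card_group Z).trans h)

theorem KB.of_inj [Finite X] (h : KB X n) (f : Y →* X) (hf : Function.Injective f) : KB Y n :=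
  fun Z => (k_le_of_surj (Z.equivMapOfInjective f hf).symm.toMonoidHom
    (MulEquiv.surjective _)).trans (h _)

theorem KB.of_surj [Finite X] (h : KB X n) (f : X →* Y) (hf : Function.Surjective f) : KB Y n :=
  fun Z => (k_le_of_surj (f.subgroupComap Z) (f.subgroupComap_surjective_of_surjective Z hf)).trans
    (h _)

theorem KB.k_le [Finite X] (h : KB X n) : Nat.card (ConjClasses X) ≤ n :=
  (k_le_of_surj (⊤ : Subgroup X).subtype fun x => ⟨⟨x, trivial⟩, rfl⟩).trans (h ⊤)

theorem KB.ext [Finite X] {N Q : Type*} [Group N] [Finite N] [Group Q] [Finite Q] (i : N →* X)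
    (f : X →* Q) (h : f.ker ≤ i.range) (h1 : KB N a) (h2 : KB Q b) : KB X (a * b) := by
  intro Z
  refine (Cfsg.Agent.S4201.result (f.comp Z.subtype).ker).trans (Nat.mul_le_mul ?_ ?_)
  · exact ((h1.of_surj _ i.rangeRestrict_surjective).of_inj
      (MonoidHom.codRestrict (Z.subtype.comp (f.comp Z.subtype).ker.subtype) i.range
        fun x => h x.2) fun x y e => Subtype.ext (Subtype.ext
          (congrArg (fun z : i.range => (z : X)) e))).k_le
  · exact (h2.of_inj _ (QuotientGroup.kerLift_injective _)).k_le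

theorem KB.of_cent [Finite X] (Z : Set X) (h1 : (1 : X) ∈ Z) {c : ℕ} (hc : 0 < c)
    (h : ∀ x, x ∉ Z → Nat.card (centralizer ({x} : Set X)) ≤ c) : KB X (Z.ncard + c - 1) := by
  classical
  intro Y
  have := Fintype.ofFinite Y
  have h2 := ClassCount.card_conjClasses_mul_card (G := Y)
  set s := Finset.univ.filter fun y : Y => (y : X) ∈ Z
  have h3 : s.card ≤ Z.ncard := by
    rw [← Set.ncard_coe_finset]
    exact Set.ncard_le_ncard_of_injOn Subtype.val (fun y hy => by simpa [s] using hy)
      Subtype.val_injective.injOn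
  have h4 : 0 < s.card := Finset.card_pos.2 ⟨1, by simpa [s] using h1⟩
  have h5 := Finset.card_filter_add_card_filter_not (s := Finset.univ) fun y : Y => (y : X) ∈ Z
  rw [← Finset.sum_filter_add_sum_filter_not Finset.univ fun y : Y => (y : X) ∈ Z] at h2
  have h6 := Finset.sum_le_card_nsmul s (fun y : Y => Nat.card (centralizer ({y} : Set Y)))
    (Nat.card Y) fun y _ => card_le_card_group _
  have h7 := Finset.sum_le_card_nsmul (Finset.univ.filter fun y : Y => (y : X) ∉ Z)
    (fun y : Y => Nat.card (centralizer ({y} : Set Y))) c fun y hy => by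
      refine le_trans ?_ (h y (by simpa using hy))
      rw [← card_map_of_injective Y.subtype_injective]
      refine card_le_of_le ?_
      rintro _ ⟨g, hg, rfl⟩ _ rfl
      exact congrArg Subtype.val (hg y rfl)
  rw [Finset.card_univ, ← Nat.card_eq_fintype_card] at h5
  rw [smul_eq_mul] at h6 h7
  have h8 : Nat.card (ConjClasses Y) * Nat.card Y < (Z.ncard + c) * Nat.card Y := by
    rw [h2, add_mul]
    refine Nat.add_lt_add_of_le_of_lt (h6.trans (Nat.mul_le_mul_right _ h3)) (h7.trans_lt ?_)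
    rw [mul_comm]
    exact Nat.mul_lt_mul_of_pos_left (by change s.card + _ = _ at h5; omega) hc
  have := Nat.lt_of_mul_lt_mul_right h8
  omega

variable {K L : Subgroup X}

theorem KQ.le (h : KQ K a) (hab : a ≤ b) : KQ K b := by
  obtain ⟨_, h⟩ := h
  exact ⟨_, h.mono hab⟩

theorem KQ.mono [Finite X] (h : KQ K n) (hKL : K ≤ L) (hL : L.Normal) : KQ L n := by
  obtain ⟨_, h⟩ := h
  refine ⟨hL, h.of_surj (QuotientGroup.map K L (MonoidHom.id X) hKL) fun x => ?_⟩
  obtain ⟨x, rfl⟩ := QuotientGroup.mk_surjective x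
  exact ⟨x, rfl⟩

theorem KQ.of_index [Finite X] (hK : K.Normal) (h : K.index ≤ n) : KQ K n := ⟨hK, KB.of_card h⟩

theorem KQ.of_hom [Finite Y] (f : X →* Y) (h : KB Y n) : KQ f.ker n :=
  ⟨inferInstance, h.of_inj _ (QuotientGroup.kerLift_injective f)⟩

theorem KQ.comap [Finite Y] (f : X →* Y) {K : Subgroup Y} (h : KQ K n) : KQ (K.comap f) n := by
  obtain ⟨_, h⟩ := h
  have := KQ.of_hom ((QuotientGroup.mk' K).comp f) h
  rwa [← MonoidHom.comap_ker, QuotientGroup.ker_mk'] at this

theorem KQ.ext [Finite X] (hK : K.Normal) (h1 : KQ (K.subgroupOf L) a) (h2 : KQ L b) :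
    KQ K (a * b) := by
  have hL := h2.1
  obtain ⟨_, h1⟩ := h1
  obtain ⟨_, h3⟩ := h2.mono (le_sup_left : L ≤ L ⊔ K) inferInstance
  refine ⟨hK, KB.ext (QuotientGroup.map (K.subgroupOf L) K L.subtype le_rfl)
    (QuotientGroup.map K (L ⊔ K) (MonoidHom.id X) le_sup_right) (fun x hx => ?_) h1 h3⟩
  obtain ⟨x, rfl⟩ := QuotientGroup.mk_surjective x
  obtain ⟨y, hy, z, hz, rfl⟩ := mem_sup_of_normal_right.1 ((QuotientGroup.eq_one_iff x).1 hx)
  exact ⟨(⟨y, hy⟩ : L), (QuotientGroup.mk_mul_of_mem y hz).symm⟩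

theorem KQ.inf [Finite X] (h1 : KQ K a) (h2 : KQ L b) : KQ (K ⊓ L) (a * b) := by
  have := h1.1
  have := h2.1
  refine KQ.ext inferInstance ?_ h2
  rw [inf_subgroupOf_right]
  exact h1.comap L.subtype

theorem KQ.iInf [Finite X] {ι : Type*} [Fintype ι] {K : ι → Subgroup X} {n : ι → ℕ}
    (h : ∀ i, KQ (K i) (n i)) : KQ (⨅ i, K i) (∏ i, n i) := by
  classical
  have key : ∀ s : Finset ι, KQ (⨅ i ∈ s, K i) (∏ i ∈ s, n i) := by
    intro s
    induction s using Finset.induction_on with
    | empty => simpa using KQ.of_index (K := (⊤ : Subgroup X)) inferInstance (by simp)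
    | insert i s hi ih =>
      rw [Finset.iInf_insert, Finset.prod_insert hi]
      exact (h i).inf ih
  simpa using key Finset.univ

theorem KQ.k_le [Finite X] [K.Normal] (h : KQ K n) (H : Subgroup X) :
    Nat.card (ConjClasses (H ⧸ K.subgroupOf H)) ≤ n := by
  obtain ⟨_, h⟩ := h.comap H.subtype
  exact h.k_le

end calc_

/-- automorphism groups of abelian groups of order `p ^ 2` -/
theorem kb_prime_sq {V : Type*} [CommGroup V] [Finite V] {p : ℕ} (hp : p.Prime)
    (hV : Nat.card V = p ^ 2) : KB (MulAut V) (p ^ 2 + p - 3) := by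
  have h2 := hp.two_le
  have hpp : p ^ 2 = p * p := pow_two p
  have h4 : p + p ≤ p * p := by nlinarith
  by_cases hc : IsCyclic V
  · refine KB.of_card ?_
    rw [IsCyclic.card_mulAut, hV, Nat.totient_prime_pow_succ hp 1, pow_one, Nat.mul_sub_one]
    omega
  have hsub : ∀ K : Subgroup V, K = ⊥ ∨ Nat.card K = p ∨ K = ⊤ := by
    intro K
    obtain ⟨i, hi, h2⟩ := (Nat.dvd_prime_pow hp).1 (hV ▸ card_subgroup_dvd_card K)
    interval_cases i
    · exact Or.inl (card_eq_one.1 h2)
    · exact Or.inr (Or.inl (h2.trans (pow_one p)))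
    · exact Or.inr (Or.inr ((card_eq_iff_eq_top K).1 (h2.trans hV.symm)))
  have hz : ∀ v : V, v ≠ 1 → Nat.card (zpowers v) = p := fun v hv => by
    rcases hsub (zpowers v) with e | e | e
    · exact absurd (zpowers_eq_bot.1 e) hv
    · exact e
    · exact absurd ⟨v, (eq_top_iff' _).1 e⟩ hc
  have htop : ∀ (K : Subgroup V) (v w : V), v ≠ 1 → w ∉ zpowers v → v ∈ K → w ∈ K → K = ⊤ := by
    intro K v w hv hw h1 h3
    rcases hsub K with e | e | e
    · exact absurd (mem_bot.1 (e ▸ h1)) hv
    · exact absurd ((eq_of_le_of_card_le (zpowers_le.2 h1) (e.trans (hz v hv).symm).le).ge h3) hw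
    · exact e
  have : Nontrivial V := Finite.one_lt_card_iff_nontrivial.1 (by omega)
  obtain ⟨v, hv⟩ := exists_ne (1 : V)
  obtain ⟨w, hw⟩ : ∃ w, w ∉ zpowers v := by
    by_contra hne
    push Not at hne
    exact hc ⟨v, hne⟩
  have h5 := KB.of_cent {g : MulAut V | ∀ x, g x ∈ zpowers x} (fun x => mem_zpowers x)
    (c := p ^ 2 - 1) (by omega) fun g hg => by
      obtain ⟨x, hx⟩ : ∃ x, g x ∉ zpowers x := by simpa using hg
      have hx1 : x ≠ 1 := fun e => hx (by rw [e, map_one]; exact one_mem _)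
      have h6 := relIndex_stb_le (MonoidHom.id _) (centralizer {g}) x (T := {1}ᶜ) fun k _ e =>
        hx1 (k.injective (e.trans (map_one k).symm))
      suffices h : stb (MonoidHom.id _) x ⊓ centralizer {g} = ⊥ by
        rwa [Set.ncard_compl, Set.ncard_singleton, hV, ← inf_relIndex_right, h,
          relIndex_bot_left] at h6
      refine eq_bot_iff.2 fun k hk => MulEquiv.ext fun y => ((htop (fx (MonoidHom.id _) k) x (g x) hx1 hx hk.1 ?_).ge
        (mem_top y) : y ∈ fx (MonoidHom.id _) k)
      change (k * g) x = g x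
      rw [← hk.2 g rfl]
      exact congrArg g hk.1
  refine h5.mono ?_
  have h6 : {g : MulAut V | ∀ x, g x ∈ zpowers x}.ncard ≤ ((zpowers v : Set V) \ {1}).ncard := by
    refine Set.ncard_le_ncard_of_injOn (fun g => g v)
      (fun g hg => ⟨hg v, fun e => hv (g.injective (e.trans (map_one g).symm))⟩)
      fun g hg k hk e => ?_
    have e' : g v = k v := e
    suffices h : g w = k w by
      refine MulEquiv.ext fun y => ?_
      exact ((htop (g.toMonoidHom.eqLocus k.toMonoidHom) v w hv hw e' h).ge (mem_top y) :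
        y ∈ g.toMonoidHom.eqLocus k.toMonoidHom)
    have hw1 : w ≠ 1 := fun e => hw (e ▸ one_mem _)
    have hvw : v * w ≠ 1 := fun e => hw (by
      rw [eq_inv_of_mul_eq_one_right e]; exact inv_mem (mem_zpowers v))
    have a1 : g w / k w ∈ zpowers w := div_mem (hg w) (hk w)
    have a2 : g w / k w ∈ zpowers (v * w) := by
      have := div_mem (hg (v * w)) (hk (v * w))
      rwa [map_mul, map_mul, e', mul_div_mul_left_eq_div] at this
    by_contra hne
    have a3 : g w / k w ≠ 1 := fun e => hne (div_eq_one.1 e)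
    have a4 := eq_of_le_of_card_le (zpowers_le.2 a1) ((hz _ hw1).trans (hz _ a3).symm).le
    have a5 := eq_of_le_of_card_le (zpowers_le.2 a2) ((hz _ hvw).trans (hz _ a3).symm).le
    have a6 : v ∈ zpowers w := by
      have := div_mem (a4.le (a5.ge (mem_zpowers _))) (mem_zpowers w)
      rwa [mul_div_cancel_right] at this
    exact hw ((eq_of_le_of_card_le (zpowers_le.2 a6) ((hz _ hw1).trans (hz _ hv).symm).le).ge
      (mem_zpowers w))
  rw [Set.ncard_diff_singleton_of_mem (one_mem _)] at h6
  have h7 : (zpowers v : Set V).ncard = p := hz v hv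
  omega

section perm
variable {A : Type u} [Group A] [Finite A] [Group.IsSolvable A]

theorem perm_prim_le {H : Subgroup A} (hH : IsCoatom H) :
    (MulAction.toPermHom A (A ⧸ H)).ker.index ≤ 3 ^ (H.index - 1) := by
  have h2 : 2 ≤ H.index := by
    have a1 : H.index ≠ 1 := fun e => hH.1 (index_eq_one.1 e)
    have a2 : H.index ≠ 0 := index_ne_zero_of_finite
    omega
  by_cases h5 : H.index ≤ 5
  · have h1 := perm_sq_le hH
    by_cases h4 : H.index ≤ 4
    · have h1 : _ ≤ H.index.factorial := index_perm_le (X := A) (Ω := A ⧸ H)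
      refine h1.trans ?_
      generalize H.index = t at *
      interval_cases t <;> decide
    obtain ⟨V, _, _, ψ, β, r, d, h⟩ := exists_affD hH
    have h5 : H.index = 5 := by omega
    have := Fact.mk Nat.prime_five
    have h6 := h.index.symm.trans h5
    have := isCyclic_of_prime_card h6
    have h7 : ψ.ker.index ≤ 4 := by
      rw [index_ker]
      refine (card_le_card_group _).trans ?_
      rw [IsCyclic.card_mulAut, h6]; decide
    refine (h.index_perm_le.trans (Nat.mul_le_mul_left _ h7)).trans ?_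
    rw [h5]; decide
  obtain ⟨V, _, _, ψ, β, r, d, h⟩ := exists_affD hH
  have h1 := h.index_perm_le
  have h6 := pw V A ψ h.irr.cr (Finite.one_lt_card_iff_nontrivial.1 (h.index ▸ h2))
  have h7 : H.index ≠ 6 := fun e => by
    have a1 : r ^ d = 6 := h.card.symm.trans (h.index.symm.trans e)
    have a2 := (Nat.prime_dvd_prime_iff_eq Nat.prime_two h.prime).1
      (Nat.prime_two.dvd_of_dvd_pow (a1 ▸ by decide : 2 ∣ r ^ d))
    have a3 := (Nat.prime_dvd_prime_iff_eq Nat.prime_three h.prime).1
      (Nat.prime_three.dvd_of_dvd_pow (a1 ▸ by decide : 3 ∣ r ^ d))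
    omega
  rw [← h.index] at h6
  obtain ⟨t, ht⟩ : ∃ t, H.index = 7 + t := ⟨H.index - 7, by omega⟩
  have h8 := grow (k := 4) (e0 := 7) (c := 3) (A := 3645) (by norm_num) (by norm_num)
    (by norm_num) (by norm_num) t
  have h9 : 5 * (MulAction.toPermHom A (A ⧸ H)).ker.index ≤ (7 + t) ^ 4 := by
    rw [← ht]
    calc _ ≤ H.index * H.index ^ 3 := by nlinarith
      _ = _ := by ring
  rw [ht, show 7 + t - 1 = 6 + t by omega, pow_add]
  omega

theorem core_index_le (n : ℕ) : ∀ (A : Type u) [Group A] [Finite A] [Group.IsSolvable A]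
    (H : Subgroup A), H.index = n → H.normalCore.index ≤ 3 ^ (n - 1) := by
  induction n using Nat.strong_induction_on with
  | _ n ih =>
  intro A _ _ _ H hn
  rcases eq_top_or_exists_le_coatom H with rfl | ⟨M, hM, hHM⟩
  · rw [normalCore_eq_self, index_top]; exact Nat.one_le_pow _ _ (by decide)
  have := Fintype.ofFinite (A ⧸ M)
  have h1 := relIndex_mul_index hHM
  have h2 : 2 ≤ M.index := by
    have a1 : M.index ≠ 1 := fun e => hM.1 (index_eq_one.1 e)
    have a2 : M.index ≠ 0 := index_ne_zero_of_finite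
    omega
  have h3 : 0 < H.relIndex M := Nat.pos_of_ne_zero index_ne_zero_of_finite
  have h4 := ih (H.relIndex M) (by nlinarith) M (H.subgroupOf M) rfl
  set T := (MulAction.toPermHom A (A ⧸ M)).ker
  have hT : ∀ g ∈ T, ∀ ω : A ⧸ M, g • ω = ω := fun g hg ω => Equiv.congr_fun hg ω
  choose f hf using exists_conjHom T hT
  have h5 : (⨅ ω, (H.subgroupOf M).normalCore.comap (f ω)) ≤ H.normalCore.subgroupOf T := by
    intro t ht a
    have h6 := mem_iInf.1 ht ((a⁻¹ : A) : A ⧸ M)
    obtain ⟨m, hm⟩ := QuotientGroup.mk_out_eq_mul M a⁻¹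
    have h7 : ((m * f ((a⁻¹ : A) : A ⧸ M) t * m⁻¹ : M) : A) ∈ H := h6 m
    rw [hf, coe_mul, coe_mul, coc_val, hT t t.2, hm] at h7
    simpa [mul_assoc] using h7
  have h6 : H.normalCore.relIndex T ≤ (3 ^ (H.relIndex M - 1)) ^ M.index := by
    refine (index_antitone h5).trans ((index_iInf_le _).trans ?_)
    refine (Finset.prod_le_pow_card _ _ (3 ^ (H.relIndex M - 1)) fun ω _ => ?_).trans ?_
    · rw [index_comap]
      exact (Nat.le_of_dvd (Nat.pos_of_ne_zero index_ne_zero_of_finite)
        (relIndex_dvd_index_of_normal _ _)).trans h4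
    · rw [Finset.card_univ, ← Nat.card_eq_fintype_card]; rfl
  have h7 : H.normalCore ≤ T := (normalCore_mono hHM).trans (normalCore_eq_ker M).le
  rw [← relIndex_mul_index h7]
  refine (Nat.mul_le_mul h6 (perm_prim_le hM)).trans (le_of_eq ?_)
  rw [← pow_mul, ← pow_add, ← hn, ← h1, Nat.sub_one_mul]
  congr 1
  have := Nat.le_mul_of_pos_left M.index h3
  omega

theorem perm_le {Ω : Type*} [Finite Ω] [Nonempty Ω] [MulAction A Ω] :
    (MulAction.toPermHom A Ω).ker.index ≤ 3 ^ (Nat.card Ω - 1) := by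
  classical
  have := Fintype.ofFinite Ω
  have := Fintype.ofFinite (MulAction.orbitRel.Quotient A Ω)
  have h1 : (⨅ c : MulAction.orbitRel.Quotient A Ω, (MulAction.stabilizer A c.out).normalCore) ≤
      (MulAction.toPermHom A Ω).ker := by
    intro g hg
    refine Equiv.ext fun ω => ?_
    obtain ⟨a, ha⟩ : ω ∈ MulAction.orbit A (Quotient.mk'' ω : MulAction.orbitRel.Quotient A Ω).out :=
      MulAction.orbitRel_apply.1 (Quotient.exact' (Quotient.out_eq' _).symm)
    have h2 : (a⁻¹ * g * a⁻¹⁻¹) • _ = _ := mem_iInf.1 hg (Quotient.mk'' ω) a⁻¹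
    change g • ω = ω
    change a • _ = ω at ha
    rw [inv_inv, mul_smul, mul_smul, ha, inv_smul_eq_iff, ha] at h2
    exact h2
  refine (index_antitone h1).trans ((index_iInf_le _).trans
    ((Finset.prod_le_prod' fun c _ => core_index_le _ A _ rfl).trans ?_))
  rw [Finset.prod_pow_eq_pow_sum]
  refine Nat.pow_le_pow_right (by decide) ?_
  have h2 : Nat.card Ω = ∑ c : MulAction.orbitRel.Quotient A Ω,
      (MulAction.stabilizer A c.out).index := by
    rw [Nat.card_congr (MulAction.selfEquivSigmaOrbits A Ω), Nat.card_sigma]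
    exact Finset.sum_congr rfl fun c _ => (MulAction.index_stabilizer A c.out).symm
  have h3 : ∑ c : MulAction.orbitRel.Quotient A Ω, (MulAction.stabilizer A c.out).index =
      ∑ c : MulAction.orbitRel.Quotient A Ω, ((MulAction.stabilizer A c.out).index - 1 + 1) :=
    Finset.sum_congr rfl fun c _ => (Nat.sub_add_cancel
      (Nat.pos_of_ne_zero index_ne_zero_of_finite)).symm
  have h4 : 0 < Fintype.card (MulAction.orbitRel.Quotient A Ω) :=
    Fintype.card_pos_iff.2 ⟨Quotient.mk'' (Classical.arbitrary Ω)⟩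
  rw [h2, h3, Finset.sum_add_distrib, Finset.sum_const, Finset.card_univ, smul_eq_mul]
  omega

end perm

end CfsgLib.SLin
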