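import Cfsg.Agent.Lib.SLin.KbLin

/-!
# Solvable complex linear groups: class numbers modulo the Fitting subgroup
-/

set_option autoImplicit false

namespace CfsgLib.SLin

open Subgroup Cfsg
open scoped commutatorElement

theorem exists_pd' {G W : Type*} [Group G] [Finite G] [CommGroup W] {φ : G →* MulAut W}
    [Group.IsSolvable G] (hφ : Function.Injective φ) (h : FP φ)
    (hcyc : ∀ U : Subgroup G, U.Normal → IsMulCommutative U → IsCyclic U) :
    ∃ U F, PD φ U F := by
  obtain ⟨U, -, hU⟩ := exists_maximal_ge_of_wellFoundedGT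
    (fun U : Subgroup G => U.Normal ∧ IsMulCommutative U) ⊥ ⟨inferInstance, inferInstance⟩
  have hUn := hU.1.1
  have hUc := hU.1.2
  have fpf := h U hUn (PGrp.isMulCommutative_iff_forall.1 hUc)
  set C := centralizer (U : Set G) with hC
  set F := fittingSubgroup G ⊓ C with hF
  have hFn : F.Normal := inferInstance
  have hUC : U ≤ C := le_centralizer U
  have UF : U ≤ F := le_inf le_fitting_of_isMulCommutative hUC
  have maxU : ∀ N : Subgroup G, N.Normal → U ≤ N → N ≤ F → N ⊓ centralizer (N : Set G) ≤ U := by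
    intro N hN h1 h2
    refine hU.2 (y := N ⊓ centralizer (N : Set G)) ⟨inferInstance,
      PGrp.isMulCommutative_iff_forall.2 fun a ha b hb => hb.2 a ha.1⟩ (le_inf h1 ?_)
    exact le_centralizer_iff.1 (h2.trans inf_le_right)
  have hCF : C ⊓ centralizer (F : Set G) ≤ F := by
    intro x hx
    have e : F = (fittingSubgroup C).map C.subtype :=
      (map_fitting_eq_inf_of_isSubnormal (Subgroup.Normal.isSubnormal inferInstance)).symm
    rw [e]
    refine ⟨⟨x, hx.1⟩, centralizer_fitting_le (fun y hy => Subtype.ext (hx.2 y ?_)), rfl⟩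
    rw [e]
    exact mem_map_of_mem _ hy
  have hcm := cm_normal U F
  have hUF' : ⁅U, F⁆ = ⊥ := by
    rw [Subgroup.commutator_comm, commutator_eq_bot_iff_le_centralizer]
    exact inf_le_right
  have comm : ⁅F, F⁆ ≤ U := by
    set Y := F ⊓ cm U F
    have hY : ⁅Y, F⁆ ≤ U := commutator_le.2 fun a ha b hb => mem_cm.1 ha.2 b hb
    have hUY : U ≤ Y := le_inf UF fun a ha => mem_cm.2 fun x _ =>
      commutator_le_left U ⊤ (commutator_mem_commutator ha (mem_top x))
    have h1 : ⁅⁅F, F⁆, Y⁆ = ⊥ := commutator_commutator_eq_bot_of_rotate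
      (eq_bot_iff.2 ((commutator_mono (Subgroup.commutator_comm F Y ▸ hY) le_rfl).trans hUF'.le))
      (eq_bot_iff.2 ((commutator_mono hY le_rfl).trans hUF'.le))
    set D := F ⊓ centralizer (Y : Set G)
    refine (le_inf (commutator_le_left F F) (commutator_eq_bot_iff_le_centralizer.1 h1)).trans
      (?_ : D ≤ U)
    by_contra hne
    have hDn : D.Normal := inferInstance
    have h2 := inf_centralizer_ne_bot_of_isNilpotent
      (isNilpotent_map (isNilpotent_of_le fitting_isNilpotent (inf_le_left : F ≤ _))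
        (QuotientGroup.mk' U)) (N := D.map (QuotientGroup.mk' U)) (map_mono inf_le_left)
      (by
        have := hDn.map _ (QuotientGroup.mk'_surjective U)
        rw [normalizer_eq_top]; exact le_top)
      (fun e => hne (by rwa [Subgroup.map_eq_bot_iff, QuotientGroup.ker_mk'] at e))
    obtain ⟨⟨_, ⟨d, hd, rfl⟩, h3⟩, h4⟩ := ne_bot_iff_exists_ne_one.1 h2
    exact h4 (Subtype.ext ((QuotientGroup.eq_one_iff d).2
      (maxU Y inferInstance hUY inf_le_left ⟨⟨hd.1, h3⟩, hd.2⟩)))
  refine ⟨U, F, hφ, hUn, hFn, hcyc U hUn hUc, fpf, UF, inf_le_right, maxU, comm,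
    fun g hg h1 => ?_⟩
  set B := C ⊓ cm U F
  have hB : ⁅B, F⁆ ≤ U := commutator_le.2 fun a ha b hb => mem_cm.1 ha.2 b hb
  have hUB : ⁅U, B⁆ = ⊥ := by
    rw [Subgroup.commutator_comm, commutator_eq_bot_iff_le_centralizer]
    exact inf_le_left
  have h2 : ⁅⁅B, B⁆, F⁆ = ⊥ := commutator_commutator_eq_bot_of_rotate
    (eq_bot_iff.2 ((commutator_mono hB le_rfl).trans hUB.le))
    (eq_bot_iff.2 ((commutator_mono (Subgroup.commutator_comm F B ▸ hB) le_rfl).trans hUB.le))
  have h3 := commutator_eq_bot_iff_le_centralizer.1 h2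
  have h4 : ⁅B, B⁆ ≤ U := (le_inf ((le_inf ((commutator_le_left B B).trans inf_le_left) h3).trans
    hCF) h3).trans (maxU F hFn UF le_rfl)
  have h5 := isNilpotent_of_commutator_commutator_eq_bot (D := B)
    (eq_bot_iff.2 ((commutator_mono h4 le_rfl).trans hUB.le))
  exact ⟨le_fitting h5 (⟨hg, mem_cm.2 h1⟩ : g ∈ B), hg⟩

theorem PD.exists_max {G W : Type*} [Group G] [Finite G] [CommGroup W] {φ : G →* MulAut W}
    {U F : Subgroup G} (h : PD φ U F) {N : Subgroup G} (hN : N.Normal) (h1 : U ≤ N) (h2 : N ≤ F) :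
    ∃ A : Subgroup G, U ≤ A ∧ A ≤ N ∧ N ⊓ centralizer (A : Set G) = A ∧
      U.relIndex N = A.relIndex N ^ 2 := by
  obtain ⟨A, h3, hA⟩ := exists_maximal_ge_of_wellFoundedGT
    (fun A : Subgroup G => A ≤ N ∧ A ≤ centralizer (A : Set G)) U ⟨h1, h.UF.trans h.FC⟩
  have h4 : N ⊓ centralizer (A : Set G) = A := by
    refine le_antisymm (fun x hx => ?_) (le_inf hA.1.1 hA.1.2)
    have h5 : A ⊔ zpowers x ≤ centralizer (A : Set G) := sup_le hA.1.2 (zpowers_le.2 hx.2)
    refine hA.2 (y := A ⊔ zpowers x) ⟨sup_le hA.1.1 (zpowers_le.2 hx.1), sup_le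
      (le_centralizer_iff.1 h5) (le_centralizer_iff.1 (sup_le
        (le_centralizer_iff.1 (zpowers_le.2 hx.2)) (le_centralizer _)))⟩ le_sup_left
      (mem_sup_right (mem_zpowers x))
  refine ⟨A, h3, hA.1.1, h4, ?_⟩
  have h5 := h.dual h2 (hA.1.1.trans h2)
  have h6 : A ⊓ centralizer (N : Set G) = U := le_antisymm
    ((inf_le_inf_right _ hA.1.1).trans (h.inf_cent hN h1 h2).le)
    (le_inf h3 ((h.inf_cent hN h1 h2).ge.trans inf_le_right))
  rw [← inf_relIndex_left N, h4, ← inf_relIndex_left A, h6] at h5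
  rw [← relIndex_mul_relIndex U A N h3 hA.1.1, ← h5, pow_two]

section cx
variable {G V : Type} [Group G] [Finite G] [AddCommGroup V] [Module ℂ V] [FiniteDimensional ℂ V]

/-- weight space decomposition with respect to an abelian normal subgroup -/
theorem exists_wt (ρ : Representation ℂ G V) (A : Subgroup G) [A.Normal]
    (hA : A ≤ centralizer (A : Set G)) :
    ∃ (Ω : Type) (_ : Fintype Ω) (_ : MulAction G Ω) (W : Ω → Submodule ℂ V),
      (∀ ω, 1 ≤ Module.finrank ℂ (W ω)) ∧ ⨆ ω, W ω = ⊤ ∧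
      ∑ ω, Module.finrank ℂ (W ω) = Module.finrank ℂ V ∧
      (∀ g ω, ∀ v ∈ W ω, ρ g v ∈ W (g • ω)) ∧
      ∀ ω, ∀ a ∈ A, ∃ c : ℂ, ∀ v ∈ W ω, ρ a v = c • v := by
  classical
  have hss : ∀ g, Module.End.maxGenEigenspace (ρ g) = Module.End.eigenspace (ρ g) := fun g => by
    funext μ
    refine (Module.End.isSemisimple_of_squarefree_aeval_eq_zero
      (Polynomial.X_pow_sub_one_separable_iff.2 (Nat.cast_ne_zero.2
        (Nat.card_pos (α := G)).ne')).squarefree ?_).isFinitelySemisimple.maxGenEigenspace_eq_eigenspace μ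
    rw [map_sub, map_pow, Polynomial.aeval_X, map_one, ← map_pow, pow_card_eq_one', map_one,
      sub_self]
  have hc : ∀ a b : A, Commute (ρ a) (ρ b) := fun a b =>
    (show Commute (a : G) b from hA b.2 a a.2).map ρ
  let P : (A → ℂ) → Submodule ℂ V := fun χ => ⨅ a : A, Module.End.maxGenEigenspace (ρ a) (χ a)
  have hP : ∀ χ v, v ∈ P χ ↔ ∀ a : A, ρ a v = χ a • v := fun χ v => by
    simp only [P, Submodule.mem_iInf]
    exact forall_congr' fun a => by rw [hss, Module.End.mem_eigenspace_iff]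
  have h1 : iSupIndep P := Module.End.independent_iInf_maxGenEigenspace_of_forall_mapsTo _
    fun a b => Module.End.mapsTo_maxGenEigenspace_of_comm (hc b a)
  have h2 : ⨆ χ, P χ = ⊤ :=
    Module.End.iSup_iInf_maxGenEigenspace_eq_top_of_iSup_maxGenEigenspace_eq_top_of_commute _
      (fun a b _ => hc a b) fun a => Module.End.iSup_maxGenEigenspace_eq_top _
  have h3 : ∀ g χ, ∀ v ∈ P χ, ρ g v ∈ P fun a => χ (MulAut.conjNormal g⁻¹ a) := by
    intro g χ v hv
    refine (hP _ _).2 fun a => ?_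
    rw [← map_smul, ← (hP _ _).1 hv, ← Module.End.mul_apply, ← Module.End.mul_apply, ← map_mul,
      ← map_mul]
    simp [mul_assoc]
  letI : MulAction G {χ // P χ ≠ ⊥} :=
    { smul := fun g χ => ⟨fun a => χ.1 (MulAut.conjNormal g⁻¹ a), by
        obtain ⟨v, hv, hv0⟩ := Submodule.exists_mem_ne_zero_of_ne_bot χ.2
        refine Submodule.ne_bot_iff _ |>.2 ⟨_, h3 g _ v hv, fun e => hv0 ?_⟩
        have := congrArg (ρ g⁻¹) e
        rwa [← Module.End.mul_apply, ← map_mul, inv_mul_cancel, map_one, map_zero] at this⟩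
      one_smul := fun χ => Subtype.ext (funext fun a => by
        change χ.1 (MulAut.conjNormal 1⁻¹ a) = _
        simp)
      mul_smul := fun g k χ => Subtype.ext (funext fun a => by
        change χ.1 (MulAut.conjNormal (g * k)⁻¹ a) =
          χ.1 (MulAut.conjNormal k⁻¹ (MulAut.conjNormal g⁻¹ a))
        rw [mul_inv_rev, map_mul]; rfl) }
  have h4 := (iSup_ne_bot_subtype P).trans h2
  letI := h1.fintypeNeBotOfFiniteDimensional
  refine ⟨{χ // P χ ≠ ⊥}, inferInstance, inferInstance, fun ω => P ω, fun ω => ?_, h4, ?_,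
    fun g ω => h3 g ω, fun ω a ha => ⟨ω.1 ⟨a, ha⟩, fun v hv => (hP _ _).1 hv ⟨a, ha⟩⟩⟩
  · exact Nat.pos_of_ne_zero fun e => ω.2 (Submodule.finrank_eq_zero.1 e)
  · rw [← Module.finrank_directSum]
    exact (LinearEquiv.ofBijective (DirectSum.coeLinearMap fun ω : {χ // P χ ≠ ⊥} => P ω)
      (DirectSum.isInternal_submodule_of_iSupIndep_of_iSup_eq_top
        (h1.comp Subtype.val_injective) h4)).finrank_eq

omit [Finite G] [FiniteDimensional ℂ V] in
theorem rep_inv (ρ : Representation ℂ G V) (g : G) (v : V) : ρ g⁻¹ (ρ g v) = v := by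
  rw [← Module.End.mul_apply, ← map_mul, inv_mul_cancel, map_one]; rfl

/-- the action on the underlying multiplicative group -/
def mphi (ρ : Representation ℂ G V) : G →* MulAut (Multiplicative V) where
  toFun g :=
    { toFun := fun v => Multiplicative.ofAdd (ρ g v.toAdd)
      invFun := fun v => Multiplicative.ofAdd (ρ g⁻¹ v.toAdd)
      left_inv := fun v => congrArg Multiplicative.ofAdd (rep_inv ρ g _)
      right_inv := fun v => congrArg Multiplicative.ofAdd (by
        have := rep_inv ρ g⁻¹ v.toAdd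
        rwa [inv_inv] at this)
      map_mul' := fun v w => congrArg Multiplicative.ofAdd (map_add (ρ g) _ _) }
  map_one' := MulEquiv.ext fun v => congrArg Multiplicative.ofAdd (by rw [map_one]; rfl)
  map_mul' g k := MulEquiv.ext fun v => congrArg Multiplicative.ofAdd (by rw [map_mul]; rfl)

theorem kq_scalar [Group.IsSolvable G] [Nontrivial V] (ρ : Representation ℂ G V)
    (hρ : Function.Injective ρ) (h : ∀ A : Subgroup G, A.Normal → A ≤ centralizer (A : Set G) →
      ∀ a ∈ A, ∃ c : ℂ, ∀ v, ρ a v = c • v) :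
    KQ (fittingSubgroup G) (3 ^ (Module.finrank ℂ V - 1)) := by
  have hfp : ∀ (a : G) (c : ℂ), (∀ v, ρ a v = c • v) → ∀ v, v ≠ 0 → ρ a v = v → a = 1 := by
    intro a c h1 v hv e
    have h2 : c = 1 := smul_left_injective ℂ hv ((h1 v).symm.trans (e.trans (one_smul ℂ v).symm))
    exact hρ (LinearMap.ext fun w => by rw [h1, h2, one_smul, map_one]; rfl)
  obtain ⟨v, hv⟩ := exists_ne (0 : V)
  obtain ⟨U, F, hd⟩ := exists_pd' (φ := mphi ρ) (fun a b e => hρ (LinearMap.ext fun v =>
    congrArg Multiplicative.toAdd (MulEquiv.congr_fun e (Multiplicative.ofAdd v))))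
    (fun U hU h1 u hu w hw e => (h U hU (fun a ha b hb => h1 b hb a ha) u hu).elim fun c hc =>
      hfp u c hc w.toAdd hw (congrArg Multiplicative.toAdd e)) fun U hU h1 => by
      choose c hc using h U hU (le_centralizer U)
      refine isCyclic_of_injective_ringHom (R := ℂ)
        { toFun := fun u : U => c u u.2
          map_one' := smul_left_injective ℂ hv ((hc _ _ v).symm.trans (by simp))
          map_mul' := fun a b => smul_left_injective ℂ hv ((hc _ _ v).symm.trans (by
            simp only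
            rw [coe_mul, map_mul, Module.End.mul_apply, hc _ b.2, hc _ a.2, smul_smul])) }
        fun a b e => Subtype.ext (hρ (LinearMap.ext fun w => ?_))
      rw [hc _ a.2, hc _ b.2]
      exact congrArg (· • w) e
  have := hd.nF
  have := hd.nU
  have hU : centralizer (U : Set G) = ⊤ := (eq_top_iff' _).2 fun g u hu => by
    obtain ⟨c, hc⟩ := h U hd.nU (hd.UF.trans hd.FC) u hu
    refine hρ (LinearMap.ext fun w => ?_)
    rw [map_mul, map_mul, Module.End.mul_apply, Module.End.mul_apply, hc, hc, map_smul]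
  obtain ⟨M, _, _, ψ, π, hs⟩ := exists_secD F U hd.comm
  obtain ⟨A, h1, h2, h3, h4⟩ := hd.exists_max hd.nF hd.UF le_rfl
  have h5 := kb_sq M G ψ (hd.cr hs) (fun W hW => by
    obtain ⟨B, -, -, -, a1⟩ := hd.exists_max (hs.pre_normal hW) (hs.le_pre hd.UF W) (pre_le W)
    have a2 := hs.card_pre hd.UF W
    rw [← card_mul_relIndex (hs.le_pre hd.UF W), a1] at a2
    exact ⟨_, (Nat.eq_of_mul_eq_mul_left Nat.card_pos a2).symm.trans (pow_two _)⟩) _
    (hs.card.trans h4)
  have h6 := hd.ker_inf hs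
  rw [hU, inf_top_eq] at h6
  refine (h5.mono (h6.trans_le (le_fitting (isNilpotent_of_commutator_commutator_eq_bot
    (eq_bot_iff.2 ((commutator_mono hd.comm le_rfl).trans (le_of_eq ?_)))))) inferInstance).le
    (Nat.pow_le_pow_right (by decide) (Nat.sub_le_sub_right ?_ 1))
  · rw [Subgroup.commutator_comm, commutator_eq_bot_iff_le_centralizer]
    exact hd.FC
  have : (A.subgroupOf F).Normal := ⟨fun a ha g => by
    have : (g : G) * a * (g : G)⁻¹ = ⁅(g : G), (a : G)⁆ * a := by simp [commutatorElement_def]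
    change (g : G) * a * (g : G)⁻¹ ∈ A
    rw [this]
    exact A.mul_mem (h1 (hd.cmem g.2 a.2)) ha⟩
  obtain ⟨Ω, _, _, W, a1, a2, a3, a4, a5⟩ := exists_wt (ρ.comp F.subtype) (A.subgroupOf F)
    fun a ha b hb => Subtype.ext ((h3.ge ha).2 b hb)
  obtain ⟨ω⟩ : Nonempty Ω := by
    by_contra hne
    rw [not_nonempty_iff] at hne
    rw [iSup_of_empty] at a2
    exact bot_ne_top a2
  have a6 : MulAction.stabilizer F ω ≤ A.subgroupOf F := by
    intro g hg
    refine h3.le ⟨g.2, fun a ha => ?_⟩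
    obtain ⟨c, hc⟩ := a5 ω ⟨a, h2 ha⟩ ha
    obtain ⟨w, hw, hw0⟩ := Submodule.exists_mem_ne_zero_of_ne_bot (p := W ω) fun e => by
      have := a1 ω
      rw [e, finrank_bot] at this
      omega
    have a7 := a4 g ω w hw
    rw [hg] at a7
    have a8 : ρ (a * g) w = ρ (g * a) w := by
      rw [map_mul, map_mul]
      exact (hc _ a7).trans ((map_smul (ρ g) c w).symm.trans (congrArg (ρ g) (hc w hw).symm))
    have a9 := hd.fpf _ (hd.cmem (F.inv_mem (h2 ha)) (F.inv_mem g.2)) (Multiplicative.ofAdd w) hw0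
      (congrArg Multiplicative.ofAdd (by
        change ρ _ w = w
        rw [show ⁅a⁻¹, (g : G)⁻¹⁆ = (g * a)⁻¹ * (a * g) by simp [commutatorElement_def, mul_assoc],
          map_mul, Module.End.mul_apply, a8, rep_inv]))
    exact (Commute.inv_inv_iff.1 (commutatorElement_eq_one_iff_commute.1 a9)).eq
  refine (index_antitone a6).trans ?_
  rw [MulAction.index_stabilizer, ← a3]
  refine (Set.ncard_le_card _).trans ?_
  rw [Nat.card_eq_fintype_card, ← Finset.card_univ, Finset.card_eq_sum_ones]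
  exact Finset.sum_le_sum fun ω _ => a1 ω

end cx

theorem kq_cx (n : ℕ) : ∀ (G V : Type) [Group G] [Finite G] [Group.IsSolvable G] [AddCommGroup V]
    [Module ℂ V] [FiniteDimensional ℂ V] (ρ : Representation ℂ G V), Function.Injective ρ →
      Module.finrank ℂ V = n → KQ (fittingSubgroup G) (3 ^ (n - 1)) := by
  induction n using Nat.strong_induction_on with
  | _ n ih =>
  intro G V _ _ _ _ _ _ ρ hρ hn
  rcases subsingleton_or_nontrivial V with hV | hV
  · have : Subsingleton G := hρ.subsingleton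
    refine KQ.of_index inferInstance ?_
    rw [Subsingleton.elim (fittingSubgroup G) ⊤, index_top]
    exact Nat.one_le_pow _ _ (by decide)
  by_cases h : ∀ A : Subgroup G, A.Normal → A ≤ centralizer (A : Set G) →
      ∀ a ∈ A, ∃ c : ℂ, ∀ v, ρ a v = c • v
  · exact hn ▸ kq_scalar ρ hρ h
  push Not at h
  obtain ⟨A, _, hA, a, ha, h⟩ := h
  obtain ⟨Ω, _, _, W, a1, a2, a3, a4, a5⟩ := exists_wt ρ A hA
  have hlt : ∀ ω, Module.finrank ℂ (W ω) < n := fun ω => by
    obtain ⟨c, hc⟩ := a5 ω a ha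
    obtain ⟨v, hv⟩ := h c
    exact hn ▸ Submodule.finrank_lt fun e => hv (hc v (e ▸ Submodule.mem_top))
  have : Nonempty Ω := by
    by_contra hne
    rw [not_nonempty_iff] at hne
    rw [iSup_of_empty] at a2
    exact bot_ne_top a2
  set N := (MulAction.toPermHom G Ω).ker
  let σ : ∀ ω, Representation ℂ N (W ω) := fun ω =>
    Representation.subrepresentation (ρ.comp N.subtype) (W ω) fun g v hv => by
      have := a4 g ω v hv
      rwa [show (g : G) • ω = ω from Equiv.congr_fun g.2 ω] at this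
  have h1 := KQ.iInf fun ω => (ih _ (hlt ω) (N ⧸ (σ ω).ker) (W ω)
    (QuotientGroup.lift _ (σ ω) le_rfl) ((injective_iff_map_eq_one _).2 fun x hx => by
      obtain ⟨x, rfl⟩ := QuotientGroup.mk_surjective x
      exact (QuotientGroup.eq_one_iff x).2 hx) rfl).comap (QuotientGroup.mk' _)
  set K := ⨅ ω, (fittingSubgroup (N ⧸ (σ ω).ker)).comap (QuotientGroup.mk' _)
  have h2 : Group.IsNilpotent K := by
    have := fun ω => fitting_isNilpotent (G := N ⧸ (σ ω).ker)
    refine isNilpotent_of_injective (Pi.monoidHom fun ω => MonoidHom.codRestrict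
      ((QuotientGroup.mk' (σ ω).ker).comp K.subtype) (fittingSubgroup _)
        fun x => mem_iInf.1 x.2 ω) ((injective_iff_map_eq_one _).2 fun x hx => ?_)
    refine Subtype.ext (Subtype.ext (hρ (LinearMap.ext fun v => ?_)))
    have b1 : ⊤ ≤ LinearMap.eqLocus (ρ x) 1 := a2.ge.trans (iSup_le fun ω w hw =>
      congrArg Subtype.val (LinearMap.congr_fun ((QuotientGroup.eq_one_iff (N := (σ ω).ker) x).1
        (congrArg Subtype.val (congrFun hx ω))) ⟨w, hw⟩))
    exact (b1 Submodule.mem_top).trans (by simp)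
  have := h1.1
  refine (KQ.ext inferInstance (h1.mono ((le_fitting h2).trans (map_le_iff_le_comap.1
    (map_fitting_le_of_isSubnormal (Subgroup.Normal.isSubnormal inferInstance)))) inferInstance)
    (KQ.of_index inferInstance perm_le)).le (le_of_eq ?_)
  rw [Finset.prod_pow_eq_pow_sum, ← pow_add, ← hn, ← a3, Finset.sum_congr rfl fun ω _ =>
    (Nat.sub_add_cancel (a1 ω)).symm, Finset.sum_add_distrib, Finset.sum_const, Finset.card_univ,
    smul_eq_mul, Nat.card_eq_fintype_card]
  have := Fintype.card_pos (α := Ω)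
  congr 1
  omega

end CfsgLib.SLin
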