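import Cfsg.Agent.Lib.SLin.Kb

/-!
# Class numbers of subgroups of solvable linear groups on modules of square order
-/

set_option autoImplicit false

namespace CfsgLib.SLin

open Subgroup Cfsg
open scoped commutatorElement

universe u

theorem kb_fifteen {A : Type*} [Group A] [Finite A] {U : Subgroup A} [U.Normal] [IsCyclic U]
    (h1 : centralizer (U : Set A) = U) (h2 : Nat.card U = 15) (h3 : U.index ≤ 4) : KB A 27 := by
  classical
  have := Fintype.ofFinite U
  have key : ∀ n, 0 < n → {x : A | x ∈ U ∧ x ^ n = 1}.ncard ≤ n := fun n hn => by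
    refine le_trans ?_ (IsCyclic.card_pow_eq_one_le (α := U) hn)
    rw [← Set.ncard_coe_finset, ← Set.ncard_image_of_injective _ Subtype.val_injective]
    exact Set.ncard_le_ncard fun x hx => ⟨⟨x, hx.1⟩, by simpa [Subtype.ext_iff] using hx.2, rfl⟩
  refine (KB.of_cent ({x : A | x ∈ U ∧ x ^ 3 = 1} ∪ {x : A | x ∈ U ∧ x ^ 5 = 1})
    (Or.inl ⟨one_mem _, one_pow _⟩) (c := 20) (by decide) fun x hx => ?_).mono ?_
  · by_cases hU : x ∈ U
    · have a1 : orderOf x ∣ 15 := h2 ▸ Subgroup.orderOf_dvd_natCard U hU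
      have a2 : ¬ orderOf x ∣ 3 := fun e => hx (Or.inl ⟨hU, orderOf_dvd_iff_pow_eq_one.1 e⟩)
      have a3 : ¬ orderOf x ∣ 5 := fun e => hx (Or.inr ⟨hU, orderOf_dvd_iff_pow_eq_one.1 e⟩)
      have a4 : orderOf x = 15 := by
        have := Nat.le_of_dvd (by decide) a1
        generalize orderOf x = n at *
        interval_cases n <;> omega
      have a5 := eq_of_le_of_card_le (zpowers_le.2 hU) (h2.trans (a4.symm.trans
        (Nat.card_zpowers x).symm)).le
      have a6 : centralizer ({x} : Set A) ≤ U := by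
        rw [← h1, ← a5]
        rintro g hg _ ⟨k, rfl⟩
        exact (show Commute x g from hg x rfl).zpow_left k
      exact (card_le_of_le a6).trans (by omega)
    · have a1 : Nat.card (U ⊓ centralizer ({x} : Set A) : Subgroup A) ∣ 15 :=
        h2 ▸ card_dvd_of_le inf_le_left
      have a2 : Nat.card (U ⊓ centralizer ({x} : Set A) : Subgroup A) ≠ 15 := fun e => by
        have := eq_of_le_of_card_le (inf_le_left : U ⊓ centralizer ({x} : Set A) ≤ U)
          (h2.trans e.symm).le
        exact hU (h1.le fun g hg => ((this.ge hg).2 x rfl).symm)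
      have a3 := card_inf_mul_relIndex U (centralizer ({x} : Set A))
      have a4 := (Nat.le_of_dvd (Nat.pos_of_ne_zero index_ne_zero_of_finite)
        (relIndex_dvd_index_of_normal U (centralizer ({x} : Set A)))).trans h3
      have a5 : Nat.card (U ⊓ centralizer ({x} : Set A) : Subgroup A) ≤ 5 := by
        have := Nat.le_of_dvd (by decide) a1
        generalize Nat.card (U ⊓ centralizer ({x} : Set A) : Subgroup A) = n at *
        interval_cases n <;> omega
      exact a3.ge.trans (Nat.mul_le_mul a5 a4)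
  · have := Set.ncard_union_le {x : A | x ∈ U ∧ x ^ 3 = 1} {x : A | x ∈ U ∧ x ^ 5 = 1}
    have := key 3 (by decide)
    have := key 5 (by decide)
    omega

variable {A V : Type u} [Group A] [Finite A] [CommGroup V] [Finite V] {φ : A →* MulAut V}

omit [Finite A] in
theorem KQ.of_range {n : ℕ} (h : KQ φ.range.subtype.ker n) : KQ φ.ker n :=
  h.comap φ.rangeRestrict

omit [Finite V] in
theorem Sys.kq {H : Subgroup A} [Fintype (A ⧸ H)] {W : Subgroup V} (h : Sys φ H W) {a : ℕ}
    (h1 : KQ (res φ H W h.inv).ker a) :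
    KQ φ.ker (a ^ H.index * (MulAction.toPermHom A (A ⧸ H)).ker.index) := by
  set K := (MulAction.toPermHom A (A ⧸ H)).ker
  have hK : ∀ g ∈ K, ∀ ω : A ⧸ H, g • ω = ω := fun g hg ω => Equiv.congr_fun hg ω
  choose f hf using exists_conjHom K hK
  refine KQ.ext inferInstance ?_ (KQ.of_index inferInstance le_rfl)
  have h2 := KQ.iInf fun ω => h1.comap (f ω)
  rw [Finset.prod_const, Finset.card_univ, ← Nat.card_eq_fintype_card] at h2
  exact h2.mono (fun g hg => h.mem_ker (hK g g.2) fun ω => hf ω g ▸ mem_iInf.1 hg ω) inferInstance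

omit [Finite A] in
theorem Irr.prime_pow (h : Irr φ) [Nontrivial V] : ∃ p d, p.Prime ∧ Nat.card V = p ^ d := by
  have h1 := Nat.minFac_prime (Finite.one_lt_card (α := V)).ne'
  have := Fact.mk h1
  obtain ⟨v, hv⟩ := exists_prime_orderOf_dvd_card' (G := V) _ (Nat.minFac_dvd _)
  rcases h (powMonoidHom (Nat.card V).minFac : V →* V).ker (fun a w hw => by
    rw [MonoidHom.mem_ker, powMonoidHom_apply] at hw ⊢
    rw [← map_pow, hw, map_one]) with e | e
  · have h2 : v ∈ (powMonoidHom (Nat.card V).minFac : V →* V).ker := by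
      rw [MonoidHom.mem_ker, powMonoidHom_apply, ← hv, pow_orderOf_eq_one]
    rw [e, mem_bot] at h2
    rw [h2, orderOf_one] at hv
    exact absurd hv h1.one_lt.ne
  · obtain ⟨d, hd⟩ := IsPGroup.iff_card.1 (fun g : V => ⟨1, by
      rw [pow_one]; exact e.ge (mem_top g)⟩ : IsPGroup (Nat.card V).minFac V)
    exact ⟨_, d, h1, hd⟩

variable [Group.IsSolvable A]

theorem Irr.cases2 [Nontrivial V] (hφ : Function.Injective φ) (h : Irr φ) :
    (∃ (H : Subgroup A) (_ : Fintype (A ⧸ H)) (W : Subgroup V), Sys φ H W ∧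
      2 ≤ Nat.card W ∧ 2 ≤ H.index) ∨
    ∃ (U : Subgroup A) (_ : U.Normal) (_ : IsCyclic U) (M : Type u) (_ : CommGroup M)
      (_ : Finite M) (ψ : A →* MulAut M) (e b q x j : ℕ), CR ψ ∧ Nat.card M = e ^ 2 ∧
      ND (Nat.card U) e b q (Nat.card V) ∧ 2 ^ (j * e) ≤ Nat.card V ∧
      Nat.card A = Nat.card U * e ^ 2 * x * j ∧ x ≤ ψ.ker.index ∧
      (e.Prime → x ≤ e * (e ^ 2 - 1)) ∧ j ∣ Nat.totient (Nat.card U) ∧
      (e = 1 → centralizer (U : Set A) = U ∧ U.index = j) := by
  rcases pd_or_sys hφ h with ⟨H, _, W, h1, h2, h3, -⟩ | ⟨U, F, h1, h2⟩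
  · refine Or.inl ⟨H, ‹_›, W, h3, (one_lt_card_iff_ne_bot _).2 h2, ?_⟩
    have a1 : H.index ≠ 1 := fun e => h1.1 (index_eq_one.1 e)
    have a2 : H.index ≠ 0 := index_ne_zero_of_finite
    omega
  obtain ⟨M, _, _, ψ, π, e, b, q, hs, h3, h4, h5, h6, -⟩ := h1.exists_nd
  have h7 := h1.card_le hs
  refine Or.inr ⟨U, h1.nU, h1.cyc, M, inferInstance, inferInstance, ψ, e, b, q, _, _, h3, h4, h6,
    ?_, h5 ▸ h7.2, Nat.le_of_dvd (Nat.pos_of_ne_zero index_ne_zero_of_finite) h7.1,
    fun he => h1.x_le_prime hs he h4, h1.index_dvd, fun he => ?_⟩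
  · rw [pow_mul]
    exact (Nat.pow_le_pow_left (h1.pow_le_q h2 (z := 1) ⟨fun a => by rw [mul_one, one_mul],
      fun W _ hW => (one_lt_card_iff_ne_bot _).2 hW⟩) _).trans (h1.q_pow_le h2 h5)
  · have := h1.cent_eq hs (by rw [h4, he]; rfl)
    exact ⟨this, by rw [this]⟩

theorem sys_cases {n t N : ℕ} (h1 : 2 ≤ n) (h2 : 2 ≤ t) (h : N = n ^ t) (hN : N ≤ 81) :
    n ≤ 9 ∧ t ≤ 6 := by
  constructor <;> by_contra a
  · have := (Nat.pow_le_pow_left (show 10 ≤ n by omega) 2).trans
      (Nat.pow_le_pow_right (by omega) h2)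
    omega
  · have := (Nat.pow_le_pow_right (show 0 < 2 by omega) (show 7 ≤ t by omega)).trans
      (Nat.pow_le_pow_left h1 _)
    omega

theorem le_of_pow_le {b k n N : ℕ} (hb : 0 < b) (h : b ^ n ≤ N) (hN : N < b ^ (k + 1)) : n ≤ k := by
  by_contra a
  have := Nat.pow_le_pow_right hb (show k + 1 ≤ n by omega)
  omega

theorem ND.eq_one {u e b q N : ℕ} (h : ND u e b q N) (h1 : 2 ∣ N) (h2 : N < 27) : e = 1 := by
  have := h.e_pos
  by_contra hne
  have h3 := le_of_pow_le (k := 2) (by decide) (h.three_pow (by omega)) h2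
  have h4 := (h.primes 2 Nat.prime_two (by omega)).trans h.udvd
  have := h.succ_le
  omega

theorem o8 (h : Irr φ) (hV : Nat.card V = 8) : φ.ker.index ≤ 21 := by
  have : Nontrivial V := Finite.one_lt_card_iff_nontrivial.1 (by omega)
  have := Group.isSolvable_of_surjective φ.rangeRestrict_surjective
  rw [← index_ker_range]
  rcases h.range.cases2 (subtype_injective _) with ⟨H, _, W, h1, h2, h3⟩ |
    ⟨U, _, _, M, _, _, ψ, e, b, q, x, j, h1, h2, h3, h4, -, -, -, -, h5⟩
  · have a1 := h1.card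
    obtain ⟨a2, a3⟩ := sys_cases h2 h3 a1 (by omega)
    have a4 : Nat.card W = 2 ∧ H.index = 3 := by
      rw [hV] at a1
      generalize Nat.card W = n at *
      generalize H.index = t at *
      interval_cases n <;> interval_cases t <;> omega
    refine h1.index_le.trans ?_
    rw [ker_eq_top_of_card _ a4.1.le, index_top, one_pow, one_mul]
    refine index_perm_le.trans ?_
    change H.index.factorial ≤ _
    rw [a4.2]; decide
  · rw [hV] at h3 h4
    obtain rfl := h3.eq_one (by decide) (by decide)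
    have a1 := le_of_pow_le (k := 3) (by decide) h4 (by decide)
    have a2 := h3.succ_le
    rw [index_ker_of_inj (subtype_injective _), ← U.card_mul_index, (h5 rfl).2]
    exact Nat.mul_le_mul (show _ ≤ 7 by omega) (show j ≤ 3 by omega)

theorem kb16 (hφ : Function.Injective φ) (h : Irr φ) (hV : Nat.card V = 16) : KQ φ.ker 27 := by
  have : Nontrivial V := Finite.one_lt_card_iff_nontrivial.1 (by omega)
  rcases h.cases2 hφ with ⟨H, _, W, h1, h2, h3⟩ |
    ⟨U, _, _, M, _, _, ψ, e, b, q, x, j, h1, h2, h3, h4, -, -, -, -, h5⟩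
  · have a1 := h1.card
    obtain ⟨a2, a3⟩ := sys_cases h2 h3 a1 (by omega)
    have a5 : _ ≤ H.index.factorial := index_perm_le (X := A) (Ω := A ⧸ H)
    have a4 : Nat.card W = 2 ∧ H.index = 4 ∨ Nat.card W = 4 ∧ H.index = 2 := by
      rw [hV] at a1
      generalize Nat.card W = n at *
      generalize H.index = t at *
      interval_cases n <;> interval_cases t <;> omega
    rcases a4 with ⟨a4, a6⟩ | ⟨a4, a6⟩
    · refine (h1.kq (a := 1) (KQ.of_index inferInstance (by
        rw [ker_eq_top_of_card _ a4.le, index_top]))).le ?_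
      rw [a6] at a5
      rw [one_pow, one_mul]
      exact a5.trans (by decide)
    · refine (h1.kq (KQ.of_hom _ (kb_prime_sq Nat.prime_two a4))).le ?_
      rw [a6] at a5 ⊢
      exact (Nat.mul_le_mul_left _ a5).trans (by decide)
  · rw [hV] at h3 h4
    obtain rfl := h3.eq_one (by decide) (by decide)
    have a1 := le_of_pow_le (k := 4) (by decide) h4 (by decide)
    have a2 := h3.udvd
    obtain ⟨a3, a4⟩ := h5 rfl
    have a5 : KB A 27 := by
      by_cases a6 : Nat.card U = 15
      · exact kb_fifteen a3 a6 (by omega)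
      refine KB.of_card ?_
      have a7 : Nat.card U ≤ 5 := by
        have := Nat.le_of_dvd (by decide) a2
        generalize Nat.card U = n at *
        interval_cases n <;> omega
      rw [← U.card_mul_index, a4]
      exact (Nat.mul_le_mul a7 (show j ≤ 4 by omega)).trans (by decide)
    exact ⟨inferInstance, a5.of_surj _ (QuotientGroup.mk'_surjective _)⟩

theorem o64 (hφ : Function.Injective φ) (h : Irr φ) (hV : Nat.card V = 64) :
    φ.ker.index ≤ 2187 := by
  have : Nontrivial V := Finite.one_lt_card_iff_nontrivial.1 (by omega)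
  rcases h.cases2 hφ with ⟨H, _, W, h1, h2, h3⟩ |
    ⟨U, _, _, M, _, _, ψ, e, b, q, x, j, h1, h2, h3, h4, h5, h6, h7, h8, h9⟩
  · have a1 := h1.card
    obtain ⟨a2, a3⟩ := sys_cases h2 h3 a1 (by omega)
    have a5 : _ ≤ H.index.factorial := index_perm_le (X := A) (Ω := A ⧸ H)
    have a7 := Nat.le_of_dvd (Nat.factorial_pos _) (index_dvd_fact (res φ H W h1.inv))
    have a4 : Nat.card W = 2 ∧ H.index = 6 ∨ Nat.card W = 4 ∧ H.index = 3 ∨
        Nat.card W = 8 ∧ H.index = 2 := by
      rw [hV] at a1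
      generalize Nat.card W = n at *
      generalize H.index = t at *
      interval_cases n <;> interval_cases t <;> omega
    refine h1.index_le.trans ?_
    rcases a4 with ⟨a4, a6⟩ | ⟨a4, a6⟩ | ⟨a4, a6⟩
    · rw [a4] at a7
      rw [a6] at a5 ⊢
      exact (Nat.mul_le_mul (Nat.pow_le_pow_left a7 _) a5).trans (by decide)
    · rw [a4] at a7
      rw [a6] at a5 ⊢
      exact (Nat.mul_le_mul (Nat.pow_le_pow_left a7 _) a5).trans (by decide)
    · rw [a6] at a5 ⊢
      exact (Nat.mul_le_mul (Nat.pow_le_pow_left (o8 (h1.irr h) a4) _) a5).trans (by decide)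
  · rw [hV] at h3 h4
    rw [index_ker_of_inj hφ]
    have a1 := le_of_pow_le (k := 6) (by decide) h4 (by decide)
    have a2 := h3.succ_le
    by_cases he : e = 1
    · rw [← U.card_mul_index, (h9 he).2]
      rw [he] at a1
      exact (Nat.mul_le_mul (show _ ≤ 63 by omega) (show j ≤ 6 by omega)).trans (by decide)
    have a3 := h3.e_pos
    have a4 := le_of_pow_le (k := 3) (by decide) (h3.three_pow (by omega)) (by decide)
    have a5 : e ≠ 2 := fun e2 => by
      have := (h3.primes 2 Nat.prime_two (by omega)).trans h3.udvd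
      omega
    obtain rfl : e = 3 := by omega
    have a6 : Nat.card U ≤ 3 := by
      by_contra a7
      have := (Nat.pow_le_pow_left (show 5 ≤ Nat.card U + 1 by omega) 3).trans
        (h3.of_odd (by decide)).2
      omega
    rw [h5]
    exact (Nat.mul_le_mul (Nat.mul_le_mul (Nat.mul_le_mul_right _ a6) (h7 Nat.prime_three))
      (show j ≤ 2 by omega)).trans (by decide)

theorem kb81 (hφ : Function.Injective φ) (h : Irr φ) (hV : Nat.card V = 81) :
    KQ φ.ker 6561 := by
  have : Nontrivial V := Finite.one_lt_card_iff_nontrivial.1 (by omega)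
  rcases h.cases2 hφ with ⟨H, _, W, h1, h2, h3⟩ |
    ⟨U, _, _, M, _, _, ψ, e, b, q, x, j, h1, h2, h3, h4, h5, h6, h7, h8, h9⟩
  · have a1 := h1.card
    obtain ⟨a2, a3⟩ := sys_cases h2 h3 a1 (by omega)
    have a5 : _ ≤ H.index.factorial := index_perm_le (X := A) (Ω := A ⧸ H)
    have a7 := Nat.le_of_dvd (Nat.factorial_pos _) (index_dvd_fact (res φ H W h1.inv))
    have a4 : Nat.card W = 3 ∧ H.index = 4 ∨ Nat.card W = 9 ∧ H.index = 2 := by
      rw [hV] at a1
      generalize Nat.card W = n at *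
      generalize H.index = t at *
      interval_cases n <;> interval_cases t <;> omega
    rcases a4 with ⟨a4, a6⟩ | ⟨a4, a6⟩
    · refine (h1.kq (KQ.of_index inferInstance a7)).le ?_
      rw [a6] at a5
      rw [a4, a6]
      exact (Nat.mul_le_mul_left _ a5).trans (by decide)
    · refine (h1.kq (KQ.of_hom _ (kb_prime_sq Nat.prime_three a4))).le ?_
      rw [a6] at a5 ⊢
      exact (Nat.mul_le_mul_left _ a5).trans (by decide)
  · rw [hV] at h3 h4
    refine KQ.of_index inferInstance ?_
    rw [index_ker_of_inj hφ]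
    have a1 := le_of_pow_le (k := 6) (by decide) h4 (by decide)
    have a2 := h3.succ_le
    by_cases he : e = 1
    · rw [← U.card_mul_index, (h9 he).2]
      rw [he] at a1
      exact (Nat.mul_le_mul (show _ ≤ 80 by omega) (show j ≤ 6 by omega)).trans (by decide)
    have a3 := h3.e_pos
    have a4 := le_of_pow_le (k := 4) (by decide) (h3.three_pow (by omega)) (by decide)
    have a5 : e ≠ 3 := fun e2 => by
      have := (h3.primes 3 Nat.prime_three (by omega)).trans h3.udvd
      omega
    have a6 := h3.sq (by omega)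
    rw [h5]
    rcases (by omega : e = 2 ∨ e = 4) with rfl | rfl
    · have a7 := Nat.pow_le_pow_iff_left two_ne_zero |>.1 a6
      exact (Nat.mul_le_mul (Nat.mul_le_mul (Nat.mul_le_mul_right _ (show _ ≤ 20 by omega))
        (h7 Nat.prime_two)) (show j ≤ 3 by omega)).trans (by decide)
    · have a7 : Nat.card U ≤ 2 := by
        by_contra a7
        have := (Nat.pow_le_pow_left (show 13 ≤ 4 * Nat.card U + 1 by omega) 4).trans a6
        omega
      have a8 := o16 M A ψ h1 (by rw [h2]; decide)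
      rw [h2] at a8
      exact (Nat.mul_le_mul (Nat.mul_le_mul (Nat.mul_le_mul_right _ a7) (h6.trans a8))
        (show j ≤ 1 by omega)).trans (by decide)

theorem prime_num {p : ℕ} (hp : 2 ≤ p) : p ^ 2 + p - 3 ≤ 3 ^ (p - 1) := by
  induction p, hp using Nat.le_induction with
  | base => decide
  | succ n hn ih =>
    obtain ⟨m, rfl⟩ := Nat.exists_eq_add_of_le' hn
    change _ ≤ 3 ^ (m + 1) at ih
    change _ ≤ 3 ^ (m + 1) * 3
    have : (m + 2 + 1) ^ 2 = m ^ 2 + 6 * m + 9 := by ring
    have : (m + 2) ^ 2 = m ^ 2 + 4 * m + 4 := by ring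
    omega

theorem kb_sq (V A : Type u) [CommGroup V] [Finite V] [Group A] [Finite A] [Group.IsSolvable A]
    (φ : A →* MulAut V) (h : CR φ) : (∀ W : Subgroup V, Inv φ W → IsSquare (Nat.card W)) →
      ∀ e, Nat.card V = e ^ 2 → KQ φ.ker (3 ^ (e - 1)) := by
  refine cr_induction (P := fun V A _ _ _ _ φ => (∀ W : Subgroup V, Inv φ W →
    IsSquare (Nat.card W)) → ∀ e, Nat.card V = e ^ 2 → KQ φ.ker (3 ^ (e - 1)))
    (fun V A _ _ _ _ φ h1 h2 e h3 =>
      (h1 (fun W hW => h2 W fun a => hW (φ.rangeRestrict a)) e h3).of_range)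
    (fun V A _ _ _ _ _ φ hφ hcr ih hsq e hV => ?_) V A φ h
  by_cases h2 : Nat.card V ≤ 2
  · refine KQ.of_index inferInstance ?_
    rw [ker_eq_top_of_card φ h2, index_top]
    exact Nat.one_le_pow _ _ (by decide)
  have : Nontrivial V := Finite.one_lt_card_iff_nontrivial.1 (by omega)
  rcases hcr.irr_or with hirr | ⟨W, W', h5, h6, h7, h8, h9, h10⟩
  · by_cases hp : e.Prime
    · exact (KQ.of_hom _ (kb_prime_sq hp hV)).le (prime_num hp.two_le)
    by_cases h14 : 14 ≤ e
    · refine KQ.of_index inferInstance ?_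
      have a1 := pw V A φ hcr this
      obtain ⟨t, rfl⟩ := Nat.exists_eq_add_of_le h14
      have a2 := grow (k := 6) (e0 := 14) (c := 3) (A := 7971615) (by norm_num) (by norm_num)
        (by norm_num) (by norm_num) t
      rw [hV, ← pow_mul, show 2 * 3 = 6 from rfl] at a1
      rw [show 14 + t - 1 = 13 + t by omega, pow_add]
      omega
    obtain ⟨p, d, a1, a2⟩ := hirr.prime_pow
    have a3 : ∀ r, r.Prime → r ∣ e → r = p := fun r hr a =>
      (Nat.prime_dvd_prime_iff_eq hr a1).1 (hr.dvd_of_dvd_pow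
        (a2 ▸ hV ▸ dvd_pow a two_ne_zero : r ∣ p ^ d))
    have a4 := a3 2 Nat.prime_two
    have a5 := a3 3 Nat.prime_three
    have a6 := a3 5 Nat.prime_five
    have a7 : e = 4 ∨ e = 8 ∨ e = 9 := by
      rw [hV] at h2
      clear a3 hV
      interval_cases e <;> first | omega | exact absurd (by norm_num) hp
    rcases a7 with rfl | rfl | rfl
    · exact kb16 hφ hirr hV
    · exact KQ.of_index inferInstance (o64 hφ hirr hV)
    · exact kb81 hφ hirr hV
  · have key : ∀ (W : Subgroup V) (hW : Inv φ W), Nat.card W < Nat.card V → ∀ a,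
        Nat.card W = a * a → KQ (resT φ W hW).ker (3 ^ (a - 1)) := fun W hW a1 a a2 =>
      ih W A _ a1 (hcr.resT hW) (fun K hK => by
        rw [← card_map_of_injective W.subtype_injective]
        refine hsq _ ?_
        rintro g _ ⟨w, hw, rfl⟩
        exact ⟨_, hK g w hw, rfl⟩) a (a2.trans (pow_two a).symm)
    obtain ⟨a, ha⟩ := hsq W h5
    obtain ⟨b, hb⟩ := hsq W' h6
    refine (((key W h5 (by nlinarith) a ha).inf (key W' h6 (by nlinarith) b hb)).mono
      (fun g hg => ker_of_isCompl h7 ((mem_ker_resT h5).1 hg.1) ((mem_ker_resT h6).1 hg.2))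
      inferInstance).le ?_
    have a1 : a * b = e := Nat.pow_left_injective two_ne_zero (by
      simp only
      rw [← hV, ← h10, ha, hb]; ring)
    rw [← pow_add, ← a1]
    refine Nat.pow_le_pow_right (by decide) ?_
    obtain ⟨a, rfl⟩ := Nat.exists_eq_add_of_le' (show 1 ≤ a by nlinarith)
    obtain ⟨b, rfl⟩ := Nat.exists_eq_add_of_le' (show 1 ≤ b by nlinarith)
    have : (a + 1) * (b + 1) = a * b + a + b + 1 := by ring
    omega

end CfsgLib.SLin
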