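import Cfsg.Agent.Lib.SLin.Ind

/-!
# Vectors with stabilisers of small derived length
-/

set_option autoImplicit false

namespace CfsgLib.SLin

open Subgroup Cfsg
open scoped commutatorElement

universe u

section
variable {G W : Type*} [Group G] [CommGroup W] {φ : G →* MulAut W}

theorem card_stb_conj {F : Subgroup G} [hF : F.Normal] (g : G) (v : W) :
    Nat.card (F ⊓ stb φ (φ g v) : Subgroup G) = Nat.card (F ⊓ stb φ v : Subgroup G) := by
  rw [← card_map_conj g (F ⊓ stb φ v)]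
  congr 2
  ext x
  rw [mem_map_conj_iff, mem_inf, mem_inf, mem_stb, mem_stb, act_mul, act_mul]
  refine and_congr ⟨fun h => by simpa using hF.conj_mem _ h g⁻¹,
    fun h => by simpa [mul_assoc] using hF.conj_mem _ h g⟩ ⟨fun h => ?_, fun h => ?_⟩
  · rw [h, act_inv_act]
  · conv_rhs => rw [← h, act_act_inv]

theorem prof_of_ds {k a : ℕ} (y : Fin k → W) (h1 : ∀ i j g, φ g (y i) = y j → i = j)
    (h2 : ds ⊤ a ≤ φ.ker) : Prof φ k a :=
  ⟨y, h1, fun _ _ _ => (ds_mono le_top a).trans h2⟩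

theorem act_ne_one (g : G) {v : W} (hv : v ≠ 1) : φ g v ≠ 1 :=
  fun e => hv ((φ g).injective (e.trans (map_one _).symm))

variable [Finite G] [Finite W] {U F : Subgroup G}

theorem PD.count (h : PD φ U F) {b Y : ℕ}
    (h1 : ∀ w, w ≠ 1 → Nat.card (F ⊓ stb φ w : Subgroup G) = b)
    (h2 : ∀ x ∈ F, x ∉ U → Nat.card (fx φ x) ≤ Y) :
    (Nat.card W - 1) * (b - 1) ≤ (Nat.card U * U.relIndex F - Nat.card U) * (Y - 1) := by
  classical
  have := Fintype.ofFinite G
  have := Fintype.ofFinite W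
  let s : Finset G := Finset.univ.filter fun x => x ∈ F ∧ x ∉ U
  have h3 := sum_fx (φ := φ) s
  have h4 : ∀ w ∈ Finset.univ.erase (1 : W), (s.filter fun x => φ x w = w).card = b - 1 := by
    intro w hw
    have hw1 := (Finset.mem_erase.1 hw).1
    have : (s.filter fun x => φ x w = w) =
        (Finset.univ.filter fun x => x ∈ F ⊓ stb φ w).erase 1 := by
      ext x
      simp only [s, Finset.mem_filter, Finset.mem_univ, true_and, Finset.mem_erase, mem_inf,
        mem_stb]
      exact ⟨fun ⟨⟨a, b⟩, c⟩ => ⟨fun e => b (e ▸ U.one_mem), a, c⟩,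
        fun ⟨a, b, c⟩ => ⟨⟨b, fun e => a (h.fpf x e w hw1 c)⟩, c⟩⟩
    rw [this, Finset.card_erase_of_mem (by simp [one_mem]), ← h1 w hw1, Nat.subtype_card]
    simp
  have h5 : s.card + Nat.card U = Nat.card F := by
    rw [Nat.subtype_card (Finset.univ.filter fun x => x ∈ U) (by simp),
      Nat.subtype_card (Finset.univ.filter fun x => x ∈ F) (by simp),
      ← Finset.card_filter_add_card_filter_not (s := Finset.univ.filter fun x => x ∈ F)
        (fun x => x ∈ U), add_comm, Finset.filter_filter, Finset.filter_filter]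
    congr 2
    ext x
    simp only [Finset.mem_filter, Finset.mem_univ, true_and]
    exact ⟨fun a => ⟨h.UF a, a⟩, fun a => a.2⟩
  rw [Finset.sum_congr rfl h4, Finset.sum_const, Finset.card_erase_of_mem (Finset.mem_univ _),
    Finset.card_univ, ← Nat.card_eq_fintype_card, smul_eq_mul] at h3
  rw [← h3, card_mul_relIndex h.UF, ← h5, Nat.add_sub_cancel, ← smul_eq_mul]
  refine Finset.sum_le_card_nsmul _ _ _ fun x hx => ?_
  have h6 := (Finset.mem_filter.1 hx).2
  exact Nat.sub_le_sub_right (h2 x h6.1 h6.2) 1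

theorem PD.intrans (h : PD φ U F) {e b q : ℕ} (h1 : U.relIndex F = e ^ 2)
    (h2 : ND (Nat.card U) e b q (Nat.card W)) {v : W}
    (hb : Nat.card (F ⊓ stb φ v : Subgroup G) = b) (h3 : 3 ≤ e) (h4 : e ≠ 4) :
    ∃ w, w ≠ 1 ∧ ∀ g, φ g v ≠ w := by
  by_contra hne
  push Not at hne
  have := h.nF
  have h5 : ∀ w, w ≠ 1 → Nat.card (F ⊓ stb φ w : Subgroup G) = b := by
    intro w hw
    obtain ⟨g, rfl⟩ := hne w hw
    rw [card_stb_conj, hb]
  have hu := h2.two_le (by omega)
  by_cases h6 : e = 3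
  · subst h6
    obtain ⟨h7, h8⟩ := h2.of_odd (by decide)
    have h9 := h.count (Y := Nat.findGreatest (fun z => z ^ 3 ≤ Nat.card W) (Nat.card W)) h5
      fun x hx hxU => Nat.le_findGreatest (card_le_card_group _)
        (h.cube_fx (by rw [h1]; decide) hx hxU)
    rw [h1, ← h7] at h9
    exact num_tr3 (by omega) h8 (Nat.findGreatest_spec (P := fun z => z ^ 3 ≤ Nat.card W)
      (Nat.zero_le _) (by simp)) h9
  · have h7 := h.count (Y := (Nat.card W).sqrt) h5
      fun x hx hxU => Nat.le_sqrt'.2 (h.sq_fx_F hx hxU)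
    have h8 : 4 ≤ Nat.card W := by
      have := h2.sq_lt
      nlinarith
    rw [h1] at h7
    rcases h2.cases' with ⟨rfl, h9⟩ | ⟨rfl, h9⟩
    · exact (num_sqrt h8 (by omega) h7).not_ge (num_tr1 hu (by omega) h9)
    · refine (num_sqrt h8 (by omega) h7).not_ge (num_tr2 hu (by omega) (fun e => ?_) h9)
      subst e
      exact Nat.le_of_dvd h2.pos ((show Nat.Coprime 2 3 by decide).mul_dvd_of_dvd_of_dvd
        (h2.primes 2 Nat.prime_two (by decide)) (h2.primes 3 Nat.prime_three (by decide)))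

theorem PD.regular (h : PD φ U F) (h1 : (5 * Nat.card G) ^ 4 < Nat.card W) : Prof φ 5 0 := by
  classical
  have := Fintype.ofFinite G
  have := Fintype.ofFinite W
  let Y := Nat.findGreatest (fun z => z ^ 4 ≤ Nat.card W ^ 3) (Nat.card W)
  have hY : Y ^ 4 ≤ Nat.card W ^ 3 :=
    Nat.findGreatest_spec (P := fun z => z ^ 4 ≤ Nat.card W ^ 3) (Nat.zero_le _) (by simp)
  have hW : 0 < Nat.card W := Nat.card_pos
  have hY1 : 1 ≤ Y := Nat.le_findGreatest hW (by rw [one_pow]; exact Nat.one_le_pow _ _ hW)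
  let S : Set W := {w | ∀ g, φ g w = w → g = 1}
  have h2 : Sᶜ.ncard ≤ Nat.card G * Y := by
    have h3 : Sᶜ ⊆ ((Finset.univ.erase (1 : G)).biUnion fun g =>
        Finset.univ.filter fun w => w ∈ fx φ g : Finset W) := by
      intro w hw
      simp only [S, Set.mem_compl_iff, Set.mem_setOf_eq, not_forall] at hw
      obtain ⟨g, h4, h5⟩ := hw
      exact Finset.mem_coe.2 (Finset.mem_biUnion.2 ⟨g, by simp [h5],
        Finset.mem_filter.2 ⟨Finset.mem_univ _, h4⟩⟩)
    refine (Set.ncard_le_ncard h3).trans ?_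
    rw [Set.ncard_coe_finset]
    refine (Finset.card_biUnion_le_card_mul _ _ Y fun g hg => ?_).trans
      (Nat.mul_le_mul_right _ ?_)
    · rw [← Nat.subtype_card (p := fun w => w ∈ fx φ g) _ (by simp)]
      exact Nat.le_findGreatest (card_le_card_group _) (h.fx_four (Finset.mem_erase.1 hg).1)
    · rw [Nat.card_eq_fintype_card]
      exact Finset.card_le_univ _
  have h3 := Set.ncard_add_ncard_compl S
  have h4 : 5 * Nat.card G * Y < Nat.card W := by
    refine lt_of_pow_lt_pow_left₀ 4 (Nat.zero_le _) ?_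
    calc (5 * Nat.card G * Y) ^ 4 = (5 * Nat.card G) ^ 4 * Y ^ 4 := by ring
      _ ≤ (5 * Nat.card G) ^ 4 * Nat.card W ^ 3 := Nat.mul_le_mul_left _ hY
      _ < Nat.card W * Nat.card W ^ 3 := Nat.mul_lt_mul_of_pos_right h1 (by positivity)
      _ = _ := by ring
  obtain ⟨y, h5, h6⟩ := exists_inequiv (φ := φ) 4 S (by
    nlinarith [Nat.mul_le_mul_left (Nat.card G) hY1])
  refine ⟨y, h6, fun i T hT g hg => ?_⟩
  rw [h5 i g (hT g hg)]
  exact one_mem _

end

section prim
variable {G W : Type u} [Group G] [CommGroup W] [Finite G] [Finite W] [Group.IsSolvable G]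
  {φ : G →* MulAut W} {U F : Subgroup G}

theorem PD.five_mul_le (h : PD φ U F) {M : Type u} [CommGroup M] [Finite M]
    {ψ : G →* MulAut M} {π : F →* M} (hs : SecD (hM := h.nF) F U ψ π) {e : ℕ}
    (h1 : Nat.card M = e ^ 2) (he : 2 ≤ e) : 5 * Nat.card G ≤ Nat.card U ^ 2 * e ^ 8 := by
  have := h.nF
  obtain ⟨h9, h10⟩ := h.card_le hs
  have h11 := Nat.le_of_dvd (Nat.pos_of_ne_zero index_ne_zero_of_finite) h9
  have h12 := (Nat.le_of_dvd (Nat.totient_pos.2 Nat.card_pos) h.index_dvd).trans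
    (Nat.totient_le _)
  have a1 := pw M G ψ (h.cr hs) (Finite.one_lt_card_iff_nontrivial.1 (by rw [h1]; nlinarith))
  rw [h10, ← hs.card]
  rw [h1] at a1 ⊢
  calc _ = Nat.card U * (centralizer (U : Set G)).index *
        (e ^ 2 * (5 * F.relIndex (centralizer (U : Set G)))) := by ring
    _ ≤ Nat.card U * Nat.card U * (e ^ 2 * (e ^ 2) ^ 3) :=
      Nat.mul_le_mul (Nat.mul_le_mul_left _ h12)
        (Nat.mul_le_mul_left _ ((Nat.mul_le_mul_left _ h11).trans a1))
    _ = _ := by ring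

theorem PD.prof [Nontrivial W] (h : PD φ U F) : Prof φ 5 9 ∨ Prof φ 3 8 ∨ Prof φ 2 5 := by
  obtain ⟨M, _, _, ψ, π, e, b, q, hs, h1, h2, h3, h4, v, hv, hb⟩ := h.exists_nd
  have key : ∀ k, e < 160 → Fb (e ^ 2) ≤ k → 1 ≤ k → ds ⊤ k ≤ F := fun k h5 h6 h7 =>
    h.ds_le_F hs h7 ((ds_anti _ (h2 ▸ h6)).trans (dl_le M G ψ h1 (by rw [h2]; nlinarith)))
  by_cases c1 : e ≤ 2 ∨ e = 4
  · refine Or.inr (Or.inr (prof_of_ds ![1, v] (fun i j g => ?_)
      (h.ds_top_le (key 3 (by omega) ?_ (by omega)))))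
    · fin_cases i <;> fin_cases j <;> simp [hv, hv.symm]
    · rcases c1 with c1 | rfl
      · interval_cases e <;> decide
      · decide
  by_cases c2 : e < 64
  · obtain ⟨w, hw, h5⟩ := h.intrans h3 h4 hb (by omega) (by omega)
    refine Or.inr (Or.inl (prof_of_ds ![1, v, w] (fun i j g => ?_)
      (h.ds_top_le (key 6 (by omega) ?_ (by omega)))))
    · have h6 : φ g w ≠ v := fun e => h5 g⁻¹ (by rw [← e, act_inv_act])
      fin_cases i <;> fin_cases j <;> simp [hv, hv.symm, hw, hw.symm, h5 g, h6]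
    · have : e ^ 2 < 4096 := by nlinarith
      unfold Fb; split_ifs <;> omega
  have h5 := h.five_mul_le hs h2 (by omega)
  have hu := h4.two_le (by omega)
  by_cases c3 : e < 160
  · have h6 := num_iv hu (by omega) (h4.sq (by omega))
    obtain ⟨y, h7, h8⟩ := exists_inequiv (φ := φ) 4 {1}ᶜ (by
      have := Set.ncard_add_ncard_compl ({1} : Set W)
      rw [Set.ncard_singleton] at this
      have : 0 < Nat.card G := Nat.card_pos
      omega)
    exact Or.inl ⟨y, h8, fun i T hT => h.ds_stab (key 8 c3 (by unfold Fb; split_ifs <;> omega)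
      (by omega)) (h7 i) hT⟩
  · have h6 := num_v hu (by omega) (h4.sq (by omega))
    exact Or.inl ((h.regular ((Nat.pow_le_pow_left h5 4).trans_lt h6)).mono le_rfl (by omega))

end prim

theorem prof_irr (V A : Type u) [CommGroup V] [Finite V] [Group A] [Finite A]
    [Group.IsSolvable A] (φ : A →* MulAut V) (h : CR φ) :
    Irr φ → Nontrivial V → Prof φ 5 9 ∨ Prof φ 3 8 ∨ Prof φ 2 5 := by
  refine cr_induction (P := fun V A _ _ _ _ φ => Irr φ → Nontrivial V →
    Prof φ 5 9 ∨ Prof φ 3 8 ∨ Prof φ 2 5)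
    (fun V A _ _ _ _ φ h1 h2 h3 => (h1 h2.range h3).imp Prof.of_range
      (Or.imp Prof.of_range Prof.of_range))
    (fun V A _ _ _ _ _ φ hφ hcr ih hirr hN => ?_) V A φ h
  rcases hirr.sys_or hφ with ⟨H, _, W, h5, h6, h7, h8, h9, h10⟩ | ⟨U, F, h5⟩
  · rcases ih W H _ h9 (h6.irr hirr).cr (h6.irr hirr) (Finite.one_lt_card_iff_nontrivial.1 h7)
      with a | a | a
    · exact Or.inl (h6.prof a (cprof5 h5))
    · exact Or.inl (h6.prof a (cprof3 h5))
    · exact Or.inr (Or.inl (h6.prof a (cprof2 g7 h5)))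
  · exact h5.prof

theorem prof_one_of_irr {a : ℕ} {P : ∀ (V A : Type u) [CommGroup V] [Group A], Prop}
    (hsub : ∀ (V A : Type u) [CommGroup V] [Group A] (φ : A →* MulAut V), P V A → P V φ.range)
    (hsub' : ∀ (V A : Type u) [CommGroup V] [Group A] (W : Subgroup V), P V A → P W A)
    (hirr : ∀ (V A : Type u) [CommGroup V] [Finite V] [Group A] [Finite A]
      [Group.IsSolvable A] (φ : A →* MulAut V), Irr φ → Nontrivial V → P V A → Prof φ 1 a)
    (V A : Type u) [CommGroup V] [Finite V] [Group A] [Finite A]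
    [Group.IsSolvable A] (φ : A →* MulAut V) (h : CR φ) : P V A → Prof φ 1 a := by
  refine cr_induction (P := fun V A _ _ _ _ φ => P V A → Prof φ 1 a)
    (fun V A _ _ _ _ φ h1 h2 => (h1 (hsub V A φ h2)).of_range)
    (fun V A _ _ _ _ _ φ hφ hcr ih hP => ?_) V A φ h
  rcases hcr.irr_or with h1 | ⟨W, W', h5, h6, h7, h8, h9, h10⟩
  · rcases subsingleton_or_nontrivial V with h2 | h2
    · refine prof_of_ds (fun _ => 1) (fun i j _ _ => Subsingleton.elim i j) ?_
      rw [ker_eq_top_of_card φ (by rw [Nat.card_of_subsingleton (1 : V)]; decide)]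
      exact le_top
    · exact hirr V A φ h1 h2 hP
  · obtain ⟨y, -, a1⟩ := ih W A _ (by nlinarith) (hcr.resT h5) (hsub' V A W hP)
    obtain ⟨y', -, a2⟩ := ih W' A _ (by nlinarith) (hcr.resT h6) (hsub' V A W' hP)
    refine ⟨fun _ => y 0 * y' 0, fun i j _ _ => Subsingleton.elim i j, fun i T hT g hg => ?_⟩
    have h11 := fun t ht => fix_of_isCompl h7 h5 h6 (y 0).2 (y' 0).2 (hT t ht)
    exact ker_of_isCompl h7
      ((mem_ker_resT h5).1 (a1 0 T (fun t ht => Subtype.ext (h11 t ht).1) hg))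
      ((mem_ker_resT h6).1 (a2 0 T (fun t ht => Subtype.ext (h11 t ht).2) hg))

theorem prof_nine (V A : Type u) [CommGroup V] [Finite V] [Group A] [Finite A]
    [Group.IsSolvable A] (φ : A →* MulAut V) (h : CR φ) : Prof φ 1 9 :=
  prof_one_of_irr (P := fun _ _ _ _ => True) (fun _ _ _ _ _ _ => trivial)
    (fun _ _ _ _ _ _ => trivial) (fun V A _ _ _ _ _ φ h1 h2 _ => by
      rcases prof_irr V A φ h1.cr h1 h2 with a | a | a
      all_goals exact a.mono (by omega) (by omega)) V A φ h trivial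

end CfsgLib.SLin
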