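import Cfsg.Agent.Lib.SLin.Main

/-!
# Odd order linear groups in odd characteristic: abelian stabilisers
-/

set_option autoImplicit false

namespace CfsgLib.SLin

open Subgroup Cfsg
open scoped commutatorElement

universe u

section small
variable {V A : Type u} [CommGroup V] [Finite V] [Group A] [Finite A] [Group.IsSolvable A]

theorem small_irr {φ : A →* MulAut V} (hirr : Irr φ) (hA : Odd (Nat.card A))
    (hV : Odd (Nat.card V)) (h1 : 1 < Nat.card V) (h2 : Nat.card V < 343)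
    (h3 : ∀ n m, 3 ≤ m → Odd m → n ^ m ≠ Nat.card V) :
    ∃ u, Odd u ∧ u ∣ Nat.card V - 1 ∧ Odd φ.ker.index ∧ φ.ker.index ∣ u * Nat.totient u := by
  have := Finite.one_lt_card_iff_nontrivial.1 h1
  have := Group.isSolvable_of_surjective φ.rangeRestrict_surjective
  have hA' : Odd (Nat.card φ.range) := Odd.of_dvd_nat hA (card_range_dvd φ)
  rw [index_ker]
  rcases hirr.range.sys_or φ.range.subtype_injective with
    ⟨H, _, W, -, h6, -, h8, -, -⟩ | ⟨U, F, h5⟩
  · have h9 : Odd H.index := Odd.of_dvd_nat hA' H.index_dvd_card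
    exact absurd h6.card.symm (h3 _ _ (by obtain ⟨k, hk⟩ := h9; omega) h9)
  · obtain ⟨M, _, _, ψ, π, e, b, q, hs, -, h7, h7', h8, -⟩ := h5.exists_nd
    have hu : Odd (Nat.card U) := Odd.of_dvd_nat hA' (card_subgroup_dvd_card U)
    obtain ⟨h9, h10⟩ := h5.card_le hs
    have he2 : Odd (e ^ 2) := Odd.of_dvd_nat hA' (by rw [h10, h7']; exact ⟨Nat.card U *
      F.relIndex (centralizer (U : Set φ.range)) * (centralizer (U : Set φ.range)).index, by ring⟩)
    have he : Odd e := (Nat.odd_pow_iff two_ne_zero).1 he2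
    have h11 : e = 1 := by
      by_contra hne
      have h12 : 3 ≤ e := by obtain ⟨k, hk⟩ := he; omega
      have h13 := h8.two_le (by omega)
      have h14 : 7 ≤ 2 * Nat.card U + 1 := by obtain ⟨k, hk⟩ := hu; omega
      have h15 := (Nat.pow_le_pow_left h14 e).trans (h8.odd he hu hV)
      have h16 := Nat.pow_le_pow_right (show 0 < 7 by omega) h12
      omega
    refine ⟨_, hu, h8.udvd, hA', ?_⟩
    have h12 := h5.cent_eq hs (by rw [h7, h11]; rfl)
    rw [← U.card_mul_index]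
    refine Nat.mul_dvd_mul_left _ ?_
    conv_lhs => rw [← h12]
    exact h5.index_dvd

theorem small_sq {φ : A →* MulAut V} (hirr : Irr φ) (hA : Odd (Nat.card A)) {e : ℕ}
    (he : e = 3 ∨ e = 5 ∨ e = 7 ∨ e = 9 ∨ e = 11) (hV : Nat.card V = e ^ 2) :
    φ.ker.index ≤ if e = 3 then 1 else if e ≤ 7 then 3 else if e = 9 then 5 else 120 := by
  have key : ∀ N, N < 243 → N ≠ 1 → N ≠ 27 → N ≠ 125 → Odd N → ∀ n m, 3 ≤ m → Odd m →
      n ^ m ≠ N := by
    rintro N h1 h2 h3 h4 h5 n m h6 h7 rfl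
    have h8 : Odd n := (Nat.odd_pow_iff (by omega)).1 h5
    have h9 : n ≠ 1 := by rintro rfl; simp at h2
    have h10 : 3 ≤ n := by obtain ⟨k, hk⟩ := h8; omega
    have h11 : m < 5 := by
      by_contra h12
      have := (Nat.pow_le_pow_right (show 0 < 3 by omega) (not_lt.1 h12)).trans
        (Nat.pow_le_pow_left h10 m)
      omega
    obtain rfl : m = 3 := by obtain ⟨k, hk⟩ := h7; omega
    have h12 : n < 7 := by
      by_contra h13
      have := Nat.pow_le_pow_left (not_lt.1 h13) 3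
      omega
    obtain ⟨k, hk⟩ := h8
    interval_cases n <;> omega
  have h1 : Odd (Nat.card V) := by rcases he with rfl | rfl | rfl | rfl | rfl <;> rw [hV] <;> decide
  obtain ⟨u, h2, h3, h4, h5⟩ := small_irr hirr hA h1 (by rw [hV]; nlinarith [show 3 ≤ e by omega])
    (by rw [hV]; nlinarith [show e ≤ 11 by omega]) (key _
      (by rw [hV]; nlinarith [show e ≤ 11 by omega])
      (by rcases he with rfl | rfl | rfl | rfl | rfl <;> rw [hV] <;> decide)
      (by rcases he with rfl | rfl | rfl | rfl | rfl <;> rw [hV] <;> decide)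
      (by rcases he with rfl | rfl | rfl | rfl | rfl <;> rw [hV] <;> decide) h1)
  rw [hV] at h3
  generalize φ.ker.index = k at h4 h5
  have key2 : ∀ {t c : ℕ}, u ∣ 2 ^ t * c → u ∣ c := fun h =>
    (Nat.Coprime.pow_right _ (Nat.coprime_two_right.2 h2)).dvd_of_dvd_mul_left h
  have key3 : ∀ {t c : ℕ}, 0 < c → k ∣ 2 ^ t * c → k ≤ c := fun h0 h => Nat.le_of_dvd h0
    ((Nat.Coprime.pow_right _ (Nat.coprime_two_right.2 h4)).dvd_of_dvd_mul_left h)
  rcases he with rfl | rfl | rfl | rfl | rfl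
  · obtain rfl := Nat.dvd_one.1 (key2 (t := 3) (c := 1) h3)
    exact key3 (t := 0) one_pos h5
  · rcases (Nat.dvd_prime Nat.prime_three).1 (key2 (t := 3) (c := 3) h3) with rfl | rfl
    · exact (key3 (t := 0) one_pos h5).trans (by decide)
    · exact key3 (t := 1) (by decide) h5
  · rcases (Nat.dvd_prime Nat.prime_three).1 (key2 (t := 4) (c := 3) h3) with rfl | rfl
    · exact (key3 (t := 0) one_pos h5).trans (by decide)
    · exact key3 (t := 1) (by decide) h5
  · rcases (Nat.dvd_prime Nat.prime_five).1 (key2 (t := 4) (c := 5) h3) with rfl | rfl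
    · exact (key3 (t := 0) one_pos h5).trans (by decide)
    · exact key3 (t := 2) (by decide) h5
  · have h6 := key2 (t := 3) (c := 15) h3
    have h7 := Nat.le_of_dvd (by decide) h6
    have h8 : 0 < u := h2.pos
    refine (Nat.le_of_dvd (Nat.mul_pos h8 (Nat.totient_pos.2 h8)) h5).trans ?_
    interval_cases u <;> first | decide | omega

theorem small_cr {φ : A →* MulAut V} (hcr : CR φ) (hA : Odd (Nat.card A))
    (hc : ∀ K, Inv φ K → IsCyclic K → K = ⊥) {e : ℕ}
    (he : e = 3 ∨ e = 5 ∨ e = 7 ∨ e = 9 ∨ e = 11) (hV : Nat.card V = e ^ 2) :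
    φ.ker.index ≤ if e = 3 then 1 else if e ≤ 7 then 3 else if e = 9 then 5 else 120 := by
  have hp : ∀ K, Inv φ K → ¬ (Nat.card K).Prime := fun K hK h => by
    have := Fact.mk h
    rw [hc K hK (isCyclic_of_prime_card rfl), card_bot] at h
    exact Nat.not_prime_one h
  rcases hcr.irr_or with hirr | ⟨W, W', h5, h6, h7, h8, h9, h10⟩
  · exact small_sq hirr hA he hV
  have key : ∀ r k, r.Prime → Nat.card V = r ^ k → ∃ i j, 2 ≤ i ∧ 2 ≤ j ∧ i + j = k ∧
      Nat.card W = r ^ i ∧ Nat.card W' = r ^ j := by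
    intro r k hr hk
    obtain ⟨i, -, hi⟩ := (Nat.dvd_prime_pow hr).1 (hk ▸ card_subgroup_dvd_card W)
    obtain ⟨j, -, hj⟩ := (Nat.dvd_prime_pow hr).1 (hk ▸ card_subgroup_dvd_card W')
    have a1 : ∀ K, Inv φ K → 2 ≤ Nat.card K → ∀ i, Nat.card K = r ^ i → 2 ≤ i := by
      intro K hK h2 i hi
      by_contra h3
      have h4 : i = 0 ∨ i = 1 := by omega
      rcases h4 with rfl | rfl
      · rw [pow_zero] at hi; omega
      · exact hp K hK (by rwa [hi, pow_one])
    refine ⟨i, j, a1 W h5 h8 i hi, a1 W' h6 h9 j hj, ?_, hi, hj⟩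
    rw [hi, hj, ← pow_add, hk] at h10
    exact Nat.pow_right_injective hr.two_le h10
  have h11 : e = 9 := by
    by_contra hne
    have hr : e.Prime := by rcases he with rfl | rfl | rfl | rfl | rfl <;> first | decide | omega
    obtain ⟨i, j, a, b, c, -⟩ := key e 2 hr hV
    omega
  subst h11
  obtain ⟨i, j, a, b, c, d1, d2⟩ := key 3 4 Nat.prime_three hV
  obtain rfl : i = 2 := by omega
  obtain rfl : j = 2 := by omega
  have key2 : ∀ K (hK : Inv φ K), Nat.card K = 3 ^ 2 → (resT φ K hK).ker.index ≤ 1 := by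
    intro K hK h1
    refine small_sq (e := 3) (fun L hL => ?_) hA (Or.inl rfl) h1
    obtain ⟨i, hi, h2⟩ := (Nat.dvd_prime_pow Nat.prime_three).1 (h1 ▸ card_subgroup_dvd_card L)
    interval_cases i
    · exact Or.inl (card_eq_one.1 h2)
    · refine absurd ?_ (hp (L.map K.subtype) (by
        rintro a _ ⟨w, hw, rfl⟩
        exact ⟨_, hL a w hw, rfl⟩))
      rw [card_map_subtype, h2]; decide
    · exact Or.inr ((card_eq_iff_eq_top L).1 (h2.trans h1.symm))
  have := index_le_of_isCompl h5 h6 h7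
  have := Nat.mul_le_mul (key2 W h5 d1) (key2 W' h6 d2)
  exact le_trans (by omega) (show 1 ≤ _ by decide)

end small

section prim
variable {G W : Type*} [Group G] [CommGroup W] [Finite G] [Finite W] {φ : G →* MulAut W}
  {U F : Subgroup G}

theorem PD.exists_reg [Nontrivial W] (h : PD φ U F) (hG : Odd (Nat.card G))
    (h1 : (U.relIndex (centralizer (U : Set G)) + 1) ^ 3 ≤ 8 * Nat.card W) :
    ∃ v, v ≠ 1 ∧ ∀ g ∈ centralizer (U : Set G), φ g v = v → g = 1 := by
  classical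
  by_contra hne
  push Not at hne
  have := Fintype.ofFinite G
  have := Fintype.ofFinite W
  have := Fintype.ofFinite U
  set C := centralizer (U : Set G)
  have hUC : U ≤ C := h.UF.trans h.FC
  have hodd : Odd (U.relIndex F) := Odd.of_dvd_nat hG
    ((Dvd.intro_left _ (card_mul_relIndex h.UF)).trans (card_subgroup_dvd_card F))
  let s : Finset G := Finset.univ.filter fun x => x ∈ C ∧ x ∉ U
  have hs : ∀ x, x ∈ s ↔ x ∈ C ∧ x ∉ U := fun x => by simp [s]
  have h2 : (Nat.card W - 1) * 2 ≤ ∑ x ∈ s, (Nat.card (fx φ x) - 1) := by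
    rw [sum_fx, Nat.card_eq_fintype_card, ← Finset.card_univ,
      ← Finset.card_erase_of_mem (Finset.mem_univ (1 : W)), ← smul_eq_mul]
    refine Finset.card_nsmul_le_sum _ _ _ fun w hw => ?_
    have hw1 := (Finset.mem_erase.1 hw).1
    obtain ⟨g, h3, h4, h5⟩ := hne w hw1
    have h6 : g ∉ U := fun e => h5 (h.fpf g e w hw1 h4)
    refine Finset.one_lt_card.2 ⟨g, Finset.mem_filter.2 ⟨(hs g).2 ⟨h3, h6⟩, h4⟩, g⁻¹,
      Finset.mem_filter.2 ⟨(hs _).2 ⟨C.inv_mem h3, fun e => h6 (U.inv_mem_iff.1 e)⟩,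
        (stb φ w).inv_mem h4⟩, fun e => h5 (eq_one_of_pow_four hG pow_card_eq_one' ?_)⟩
    rw [show 4 = 2 + 2 from rfl, pow_add, pow_two]
    nth_rewrite 2 4 [e]
    simp
  have h5 : s.card + Nat.card U = Nat.card C := by
    rw [Nat.subtype_card (Finset.univ.filter fun x => x ∈ U) (by simp),
      Nat.subtype_card (Finset.univ.filter fun x => x ∈ C) (by simp),
      ← Finset.card_filter_add_card_filter_not (s := Finset.univ.filter fun x => x ∈ C)
        (fun x => x ∈ U), add_comm, Finset.filter_filter, Finset.filter_filter]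
    congr 2
    ext x
    simp only [Finset.mem_filter, Finset.mem_univ, true_and]
    exact ⟨fun a => ⟨hUC a, a⟩, fun a => a.2⟩
  obtain ⟨X, hX0, hX⟩ : ∃ X : ℝ, 0 ≤ X ∧ X ^ 3 = Nat.card W :=
    ⟨(Nat.card W : ℝ) ^ ((3 : ℕ)⁻¹ : ℝ), by positivity,
      Real.rpow_inv_natCast_pow (by positivity) (by decide)⟩
  have hW : (1 : ℝ) < Nat.card W := by exact_mod_cast Finite.one_lt_card
  have hX1 : 1 < X := by
    by_contra h3
    have := pow_le_pow_left₀ hX0 (not_lt.1 h3) 3
    linarith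
  have h3 : ∀ x ∈ s, ∑ u : U, ((Nat.card (fx φ (x * u)) : ℝ) - 1) ≤ X ^ 2 + X - 2 := by
    intro x hx
    obtain ⟨a, b⟩ := (hs x).1 hx
    refine greedy _ hX1.le (fun u => by exact_mod_cast Nat.card_pos) (fun u => ?_) ?_
    · refine le_of_pow_le_pow_left₀ (n := 3) (by decide) (by positivity) ?_
      rw [← pow_mul, mul_comm 2 3, pow_mul, hX]
      exact_mod_cast h.cube_fx' hodd (C.mul_mem a (hUC u.2))
        (fun e => b ((U.mul_mem_cancel_right u.2).1 e))
    · rw [hX]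
      exact_mod_cast h.prod_fx_le a (u := fun u : U => u) (fun u => u.2) Subtype.val_injective
  have h4 : ∀ u : U, ∑ x ∈ s, ((Nat.card (fx φ (x * u)) : ℝ) - 1) =
      ∑ x ∈ s, ((Nat.card (fx φ x) : ℝ) - 1) := by
    intro u
    refine Finset.sum_bijective _ (Group.mulRight_bijective (u : G)) (fun x => ?_) fun _ _ => rfl
    rw [hs, hs, C.mul_mem_cancel_right (hUC u.2), U.mul_mem_cancel_right u.2]
  have h6 := Finset.sum_le_card_nsmul _ _ _ h3
  rw [Finset.sum_comm, Finset.sum_congr rfl fun u _ => h4 u, Finset.sum_const, Finset.card_univ,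
    ← Nat.card_eq_fintype_card, nsmul_eq_mul, nsmul_eq_mul] at h6
  have h7 : ((Nat.card W : ℝ) - 1) * 2 ≤ ∑ x ∈ s, ((Nat.card (fx φ x) : ℝ) - 1) := by
    have h8 : (((Nat.card W - 1) * 2 : ℕ) : ℝ) ≤ ((∑ x ∈ s, (Nat.card (fx φ x) - 1) : ℕ) : ℝ) := by
      exact_mod_cast h2
    push_cast [Nat.cast_sub (show 1 ≤ Nat.card W from Nat.card_pos)] at h8
    rwa [Finset.sum_congr rfl fun x _ => Nat.cast_pred (Nat.card_pos (α := fx φ x))] at h8
  set a := U.relIndex C
  have h8 : (s.card : ℝ) = Nat.card U * (a - 1) := by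
    rw [← card_mul_relIndex hUC] at h5
    have : (s.card : ℝ) + Nat.card U = Nat.card U * a := by exact_mod_cast h5
    linarith
  have h9 : (a : ℝ) + 1 ≤ 2 * X := by
    refine le_of_pow_le_pow_left₀ (n := 3) (by decide) (by positivity) ?_
    rw [mul_pow, hX]
    exact_mod_cast h1
  have hu : (0 : ℝ) < Nat.card U := by exact_mod_cast Nat.card_pos
  rw [h8, mul_assoc] at h6
  have h10 := h7.trans (le_of_mul_le_mul_left h6 hu)
  rw [← hX] at h10
  have h11 : 0 ≤ X ^ 2 + X - 2 := by nlinarith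
  have h12 : ((a : ℝ) - 1) * (X ^ 2 + X - 2) ≤ (2 * X - 2) * (X ^ 2 + X - 2) :=
    mul_le_mul_of_nonneg_right (by linarith) h11
  nlinarith

end prim

section prim2
variable {G W : Type u} [Group G] [CommGroup W] [Finite G] [Finite W] [Group.IsSolvable G]
  {φ : G →* MulAut W} {U F : Subgroup G}

theorem PD.exists_reg' [Nontrivial W] (h : PD φ U F) (hG : Odd (Nat.card G))
    (hW : Odd (Nat.card W)) :
    ∃ v, v ≠ 1 ∧ ∀ g ∈ centralizer (U : Set G), φ g v = v → g = 1 := by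
  obtain ⟨M, _, _, ψ, π, e, b, q, hs, h1, h2, h3, h4, v, hv, -⟩ := h.exists_nd
  have he2 : Odd (e ^ 2) := h3 ▸ Odd.of_dvd_nat hG
    ((Dvd.intro_left _ (card_mul_relIndex h.UF)).trans (card_subgroup_dvd_card F))
  have he : Odd e := (Nat.odd_pow_iff two_ne_zero).1 he2
  by_cases c1 : e = 1
  · rw [h.cent_eq hs (by rw [h2, c1]; rfl)]
    exact ⟨v, hv, fun g hg => h.fpf g hg v hv⟩
  have c2 : 3 ≤ e := by obtain ⟨k, hk⟩ := he; omega
  have hu : Odd (Nat.card U) := Odd.of_dvd_nat hG (card_subgroup_dvd_card U)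
  have h5 := h4.odd he hu hW
  refine h.exists_reg hG (le_trans ?_ (Nat.mul_le_mul_left 8 h5))
  have h6 := Nat.le_of_dvd (Nat.pos_of_ne_zero index_ne_zero_of_finite) (h.card_le hs).1
  rw [← relIndex_mul_relIndex U F _ h.UF h.FC, h3]
  have h7 : ∀ r, r.Prime → r ∣ e → 2 * r + 1 ≤ 2 * Nat.card U + 1 := fun r hr hd => by
    have := Nat.le_of_dvd h4.pos (h4.primes r hr hd)
    omega
  have h8 : 7 ≤ 2 * Nat.card U + 1 := by
    have := h4.two_le (by omega)
    obtain ⟨k, hk⟩ := hu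
    omega
  by_cases c3 : 13 ≤ e
  · refine num_odd c3 he h8 h7 (fun e15 => ?_) ?_
    · subst e15
      have := Nat.le_of_dvd h4.pos ((show Nat.Coprime 3 5 by decide).mul_dvd_of_dvd_of_dvd
        (h4.primes 3 Nat.prime_three (by decide)) (h4.primes 5 Nat.prime_five (by decide)))
      omega
    · have a1 := pwOdd M G ψ h1 (Finite.one_lt_card_iff_nontrivial.1 (by rw [h2]; nlinarith))
        (h2 ▸ he2) hG
      rw [h2] at a1
      calc _ = e ^ 2 * (8 * F.relIndex (centralizer (U : Set G))) := by ring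
        _ ≤ e ^ 2 * (e ^ 2) ^ 2 := Nat.mul_le_mul_left _ ((Nat.mul_le_mul_left _ h6).trans a1)
        _ = _ := by ring
  · have c4 : e = 3 ∨ e = 5 ∨ e = 7 ∨ e = 9 ∨ e = 11 := by obtain ⟨k, hk⟩ := he; omega
    have a1 := h6.trans (small_cr h1 hG (fun K hK hc => h.eq_bot_of_cyclic hs hK hc) c4 h2)
    have key : ∀ k q0, F.relIndex (centralizer (U : Set G)) ≤ k → q0 ≤ 2 * Nat.card U + 1 →
        (e ^ 2 * k + 1) ^ 3 ≤ 8 * q0 ^ e →
        (e ^ 2 * F.relIndex (centralizer (U : Set G)) + 1) ^ 3 ≤ 8 * (2 * Nat.card U + 1) ^ e :=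
      fun k q0 a b c => (Nat.pow_le_pow_left (Nat.succ_le_succ (Nat.mul_le_mul_left _ a)) 3).trans
        (c.trans (Nat.mul_le_mul_left _ (Nat.pow_le_pow_left b e)))
    rcases c4 with rfl | rfl | rfl | rfl | rfl
    · exact key 1 7 a1 h8 (by norm_num)
    · exact key 3 11 a1 (h7 5 Nat.prime_five dvd_rfl) (by norm_num)
    · exact key 3 7 a1 h8 (by norm_num)
    · exact key 5 7 a1 h8 (by norm_num)
    · exact key 120 23 a1 (h7 11 (by decide) dvd_rfl) (by norm_num)

theorem PD.profOdd [Nontrivial W] (h : PD φ U F) (hG : Odd (Nat.card G))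
    (hW : Odd (Nat.card W)) : Prof φ 2 1 := by
  obtain ⟨v, hv, h1⟩ := h.exists_reg' hG hW
  have h2 : ∀ g, φ g v ≠ v⁻¹ := by
    intro g e
    have h3 : g * g ∈ stb φ v := by rw [mem_stb, act_mul, e, map_inv, e, inv_inv]
    have h4 : g ∈ stb φ v := by
      obtain ⟨k, hk⟩ := hG
      have h5 : g = ((g * g) ^ k)⁻¹ := by
        rw [eq_inv_iff_mul_eq_one, ← pow_two, ← pow_mul, ← pow_succ', ← hk, pow_card_eq_one']
      rw [h5]
      exact (stb φ v).inv_mem ((stb φ v).pow_mem h3 k)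
    rw [mem_stb.1 h4] at e
    refine hv (eq_one_of_pow_four hW pow_card_eq_one' ?_)
    rw [show 4 = 2 + 2 from rfl, pow_add, pow_two]
    nth_rewrite 2 4 [e]
    simp
  refine ⟨![v, v⁻¹], fun i j g => ?_, fun i T hT g hg => ?_⟩
  · have h3 : (φ g v)⁻¹ ≠ v := fun e => h2 g (inv_eq_iff_eq_inv.1 e)
    fin_cases i <;> fin_cases j <;> simp [h2 g, h3]
  · have h3 := hT g (ds_le _ _ hg)
    rw [h1 g (h.ds_one (ds_mono le_top 1 hg)) (by
      fin_cases i
      · exact h3
      · simpa using h3)]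
    exact one_mem _

end prim2

theorem profOdd_irr (V A : Type u) [CommGroup V] [Finite V] [Group A] [Finite A]
    [Group.IsSolvable A] (φ : A →* MulAut V) (h : CR φ) :
    Irr φ → Nontrivial V → Odd (Nat.card V) → Odd (Nat.card A) → Prof φ 2 1 := by
  refine cr_induction (P := fun V A _ _ _ _ φ => Irr φ → Nontrivial V → Odd (Nat.card V) →
    Odd (Nat.card A) → Prof φ 2 1)
    (fun V A _ _ _ _ φ h1 h2 h3 h4 h5 =>
      (h1 h2.range h3 h4 (Odd.of_dvd_nat h5 (card_range_dvd φ))).of_range)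
    (fun V A _ _ _ _ _ φ hφ hcr ih hirr hN hV hA => ?_) V A φ h
  rcases hirr.sys_or hφ with ⟨H, _, W, h5, h6, h7, h8, h9, h10⟩ | ⟨U, F, h5⟩
  · exact h6.prof (ih W H _ h9 (h6.irr hirr).cr (h6.irr hirr)
      (Finite.one_lt_card_iff_nontrivial.1 h7) (Odd.of_dvd_nat hV (card_subgroup_dvd_card W))
      (Odd.of_dvd_nat hA (card_subgroup_dvd_card H))) (cprofOdd hA h5)
  · exact h5.profOdd hA hV

theorem prof_odd (V A : Type u) [CommGroup V] [Finite V] [Group A] [Finite A]
    [Group.IsSolvable A] (φ : A →* MulAut V) (h : CR φ) (hV : Odd (Nat.card V))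
    (hA : Odd (Nat.card A)) : Prof φ 1 1 :=
  prof_one_of_irr (P := fun V A _ _ => Odd (Nat.card V) ∧ Odd (Nat.card A))
    (fun _ _ _ _ φ h => ⟨h.1, Odd.of_dvd_nat h.2 (card_range_dvd φ)⟩)
    (fun _ _ _ _ W h => ⟨Odd.of_dvd_nat h.1 (card_subgroup_dvd_card W), h.2⟩)
    (fun V A _ _ _ _ _ φ h1 h2 h3 =>
      (profOdd_irr V A φ h1.cr h1 h2 h3.1 h3.2).mono (by omega) le_rfl) V A φ h ⟨hV, hA⟩

end CfsgLib.SLin
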