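import Cfsg.Agent.Lib.SLin.Small

/-!
# Weight spaces, orbit bounds for fixed spaces, fixed point ratios
-/

set_option autoImplicit false

namespace CfsgLib.SLin

open Subgroup Cfsg Module
open scoped commutatorElement

universe u v

section lin
variable {K : Type v} [Field K] {G : Type u} [Group G] {V : Type*} [AddCommGroup V] [Module K V]

theorem rep_inv' (ρ : Representation K G V) (g : G) (v : V) : ρ g⁻¹ (ρ g v) = v := by
  rw [← Module.End.mul_apply, ← map_mul, inv_mul_cancel, map_one]; rfl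

theorem rep_inj (ρ : Representation K G V) (g : G) : Function.Injective (ρ g) :=
  Function.LeftInverse.injective (rep_inv' ρ g)

variable [FiniteDimensional K V]

theorem finrank_iSup_le_sum {ι : Type*} [Fintype ι] (W : ι → Submodule K V) :
    finrank K (⨆ i, W i : Submodule K V) ≤ ∑ i, finrank K (W i) := by
  classical
  have key : ∀ s : Finset ι, finrank K (⨆ i ∈ s, W i : Submodule K V) ≤ ∑ i ∈ s, finrank K (W i) := by
    intro s
    induction s using Finset.induction_on with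
    | empty => simp
    | insert i s hi ih =>
      rw [Finset.iSup_insert, Finset.sum_insert hi]
      exact (Submodule.finrank_add_le_finrank_add_finrank _ _).trans (Nat.add_le_add_left ih _)
  have := key Finset.univ
  rwa [show (⨆ i ∈ Finset.univ, W i : Submodule K V) = ⨆ i, W i by simp] at this

/-- weight space decomposition with respect to a normal subgroup with commutative image -/
theorem exists_wt' [IsAlgClosed K] (ρ : Representation K G V) (A : Subgroup G) [A.Normal]
    (hc : ∀ a b : A, Commute (ρ a) (ρ b)) (hs : ∀ a : A, ∃ n : ℕ, (n : K) ≠ 0 ∧ ρ a ^ n = 1) :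
    ∃ (Ω : Type (max u v)) (_ : Fintype Ω) (_ : MulAction G Ω) (W : Ω → Submodule K V)
      (χ : Ω → A → K), Function.Injective χ ∧ (∀ ω, W ω ≠ ⊥) ∧ ⨆ ω, W ω = ⊤ ∧
      ∑ ω, finrank K (W ω) = finrank K V ∧ (∀ g ω, ∀ v ∈ W ω, ρ g v ∈ W (g • ω)) ∧
      (∀ ω v, v ∈ W ω ↔ ∀ a : A, ρ a v = χ ω a • v) ∧
      ∀ (χ' : A → K) (v : V), v ≠ 0 → (∀ a : A, ρ a v = χ' a • v) → ∃ ω, χ ω = χ' := by
  classical
  have hss : ∀ a : A, End.maxGenEigenspace (ρ a) = End.eigenspace (ρ a) := fun a => by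
    funext μ
    obtain ⟨n, h1, h2⟩ := hs a
    refine (End.isSemisimple_of_squarefree_aeval_eq_zero (Polynomial.X_pow_sub_one_separable_iff.2
      h1).squarefree ?_).isFinitelySemisimple.maxGenEigenspace_eq_eigenspace μ
    rw [map_sub, map_pow, Polynomial.aeval_X, map_one, h2, sub_self]
  let P : (A → K) → Submodule K V := fun χ => ⨅ a : A, End.maxGenEigenspace (ρ a) (χ a)
  have hP : ∀ χ v, v ∈ P χ ↔ ∀ a : A, ρ a v = χ a • v := fun χ v => by
    simp only [P, Submodule.mem_iInf]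
    exact forall_congr' fun a => by rw [hss, End.mem_eigenspace_iff]
  have h1 : iSupIndep P := End.independent_iInf_maxGenEigenspace_of_forall_mapsTo _
    fun a b => End.mapsTo_maxGenEigenspace_of_comm (hc b a)
  have h2 : ⨆ χ, P χ = ⊤ :=
    End.iSup_iInf_maxGenEigenspace_eq_top_of_iSup_maxGenEigenspace_eq_top_of_commute _
      (fun a b _ => hc a b) fun a => End.iSup_maxGenEigenspace_eq_top _
  have h3 : ∀ g χ, ∀ v ∈ P χ, ρ g v ∈ P fun a => χ (MulAut.conjNormal g⁻¹ a) := by
    intro g χ v hv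
    refine (hP _ _).2 fun a => ?_
    rw [← map_smul, ← (hP _ _).1 hv, ← End.mul_apply, ← End.mul_apply, ← map_mul, ← map_mul]
    simp [mul_assoc]
  letI : MulAction G {χ // P χ ≠ ⊥} :=
    { smul := fun g χ => ⟨fun a => χ.1 (MulAut.conjNormal g⁻¹ a), by
        obtain ⟨v, hv, hv0⟩ := Submodule.exists_mem_ne_zero_of_ne_bot χ.2
        exact Submodule.ne_bot_iff _ |>.2 ⟨_, h3 g _ v hv, fun e =>
          hv0 (rep_inj ρ g (e.trans (map_zero _).symm))⟩⟩
      one_smul := fun χ => Subtype.ext (funext fun a => by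
        change χ.1 (MulAut.conjNormal 1⁻¹ a) = _
        simp)
      mul_smul := fun g k χ => Subtype.ext (funext fun a => by
        change χ.1 (MulAut.conjNormal (g * k)⁻¹ a) =
          χ.1 (MulAut.conjNormal k⁻¹ (MulAut.conjNormal g⁻¹ a))
        rw [mul_inv_rev, map_mul]; rfl) }
  have h4 := (iSup_ne_bot_subtype P).trans h2
  letI := h1.fintypeNeBotOfFiniteDimensional
  refine ⟨{χ // P χ ≠ ⊥}, inferInstance, inferInstance, fun ω => P ω, Subtype.val,
    Subtype.val_injective, fun ω => ω.2, h4, ?_, fun g ω => h3 g ω, fun ω => hP ω,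
    fun χ' v hv h => ⟨⟨χ', (Submodule.ne_bot_iff _).2 ⟨v, (hP _ _).2 h, hv⟩⟩, rfl⟩⟩
  rw [← finrank_directSum]
  exact (LinearEquiv.ofBijective (DirectSum.coeLinearMap fun ω : {χ // P χ ≠ ⊥} => P ω)
    (DirectSum.isInternal_submodule_of_iSupIndep_of_iSup_eq_top
      (h1.comp Subtype.val_injective) h4)).finrank_eq

theorem fix_le [Finite G] (ρ : Representation K G V) {Ω : Type*} [Finite Ω] [MulAction G Ω]
    (W : Ω → Submodule K V) (h1 : ⨆ ω, W ω = ⊤) (h2 : ∀ g ω, ∀ v ∈ W ω, ρ g v ∈ W (g • ω))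
    {d : ℕ} (h3 : ∀ ω, finrank K (W ω) ≤ d) {x : G} {p : ℕ} (hp : p.Prime) (hx : orderOf x = p) :
    p * finrank K (LinearMap.ker (ρ x - 1)) ≤
      d * (Nat.card Ω + (p - 1) * (MulAction.fixedBy Ω x).ncard) := by
  classical
  have := Fintype.ofFinite Ω
  have := Fintype.ofFinite (zpowers x)
  have := Fintype.ofFinite (MulAction.orbitRel.Quotient (zpowers x) Ω)
  have h4 : ∀ k : ℕ, ∀ v, ρ (x ^ k) v - v ∈ LinearMap.range (ρ x - 1) := fun k v => by
    induction k with
    | zero => simp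
    | succ k ih =>
      have : ρ (x ^ (k + 1)) v - v = (ρ x - 1) (ρ (x ^ k) v) + (ρ (x ^ k) v - v) := by
        rw [pow_succ', map_mul]; simp
      rw [this]
      exact add_mem ⟨_, rfl⟩ ih
  have h5 : ⊤ ≤ (⨆ c : MulAction.orbitRel.Quotient (zpowers x) Ω, W c.out) ⊔
      LinearMap.range (ρ x - 1) := by
    rw [← h1]
    refine iSup_le fun ω v hv => ?_
    obtain ⟨g, hg⟩ : (Quotient.mk'' ω : MulAction.orbitRel.Quotient (zpowers x) Ω).out ∈
      MulAction.orbit (zpowers x) ω := MulAction.orbitRel_apply.1 (Quotient.exact' (Quotient.out_eq' _))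
    obtain ⟨k, hk⟩ := mem_powers_iff_mem_zpowers.2 g.2
    have a1 := h2 g ω v hv
    rw [show (g : G) • ω = _ from hg] at a1
    have a2 := h4 k v
    rw [show x ^ k = g from hk] at a2
    rw [← sub_sub_cancel (ρ g v) v]
    exact sub_mem (Submodule.mem_sup_left (Submodule.mem_iSup_of_mem (Quotient.mk'' ω) a1))
      (Submodule.mem_sup_right a2)
  have h6 := ((Submodule.finrank_mono h5).trans
    (Submodule.finrank_add_le_finrank_add_finrank _ _)).trans (Nat.add_le_add_right
      ((finrank_iSup_le_sum _).trans (Finset.sum_le_card_nsmul _ _ d fun c _ => h3 _)) _)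
  rw [finrank_top, ← LinearMap.finrank_range_add_finrank_ker (ρ x - 1), add_comm,
    Nat.add_le_add_iff_right, smul_eq_mul, Finset.card_univ] at h6
  have h7 := MulAction.sum_card_fixedBy_eq_card_orbits_mul_card_group (zpowers x) Ω
  have h8 : Fintype.card (zpowers x) = p := by rw [← Nat.card_eq_fintype_card, Nat.card_zpowers, hx]
  rw [← Finset.add_sum_erase _ _ (Finset.mem_univ 1), h8] at h7
  have h9 := Finset.sum_le_card_nsmul (Finset.univ.erase (1 : zpowers x))
    (fun g => Fintype.card (MulAction.fixedBy Ω g)) (MulAction.fixedBy Ω x).ncard fun g hg => by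
      rw [← Nat.card_eq_fintype_card, Nat.card_coe_set_eq]
      refine Set.ncard_le_ncard fun ω hω => ?_
      have := Fact.mk hp
      exact (zpowers_le.2 (show g ∈ MulAction.stabilizer (zpowers x) ω from hω)
        (mem_zpowers_of_prime_card ((Nat.card_zpowers x).trans hx) (Finset.ne_of_mem_erase hg)
          (g' := ⟨x, mem_zpowers x⟩)) :)
  rw [Finset.card_erase_of_mem (Finset.mem_univ _), Finset.card_univ, h8, smul_eq_mul] at h9
  have h10 : Fintype.card (MulAction.fixedBy Ω (1 : zpowers x)) ≤ Nat.card Ω := by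
    rw [Nat.card_eq_fintype_card]; exact Fintype.card_subtype_le _
  calc _ ≤ p * (_ * d) := Nat.mul_le_mul_left _ h6
    _ = d * (_ * p) := by ring
    _ ≤ _ := Nat.mul_le_mul_left _ (h7.ge.trans (Nat.add_le_add h10 h9))

theorem sq_add_one_le (ρ : Representation K G V) {x : G} (hx : ρ x ≠ 1) :
    finrank K (LinearMap.ker (ρ x - 1)) ^ 2 + 1 ≤
      finrank K (LinearMap.ker (Representation.linHom ρ ρ x - 1)) := by
  set C := LinearMap.ker (ρ x - 1)
  set R := LinearMap.range (ρ x - 1)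
  let Φ : ((V ⧸ R) →ₗ[K] C) →ₗ[K] (V →ₗ[K] V) :=
    (LinearMap.llcomp K V C V C.subtype).comp (LinearMap.lcomp K C R.mkQ)
  have hΦ : ∀ f v, Φ f v = f (R.mkQ v) := fun f v => rfl
  have h1 : Function.Injective Φ := (injective_iff_map_eq_zero _).2 fun f hf =>
    LinearMap.ext fun v => by
      obtain ⟨v, rfl⟩ := R.mkQ_surjective v
      exact Subtype.ext (LinearMap.congr_fun hf v)
  have h2 : finrank K (V ⧸ R) = finrank K C := by
    have a1 := Submodule.finrank_quotient_add_finrank R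
    have a2 := LinearMap.finrank_range_add_finrank_ker (ρ x - 1)
    change finrank K R + finrank K C = _ at a2
    omega
  rw [pow_two, ← h2, Nat.add_one_le_iff]
  conv_lhs => rw [h2]; lhs; rw [← h2]
  rw [← finrank_linearMap K K, ← LinearMap.finrank_range_of_inj h1]
  refine Submodule.finrank_lt_finrank_of_lt (SetLike.lt_iff_le_and_exists.2 ⟨?_, LinearMap.id, ?_, ?_⟩)
  · rintro _ ⟨f, rfl⟩
    refine sub_eq_zero.2 (LinearMap.ext fun v => ?_)
    change ρ x (f (R.mkQ (ρ x⁻¹ v))) = f (R.mkQ v)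
    rw [sub_eq_zero.1 (f _).2]
    refine congrArg (fun w => (f w : V)) ((Submodule.Quotient.eq R).2 ⟨-ρ x⁻¹ v, ?_⟩)
    have := rep_inv' ρ x⁻¹ v
    rw [inv_inv] at this
    simp [this, neg_add_eq_sub]
  · refine sub_eq_zero.2 (LinearMap.ext fun v => ?_)
    simpa using rep_inv' ρ x⁻¹ v
  · rintro ⟨f, hf⟩
    refine hx (sub_eq_zero.1 (LinearMap.ext fun v => ?_))
    have := LinearMap.congr_fun hf ((ρ x - 1) v)
    rw [hΦ, (Submodule.Quotient.mk_eq_zero R).2 ⟨v, rfl⟩ |> (R.mkQ_apply _).trans, map_zero] at this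
    exact this.symm

theorem finrank_ker_le (T : End K V) (W : Submodule K V) (h : W ≤ W.comap T) :
    finrank K (LinearMap.ker (T - 1)) ≤ finrank K (LinearMap.ker (T.restrict h - 1)) +
      finrank K (LinearMap.ker (W.mapQ W T h - 1)) := by
  rw [← LinearMap.finrank_range_add_finrank_ker (W.mkQ.domRestrict (LinearMap.ker (T - 1))),
    add_comm]
  refine Nat.add_le_add ?_ (Submodule.finrank_mono ?_)
  · rw [← Submodule.finrank_map_subtype_eq, ← Submodule.finrank_map_subtype_eq W]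
    refine Submodule.finrank_mono ?_
    rintro _ ⟨v, hv, rfl⟩
    exact ⟨⟨v, (Submodule.Quotient.mk_eq_zero W).1 hv⟩, Subtype.ext v.2, rfl⟩
  · rintro _ ⟨v, rfl⟩
    exact sub_eq_zero.2 (congrArg W.mkQ (sub_eq_zero.1 v.2))

end lin

section perm
variable {G : Type u} [Group G] [Finite G]

theorem ncard_fixedBy_mul (H : Subgroup G) (x : G) :
    Nat.card H * (MulAction.fixedBy (G ⧸ H) x).ncard = {g : G | g⁻¹ * x * g ∈ H}.ncard := by
  rw [← Nat.card_coe_set_eq, ← QuotientGroup.card_preimage_mk, Nat.card_coe_set_eq]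
  congr 1
  ext g
  change ((x * g : G) : G ⧸ H) = g ↔ _
  rw [eq_comm, QuotientGroup.eq, ← mul_assoc]
  rfl

theorem three_le_index_fx {M : Type*} [CommGroup M] [Finite M] {ψ : G →* MulAut M} {r d : ℕ}
    (hr : r.Prime) (hM : Nat.card M = r ^ d) {x : G} {p : ℕ} (hp : Odd p) (hx : x ^ p = 1)
    (h : ψ x ≠ 1) : 3 ≤ (fx ψ x).index := by
  have h1 : (fx ψ x).index ≠ 1 := fun e => h (MulEquiv.ext fun v => (index_eq_one.1 e).ge (mem_top v))
  have h0 : (fx ψ x).index ≠ 0 := index_ne_zero_of_finite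
  by_contra h2
  have h3 : (fx ψ x).index = 2 := by omega
  obtain rfl := (Nat.prime_dvd_prime_iff_eq Nat.prime_two hr).1
    (Nat.prime_two.dvd_of_dvd_pow (hM ▸ h3 ▸ index_dvd_card _ : 2 ∣ r ^ d))
  obtain ⟨v, hv⟩ : ∃ v, v ∉ fx ψ x := by
    by_contra hne
    push Not at hne
    exact h (MulEquiv.ext hne)
  have h4 : ψ x v * v⁻¹ ∈ fx ψ x := (mul_mem_iff_of_index_two h3).2 ⟨fun e =>
    absurd ((ψ x).injective e) hv, fun e => absurd (inv_mem_iff.1 e) hv⟩
  have h5 : ∀ k : ℕ, ψ (x ^ k) v = (ψ x v * v⁻¹) ^ k * v := fun k => by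
    induction k with
    | zero => simp
    | succ k ih =>
      rw [pow_succ', act_mul, ih, map_mul, mem_fx.1 (pow_mem h4 k), pow_succ, mul_assoc,
        inv_mul_cancel_right]
  have h6 := h5 p
  rw [hx, act_one, eq_comm, mul_eq_right] at h6
  have h7 := (pow_gcd_eq_one.2 ⟨h6, pow_card_eq_one'⟩)
  rw [hM, Nat.Coprime.gcd_eq_one (Nat.Coprime.pow_right _ (Nat.coprime_two_right.2 hp)), pow_one,
    mul_inv_eq_one] at h7
  exact hv h7

theorem three_mul_fixedBy [Group.IsSolvable G] {Ω : Type*} [Finite Ω] [Nontrivial Ω] [MulAction G Ω]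
    [MulAction.IsPretransitive G Ω] {x : G} (hx : normalClosure ({x} : Set G) = ⊤) {p : ℕ}
    (hp : Odd p) (hxp : x ^ p = 1) : 3 * (MulAction.fixedBy Ω x).ncard ≤ Nat.card Ω := by
  obtain ⟨ω, ω', hω⟩ := exists_pair_ne Ω
  obtain ⟨H, hH, h1⟩ := (eq_top_or_exists_le_coatom (MulAction.stabilizer G ω)).resolve_left
    fun e => by
      obtain ⟨g, hg⟩ := MulAction.exists_smul_eq G ω ω'
      exact hω ((e.ge (mem_top g) : g • ω = ω).symm.trans hg)
  obtain ⟨M, _, _, ψ, β, r, d, h⟩ := exists_affD hH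
  have h2 : 3 * (MulAction.fixedBy (G ⧸ H) x).ncard ≤ H.index := by
    rcases (MulAction.fixedBy (G ⧸ H) x).eq_empty_or_nonempty with e | ⟨c, hc⟩
    · rw [e]; simp
    have a1 := h.act x c
    rw [show x • c = c from hc] at a1
    have a2 : ψ x ≠ 1 := fun e => by
      rw [e, MulAut.one_apply, eq_comm, mul_eq_right] at a1
      have a3 : x ∈ (MulAction.toPermHom G (G ⧸ H)).ker := Equiv.ext fun c => β.injective (by
        change β (x • c) = β c
        rw [h.act, a1, e, one_mul, MulAut.one_apply])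
      rw [← normalCore_eq_ker] at a3
      exact hH.1 (top_le_iff.1 (hx.ge.trans ((normalClosure_le_normal
        (Set.singleton_subset_iff.2 a3)).trans (normalCore_le H))))
    have a3 : (MulAction.fixedBy (G ⧸ H) x).ncard ≤ (fx ψ x : Set M).ncard := by
      refine Set.ncard_le_ncard_of_injOn (fun c' => β c' / β c) (fun c' hc' => ?_)
        fun _ _ _ _ e => β.injective (div_left_injective e)
      have a4 := h.act x c'
      rw [show x • c' = c' from hc'] at a4
      change ψ x (β c' / β c) = β c' / β c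
      conv_rhs => rw [a4, a1]
      rw [map_div, mul_div_mul_left_eq_div]
    rw [h.index, ← (fx ψ x).index_mul_card]
    exact Nat.mul_le_mul (three_le_index_fx h.prime h.card hp hxp a2) a3
  have h3 : (MulAction.fixedBy Ω x).ncard ≤
      (MulAction.fixedBy (G ⧸ MulAction.stabilizer G ω) x).ncard := by
    rw [← Set.ncard_image_of_injective _ (MulAction.injective_ofQuotientStabilizer G ω)]
    refine Set.ncard_le_ncard fun a ha => ?_
    obtain ⟨g, rfl⟩ := MulAction.exists_smul_eq G ω a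
    exact ⟨(g : G ⧸ _), MulAction.injective_ofQuotientStabilizer G ω (by
      rw [MulAction.ofQuotientStabilizer_smul]; exact ha), rfl⟩
  refine Nat.le_of_mul_le_mul_left ?_ (Nat.card_pos (α := MulAction.stabilizer G ω))
  rw [← MulAction.index_stabilizer_of_transitive G ω, card_mul_index, ← H.card_mul_index]
  calc _ ≤ _ * (3 * _) := Nat.mul_le_mul_left _ (Nat.mul_le_mul_left _ h3)
    _ = 3 * (_ * _) := Nat.mul_left_comm _ _ _
    _ ≤ 3 * (Nat.card H * _) := by
      rw [ncard_fixedBy_mul, ncard_fixedBy_mul]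
      exact Nat.mul_le_mul_left _ (Set.ncard_le_ncard fun g hg => h1 hg)
    _ = _ * (3 * _) := Nat.mul_left_comm _ _ _
    _ ≤ _ := Nat.mul_le_mul_left _ h2

theorem isSquare_relIndex_of_nondeg {U I : Subgroup G} [IsCyclic U] (hU : U ≤ center G)
    (h1 : U ≤ I) (h2 : ∀ a ∈ I, ∀ b ∈ I, ⁅a, b⁆ ∈ U) (h3 : I ⊓ centralizer (I : Set G) ≤ U) :
    IsSquare (U.relIndex I) := by
  have com : ∀ (x : G) {u : G}, u ∈ U → Commute x u := fun x u hu => mem_center_iff.1 (hU hu) x
  obtain ⟨A, h4, hA⟩ := exists_maximal_ge_of_wellFoundedGT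
    (fun A : Subgroup G => A ≤ I ∧ A ≤ centralizer (A : Set G)) U
    ⟨h1, hU.trans (center_le_centralizer _)⟩
  have h5 : I ⊓ centralizer (A : Set G) = A := by
    refine le_antisymm (fun x hx => ?_) (le_inf hA.1.1 hA.1.2)
    have h5 : A ⊔ zpowers x ≤ centralizer (A : Set G) := sup_le hA.1.2 (zpowers_le.2 hx.2)
    refine hA.2 (y := A ⊔ zpowers x) ⟨sup_le hA.1.1 (zpowers_le.2 hx.1), sup_le
      (le_centralizer_iff.1 h5) (le_centralizer_iff.1 (sup_le
        (le_centralizer_iff.1 (zpowers_le.2 hx.2)) (le_centralizer _)))⟩ le_sup_left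
      (mem_sup_right (mem_zpowers x))
  letI : CommGroup U := IsCyclic.commGroup
  let β : I →* A →* U := MonoidHom.mk' (fun n => MonoidHom.mk'
    (fun l => ⟨⁅(n : G), (l : G)⁆, h2 _ n.2 _ (hA.1.1 l.2)⟩) fun a b => Subtype.ext
      (comm_mul_right (com _ (h2 _ n.2 _ (hA.1.1 b.2))))) fun a b =>
      MonoidHom.ext fun l => Subtype.ext (comm_mul_left
        (com _ (h2 _ b.2 _ (hA.1.1 l.2))) (com _ (h2 _ b.2 _ (hA.1.1 l.2))))
  have e := H1.index_ker_eq_index_ker_flip β
  have e1 : β.ker = A.subgroupOf I := by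
    ext n
    rw [MonoidHom.mem_ker, mem_subgroupOf, MonoidHom.ext_iff]
    exact ⟨fun h1 => h5.le ⟨n.2, fun l hl => (commutatorElement_eq_one_iff_mul_comm.1
      (congrArg Subtype.val (h1 ⟨l, hl⟩))).symm⟩, fun h1 l => Subtype.ext
        (commutatorElement_eq_one_iff_mul_comm.2 (hA.1.2 h1 l l.2).symm)⟩
  have e2 : β.flip.ker = U.subgroupOf A := by
    ext l
    rw [MonoidHom.mem_ker, mem_subgroupOf, MonoidHom.ext_iff]
    exact ⟨fun h1 => h3 ⟨hA.1.1 l.2, fun n hn => commutatorElement_eq_one_iff_mul_comm.1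
      (congrArg Subtype.val (h1 ⟨n, hn⟩))⟩, fun h1 n => Subtype.ext
        (commutatorElement_eq_one_iff_mul_comm.2 (com _ h1).eq)⟩
  rw [e1, e2] at e
  exact ⟨_, (relIndex_mul_relIndex U A I h4 hA.1.1).symm.trans (congrArg _ e)⟩

end perm

end CfsgLib.SLin
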